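import Cfsg.Agent.E83.B

/-! Alternating subgroups of `F₄(q)`: definitions and Scott's lemma. -/

set_option autoImplicit false

namespace CF.Al

open Module CF.E83 Finset

section
variable {K V W : Type*} [Field K] [AddCommGroup V] [Module K V] [AddCommGroup W] [Module K W]
  {S : Type*} [Group S]

/-- The common fixed space. -/
def Fx (r : S →* End K V) : Submodule K V := ⨅ g, fs (r g)

/-- The commutator space. -/
def Cx (r : S →* End K V) : Submodule K V := ⨆ g, LinearMap.range (r g - 1)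

/-- An automorphism of order two centralizes the centralizer of `x`. -/
def Iv (x : S) : Prop := ∃ α : MulAut S, α ≠ 1 ∧ α * α = 1 ∧ ∀ c, Commute c x → α c = c

/-- The representation is written over the subfield `F`. -/
def Rt (F : Subfield K) (r : S →* End K V) : Prop :=
  ∃ b : Basis (Fin (finrank K V)) K V, ∀ x i j, b.repr (r x (b i)) j ∈ F

/-- `x` is diagonal in the basis `b` and has the eigenvalues of the torus element `c`. -/
def Dg {n : ℕ} (w : List (List ℤ)) (r : S →* End K V) (b : Basis (Fin n) K V) (x : S)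
    (c : Fin 4 → Kˣ) : Prop :=
  ∀ a : Fin n, r x (b a) = ((∏ i : Fin 4, c i ^ (w.getD a []).getD i 0 : Kˣ) : K) • b a

/-- `β` is the Brauer character of `r`. -/
structure Br [Fintype S] (r : S →* End K V) (β : S → ℂ) : Prop where
  conj : ∀ g h, β (h * g * h⁻¹) = β g
  rk : ∀ (a : S → ℤ) (N : ℤ), (N : K) ≠ 0 → (∀ g, ∑ h, a h * a (h⁻¹ * g) = N * a g) →
    ∑ g, (a g : ℂ) * β g = N * finrank K (LinearMap.range (∑ g, (a g : K) • r g))

/-- The short roots. -/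
def wS : List (List ℤ) := [[-1, 0, 0, 0], [1, -1, 0, 0], [0, 1, -1, 0], [0, -1, 1, -1],
  [0, -1, 0, 1], [-1, 1, 0, -1], [-1, 1, -1, 1], [-1, -1, 1, 0], [-2, 1, 0, 0], [1, 0, 0, -1],
  [1, 0, -1, 1], [1, -2, 1, 0], [-1, 2, -1, 0], [-1, 0, 1, -1], [-1, 0, 0, 1], [2, -1, 0, 0],
  [1, 1, -1, 0], [1, -1, 1, -1], [1, -1, 0, 1], [0, 1, 0, -1], [0, 1, -1, 1], [0, -1, 1, 0],
  [-1, 1, 0, 0], [1, 0, 0, 0]]

/-- The long roots. -/
def wL : List (List ℤ) := [[0, 0, 0, -1], [0, 0, -1, 1], [0, -2, 1, 0], [-2, 2, -1, 0],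
  [-2, 0, 1, -1], [-2, 0, 0, 1], [2, 0, -1, 0], [2, -2, 1, -1], [2, -2, 0, 1], [0, 2, -1, -1],
  [0, 2, -2, 1], [0, 0, 1, -2], [0, 0, -1, 2], [0, -2, 2, -1], [0, -2, 1, 1], [-2, 2, 0, -1],
  [-2, 2, -1, 1], [-2, 0, 1, 0], [2, 0, 0, -1], [2, 0, -1, 1], [2, -2, 1, 0], [0, 2, -1, 0],
  [0, 0, 1, -1], [0, 0, 0, 1]]

/-- The weights of the module of dimension `27` (zero from position `24` on). -/
abbrev w27 := wS

/-- The weights of the adjoint module (zero from position `48` on). -/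
def w52 : List (List ℤ) := wS ++ wL

/-- A module of dimension `27` with small fixed and cofixed spaces. -/
structure Md (r : S →* End K V) : Prop where
  dim : finrank K V = 27
  fx : finrank K (Fx r) = 1
  cx : finrank K (Cx r) = 26

/-- Dimensions of fixed spaces, characteristic two. -/
structure T2 (r r' : S →* End K V) : Prop where
  ch : (2 : K) = 0
  t3 : ∀ x, x ^ 3 = 1 → 9 ≤ dm r x ∧ 9 ≤ dm r' x
  t5 : ∀ x, x ^ 5 = 1 → (7 ≤ dm r x ∨ 7 ≤ dm r' x) ∧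
    (IsConj x (x ^ 2) → 7 ≤ dm r x ∧ 7 ≤ dm r' x)
  t7 : ∀ x, x ^ 7 = 1 → IsConj x (x ^ 2) → 9 ≤ dm r x ∨ 9 ≤ dm r' x

/-- What is known about the alternating group in characteristic two. -/
structure H2 (r r' : S →* End K V) : Prop extends T2 r r' where
  m : Md r
  m' : Md r'
  sp : Fx r ⊓ Cx r = ⊥
  sp' : Fx r' ⊓ Cx r' = ⊥

/-- Dimensions of fixed spaces, odd characteristic. -/
structure Tb (r : S →* End K V) (l : S →* End K W) : Prop where
  h2 : (2 : K) ≠ 0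
  dr : finrank K V = 27
  dl : finrank K W = 52
  t2 : ∀ x, x ^ 2 = 1 → x ≠ 1 → (dm r x = 11 ∧ dm l x = 36) ∨ (dm r x = 15 ∧ dm l x = 24)
  t3 : (3 : K) ≠ 0 → ∀ x, x ^ 3 = 1 → x ≠ 1 →
    (dm r x = 9 ∧ dm l x = 16) ∨ (dm r x = 9 ∧ dm l x = 22) ∨ (dm r x = 15 ∧ dm l x = 22)
  t4 : ∀ x, x ^ 4 = 1 → x ^ 2 ≠ 1 →
    (dm r (x ^ 2) = 11 ∧ 18 ≤ dm l x) ∨ (dm r (x ^ 2) = 15 ∧
      ((dm r x = 7 ∧ dm l x = 14) ∨ dm r x = 9 ∨ dm r x = 15))
  t5 : (5 : K) ≠ 0 → ∀ x, x ^ 5 = 1 → x ≠ 1 → ((dm r x = 5 ∧ dm l x = 12) ∨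
    (dm r x = 7 ∧ dm l x = 12) ∨ (9 ≤ dm r x ∧ 12 ≤ dm l x)) ∧ (IsConj x (x ^ 2) → dm r x = 7)
  t7 : (7 : K) ≠ 0 → ∀ x, x ^ 7 = 1 → x ≠ 1 → IsConj x (x ^ 2) →
    (dm r x = 3 ∨ dm r x = 9) ∧ dm l x = 10

/-- What is known about the alternating group in odd characteristic. -/
structure Ho [Fintype S] (r : S →* End K V) (l : S →* End K W) : Prop extends Tb r l where
  m : Md r
  br : ∃ β, Br r β
  bl : ∃ β, Br l β
  u3 : (3 : K) ≠ 0 → Fx l ≠ ⊥ ∨ Cx l ≠ ⊤ → ∀ x, x ^ 3 = 1 → dm l x = 22 → Iv x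
  u5 : (5 : K) ≠ 0 → Fx l ≠ ⊥ ∨ Cx l ≠ ⊤ → ∀ x, x ^ 5 = 1 → x ≠ 1 → dm r x ≠ 7 → Iv x
  cnt : (5 : K) = 0 → Nat.card S = 60 → finrank K (Fx l) ≤ 8 ∧ 44 ≤ finrank K (Cx l)
  bp : (5 : K) ≠ 0 → ∀ x, x ^ 5 = 1 → dm r x = 5 → ∃ ζ : K, IsPrimitiveRoot ζ 5 ∧
    LinearMap.trace K V (r x) - LinearMap.trace K V (r (x ^ 2)) = ζ + ζ ^ 4 - ζ ^ 2 - ζ ^ 3 ∧
    ∀ a : S → ℤ, (∀ (α : MulAut S) g, a (α g) = a g) →
      finrank K (LinearMap.range (∑ g, (a g : K) • r g)) ≤ 3 →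
      LinearMap.range (∑ g, (a g : K) • r g) ≤
        fs (r x) ⊔ ((r x).eigenspace ζ ⊔ (r x).eigenspace (ζ ^ 4)) →
      Iv x ∨ LinearMap.range (∑ g, (a g : K) • r g) ≤ Fx r

/-- An involution in the centre of the centralizer of `x` that is trivial on the fixed space and
the cofixed space of `x`. -/
structure Zz (l : S →* End K W) (x z : S) : Prop where
  ne : z ≠ 1
  sq : z * z = 1
  cen : ∀ g, Commute g x → Commute g z
  fx : fs (l x) ≤ fs (l z)
  cx : LinearMap.range (l z - 1) ≤ LinearMap.range (l x - 1)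

/-- Existence of these involutions. -/
structure Tu (r : S →* End K V) (l : S →* End K W) : Prop where
  u3 : (3 : K) ≠ 0 → ∀ x, x ^ 3 = 1 → dm l x = 22 → ∃ z, Zz l x z
  u5 : (5 : K) ≠ 0 → ∀ x, x ^ 5 = 1 → x ≠ 1 → dm r x ≠ 7 → ∃ z, Zz l x z
  bp : (5 : K) ≠ 0 → ∀ x, x ^ 5 = 1 → dm r x = 5 → ∃ ζ : K, IsPrimitiveRoot ζ 5 ∧
    LinearMap.trace K V (r x) - LinearMap.trace K V (r (x ^ 2)) = ζ + ζ ^ 4 - ζ ^ 2 - ζ ^ 3 ∧
    ∃ z, Zz l x z ∧ fs (r x) ≤ fs (r z) ∧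
      (r x).eigenspace ζ ⊔ (r x).eigenspace (ζ ^ 4) ≤ fs (-r z)

/-- The value of a weight. -/
def ev (c : Fin 4 → Kˣ) (μ : List ℤ) : Kˣ := ∏ i : Fin 4, c i ^ μ.getD i 0

/-- `e` is the only involution of the torus on which the roots that vanish on `c` vanish. -/
def Un (c e : Fin 4 → Kˣ) : Prop := e ≠ 1 ∧ e * e = 1 ∧ (∀ μ ∈ w52, ev c μ = 1 → ev e μ = 1) ∧
  ∀ e', e' * e' = 1 → (∀ μ ∈ w52, ev c μ = 1 → ev e' μ = 1) → e' = 1 ∨ e' = e

/-- Semisimple elements in odd characteristic. -/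
def To (r : S →* End K V) (l : S →* End K W) : Prop :=
  ∀ x : S, (orderOf x : K) ≠ 0 → ∃ (c : Fin 4 → Kˣ) (b : Basis (Fin 27) K V)
    (b' : Basis (Fin 52) K W), orderOf c = orderOf x ∧ Dg wS r b x c ∧ Dg w52 l b' x c ∧
      ∀ e, Un c e → ∃ z, z ≠ 1 ∧ z * z = 1 ∧ (∀ g, Commute g x → Commute g z) ∧
        Dg wS r b z e ∧ Dg w52 l b' z e

/-- Semisimple elements in characteristic two. -/
def Te (r r' : S →* End K V) : Prop :=
  ∀ x : S, (orderOf x : K) ≠ 0 → ∃ (c : Fin 4 → Kˣ) (b b' : Basis (Fin 27) K V),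
    orderOf c = orderOf x ∧ Dg wS r b x c ∧ Dg wL r' b' x c

/-- The group `F₄(q)`, `q` odd. -/
structure Do (q : ℕ) (F : Subfield K) (r : S →* End K V) (l : S →* End K W) : Prop where
  h2 : (2 : K) ≠ 0
  fin : Finite F
  card : Nat.card F ≤ q
  rr : Rt F r
  rl : Rt F l
  m : Md r
  fl : Fx l = ⊥
  cl : Cx l = ⊤
  tor : To r l
  two : ∃ E : Multiplicative (Fin 4 → ZMod 2) →* S, Function.Injective E

/-- The group `F₄(q)`, `q` even. -/
structure De (q : ℕ) (F : Subfield K) (r r' : S →* End K V) : Prop where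
  ch : (2 : K) = 0
  fin : Finite F
  card : Nat.card F ≤ q
  rr : Rt F r
  rr' : Rt F r'
  m : Md r
  m' : Md r'
  sp : Fx r ⊓ Cx r = ⊥
  sp' : Fx r' ⊓ Cx r' = ⊥
  tor : Te r r'

/-- A maximal subgroup `H` with `j(A) ≤ H ≤ Aut(A)`. -/
structure Mx {X A : Type*} [Group X] [Group A] (H : Subgroup X) (j : A →* X) : Prop where
  co : IsCoatom H
  inj : Function.Injective j
  le : ∀ g, j g ∈ H
  nor : ∀ h ∈ H, ∀ g, ∃ g', h * j g * h⁻¹ = j g'
  sq : ∀ h ∈ H, ∃ g, h * h = j g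
  cen : ∀ h ∈ H, (∀ g, Commute (j g) h) → h = 1
  c4 : Nat.card H ≤ 4 * Nat.card A
  c2 : Nat.card A = 60 → Nat.card H ≤ 120

variable {r : S →* End K V}

theorem mem_Fx {v : V} : v ∈ Fx r ↔ ∀ g, r g v = v := by simp [Fx, mem_fs]

theorem sub_mem_Cx (g : S) (v : V) : r g v - v ∈ Cx r :=
  Submodule.mem_iSup_of_mem g ⟨v, rfl⟩

theorem Cx_le {U : Submodule K V} : Cx r ≤ U ↔ ∀ g v, r g v - v ∈ U :=
  iSup_le_iff.trans (forall_congr' fun _ => ⟨fun h v => h ⟨v, rfl⟩, by rintro h _ ⟨v, rfl⟩; exact h v⟩)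

theorem Fx_le_comp {A : Type*} [Group A] (j : A →* S) : Fx r ≤ Fx (r.comp j) :=
  fun _ hv => mem_Fx.2 fun g => mem_Fx.1 hv (j g)

theorem Cx_comp_le {A : Type*} [Group A] (j : A →* S) : Cx (r.comp j) ≤ Cx r :=
  Cx_le.2 fun g => sub_mem_Cx (j g)

theorem dm_one : dm r 1 = finrank K V := by
  rw [dm, show fs (r 1) = ⊤ from eq_top_iff.2 fun v _ => by simp [mem_fs], finrank_top]

variable [FiniteDimensional K V]

theorem dm_conj {x y : S} (h : IsConj x y) : dm r x = dm r y := by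
  obtain ⟨u, rfl⟩ := isConj_iff.1 h
  rw [dm, dm, map_mul, map_mul, fs_conj]

theorem dm_le_pow (x : S) (k : ℕ) : dm r x ≤ dm r (x ^ k) :=
  Submodule.finrank_mono fun v hv => mem_fs.2 (by
    rw [map_pow, End.pow_apply, Function.iterate_fixed (mem_fs.1 hv)])

theorem dm_add_le (x y : S) : dm r x + dm r y ≤ finrank K V + dm r (x * y) := by
  have h1 := Submodule.finrank_sup_add_finrank_inf_eq (fs (r x)) (fs (r y))
  have h2 : fs (r x) ⊓ fs (r y) ≤ fs (r (x * y)) := fun v hv => mem_fs.2 (by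
    rw [map_mul, End.mul_apply, mem_fs.1 hv.2, mem_fs.1 hv.1])
  have := Submodule.finrank_mono h2
  have := Submodule.finrank_le (fs (r x) ⊔ fs (r y))
  unfold dm
  omega

/-- Scott's lemma. -/
theorem sco {x y : S} (h : ∀ H : Subgroup S, x ∈ H → y ∈ H → H = ⊤) :
    dm r x + dm r y + dm r (x * y) + finrank K (Cx r) ≤ 2 * finrank K V + finrank K (Fx r) := by
  have h1 := scott (r x) (r y)
  have h2 := h (Sg r (fs (r x) ⊓ fs (r y)) (LinearMap.range (r x - 1) ⊔ LinearMap.range (r y - 1)))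
    ⟨fun v hv => mem_fs.1 hv.1, fun v => Submodule.mem_sup_left ⟨v, rfl⟩⟩
    ⟨fun v hv => mem_fs.1 hv.2, fun v => Submodule.mem_sup_right ⟨v, rfl⟩⟩
  have h3 : fs (r x) ⊓ fs (r y) ≤ Fx r := fun v hv => mem_Fx.2 fun g => (h2.ge trivial : g ∈ _).1 v hv
  have h4 : Cx r ≤ _ := Cx_le.2 fun g => (h2.ge trivial : g ∈ _).2
  have := Submodule.finrank_mono h3
  have := Submodule.finrank_mono h4
  rw [← map_mul] at h1
  unfold dm
  omega

theorem Md.sco (m : Md r) {x y : S} (h : ∀ H : Subgroup S, x ∈ H → y ∈ H → H = ⊤) :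
    dm r x + dm r y + dm r (x * y) ≤ 29 := by
  have := Al.sco (r := r) h
  rw [m.dim, m.fx, m.cx] at this
  omega

theorem sco' {x y : S} (h : ∀ H : Subgroup S, x ∈ H → y ∈ H → H = ⊤)
    (e : finrank K V < dm r x + dm r y + dm r (x * y)) : Fx r ≠ ⊥ ∨ Cx r ≠ ⊤ := by
  by_contra! k
  have := sco (r := r) h
  rw [k.1, k.2, finrank_top, finrank_bot] at this
  omega

theorem nil_le {N : End K V} {k : ℕ} (h : N ^ k = 0) :
    finrank K V ≤ k * finrank K (LinearMap.ker N) := by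
  have : ∀ k, finrank K (LinearMap.ker (N ^ k)) ≤ k * finrank K (LinearMap.ker N) := fun k => by
    induction k with
    | zero => simp [End.one_eq_id]
    | succ k ih =>
      have h1 := rk_map N (LinearMap.ker (N ^ (k + 1)))
      have h2 : (LinearMap.ker (N ^ (k + 1))).map N ≤ LinearMap.ker (N ^ k) := by
        rintro _ ⟨v, hv, rfl⟩; simpa [pow_succ] using hv
      have := Submodule.finrank_mono h2
      have := Submodule.finrank_mono (inf_le_right (a := LinearMap.ker (N ^ (k + 1))) (b := LinearMap.ker N))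
      rw [add_mul]; omega
  have := this k
  rwa [h, LinearMap.ker_zero, finrank_top] at this

/-- Unipotent elements. -/
theorem unip {p : ℕ} [Fact p.Prime] (hp : (p : K) = 0) {x : S} {k : ℕ} (h : x ^ p ^ k = 1) :
    finrank K V ≤ p ^ k * dm r x := by
  have : CharP K p := (CharP.charP_iff_prime_eq_zero Fact.out).2 hp
  rcases subsingleton_or_nontrivial (End K V) with e | e
  · have : Subsingleton V := ⟨fun a b => by
      rw [← End.one_apply (R := K) a, ← End.one_apply (R := K) b, Subsingleton.elim (1 : End K V) 0]; rfl⟩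
    simp [finrank_zero_of_subsingleton]
  have : CharP (End K V) p := charP_of_injective_algebraMap (algebraMap K _).injective p
  exact nil_le (by rw [sub_pow_char_pow_of_commute _ _ (Commute.one_right _), ← map_pow, h]; simp)

variable {A : Type*} [Group A] {j : A →* S}

omit [FiniteDimensional K V] in
theorem T2.comp {r' : S →* End K V} (h : T2 r r') (j : A →* S) : T2 (r.comp j) (r'.comp j) where
  ch := h.ch
  t3 x e := h.t3 (j x) (by rw [← map_pow, e, map_one])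
  t5 x e := (h.t5 (j x) (by rw [← map_pow, e, map_one])).imp_right
    fun k c => k (map_pow j x 2 ▸ j.map_isConj c)
  t7 x e c := h.t7 (j x) (by rw [← map_pow, e, map_one]) (map_pow j x 2 ▸ j.map_isConj c)

omit [FiniteDimensional K V] in
theorem Tb.comp {l : S →* End K W} (h : Tb r l) (hj : Function.Injective j) :
    Tb (r.comp j) (l.comp j) where
  h2 := h.h2
  dr := h.dr
  dl := h.dl
  t2 x e k := h.t2 (j x) (by rw [← map_pow, e, map_one]) (mt (map_eq_one_iff j hj).1 k)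
  t3 n x e k := h.t3 n (j x) (by rw [← map_pow, e, map_one]) (mt (map_eq_one_iff j hj).1 k)
  t4 x e k := by
    have := h.t4 (j x) (by rw [← map_pow, e, map_one])
      (by rw [← map_pow]; exact mt (map_eq_one_iff j hj).1 k)
    rw [← map_pow] at this
    exact this
  t5 n x e k := (h.t5 n (j x) (by rw [← map_pow, e, map_one])
    (mt (map_eq_one_iff j hj).1 k)).imp_right fun k c => k (map_pow j x 2 ▸ j.map_isConj c)
  t7 n x e k c := h.t7 n (j x) (by rw [← map_pow, e, map_one]) (mt (map_eq_one_iff j hj).1 k)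
    (map_pow j x 2 ▸ j.map_isConj c)

end

end CF.Al
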