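import Cfsg.Agent.Al.A
import Cfsg.Agent.Ev.B

/-! The Brauer character of a module that is written over a finite field. -/

set_option autoImplicit false

namespace CF.Al

open Module CF.E83 Cfsg Finset MonoidAlgebra LinearMap CF.Block
open CF.BlockB (v k resC nrm ev)
open CF.Ev (lin lin_single B.rk_bc B.idemInv B.geo)

variable {K S V : Type*} [Field K] [Group S] [Fintype S] [AddCommGroup V] [Module K V]

/-- the action of the integral group ring -/
noncomputable def alg (r : S →* End K V) : ℤ[S] →+* End K V := (MonoidAlgebra.lift ℤ _ S r).toRingHom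

omit [Fintype S] in
@[simp] theorem alg_single (r : S →* End K V) (g : S) (c : ℤ) : alg r (single g c) = c • r g :=
  MonoidAlgebra.lift_single r g c

theorem alg_apply (r : S →* End K V) (A : ℤ[S]) : alg r A = ∑ g, (A.coeff g : K) • r g := by
  simp only [Int.cast_smul_eq_zsmul]
  exact (MonoidAlgebra.lift_apply r A).trans (Finsupp.sum_fintype _ _ (by simp))

variable [FiniteDimensional K V] {r : S →* End K V} {β : S → ℂ}

theorem exists_br0 [Finite K] (r : S →* End K V) : ∃ β, Br r β := by
  classical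
  obtain ⟨p, hp⟩ := CharP.exists K
  have := Fact.mk (CharP.char_is_prime K p)
  obtain ⟨M, hM⟩ := BlockB.exists_isPModular (p := p) Fact.out
  have := BlockB.charP_k hM
  let _ := ZMod.algebra (k M) p
  let _ := ZMod.algebra K p
  let _ := (IsAlgClosed.lift (R := ZMod p) (S := K) (M := k M)).toRingHom.toAlgebra
  let Φ := MonoidAlgebra.lift (k M) _ S ((End.baseChangeHom K (k M) V).toMonoidHom.comp r)
  have I := B.idemInv Φ
  obtain ⟨n, j, h1, h2, h3⟩ := exists_primReps (k := k M) (R := (k M)[S]) fun _ => True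
  obtain ⟨φ, c1, c2⟩ := exists_dual_family (linearIndependent_pch (fun i => (h1 i).1) h2)
  let β := ∑ i, (finrank (k M) (range (Φ (j i))) : ℂ) • φ i
  have hβ : IsClassFunction S β := Char.classFun_sum _ fun i _ => Char.classFun_smul _ (Submodule.span_induction
    (by rintro _ ⟨l, rfl⟩; exact pch_classFun _) Char.classFun_zero (fun _ _ _ _ => Char.classFun_add)
    (fun c _ _ => Char.classFun_smul c) (c1 i))
  have J := idemInv_tau_one (M := M) hβ
  have key : ∀ x, x * x = x → tau M β 1 x = finrank (k M) (range (Φ x)) := fun x hx =>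
    idem_induction (P := fun x => tau M β 1 x = finrank (k M) (range (Φ x))) (J.zero.trans I.zero.symm)
      (fun e he => by
        obtain ⟨i, hi⟩ := h3 e he trivial
        rw [J.of_iEq hi he.idem (h1 i).1.idem, ← inner_pch hβ (h1 i).1.idem, Char.inner_sum_left]
        simpa [Char.inner_smul_left, c2] using (I.of_iEq hi he.idem (h1 i).1.idem).symm)
      (fun e he f hf ee ff ef fe a b => by
        rw [J.add e he f hf ee ff ef fe, a, b]; exact (I.add e he f hf ee ff ef fe).symm) Algebra.mem_top hx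
  refine ⟨β, hβ, fun a N hN ha => ?_⟩
  rw [Ne, CharP.intCast_eq_zero_iff K p] at hN
  have N0 : (N : ℂ) ≠ 0 := Int.cast_ne_zero.2 fun e => hN (e ▸ dvd_zero _)
  have v1 := (BlockB.v_intCast_eq_one_iff hM N).2 hN
  have v2 : v M (N : ℂ)⁻¹ ≤ 1 := by rw [map_inv₀, v1, inv_one]
  let e : ℂ[S] := ofFun fun g => (N : ℂ)⁻¹ * a g
  have ee : e * e = e := MonoidAlgebra.ext (Finsupp.ext fun g => by
    have := congrArg (Int.cast (R := ℂ)) (ha g)
    push_cast at this
    simp only [coeff_mul_sum, e, coeff_ofFun, mul_mul_mul_comm _ (a _ : ℂ), ← mul_sum, this]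
    field_simp)
  have e1 : nrm M e ≤ 1 := BlockB.nrm_le_iff.2 fun g => by
    rw [coeff_ofFun, map_mul]; exact mul_le_one' v2 (BlockB.v_intCast_le_one M _)
  have c0 : resC M (N : ℂ)⁻¹ ≠ 0 := left_ne_zero_of_mul_eq_one (b := resC M N) (by
    rw [← BlockB.resC_mul v2 v1.le, inv_mul_cancel₀ N0, BlockB.resC_one])
  have := key _ (by rw [← red_mul e1 e1, ee])
  rw [tau_one_red hβ ee e1, show Φ (red M e) = resC M (N : ℂ)⁻¹ • (∑ g, (a g : K) • r g).baseChange (k M) from ?_,
    range_smul _ _ c0, B.rk_bc] at this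
  · rw [← this, BlockB.ev, LinearMap.comp_apply, Finsupp.linearCombination_apply, Finsupp.sum_fintype _ _ (by simp),
      mul_sum]
    exact sum_congr rfl fun g _ => by simp [e, ← mul_assoc, N0]
  · rw [MonoidAlgebra.lift_apply, Finsupp.sum_fintype _ _ (by simp), ← baseChangeHom_apply, map_sum, smul_sum]
    refine sum_congr rfl fun g _ => ?_
    rw [coeff_red, coeff_ofFun, BlockB.resC_mul v2 (BlockB.v_intCast_le_one M _), BlockB.resC_intCast, mul_smul,
      Int.cast_smul_eq_zsmul K, map_zsmul]
    exact congrArg _ (Int.cast_smul_eq_zsmul (k M) (a g) ((r g).baseChange (k M)))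

omit [Fintype S] [FiniteDimensional K V] in
/-- The model over the subfield. -/
theorem Rt.exists_model {F : Subfield K} (h : Rt F r) :
    ∃ (b : Basis (Fin (finrank K V)) K V) (N : S →* Matrix (Fin (finrank K V)) (Fin (finrank K V)) F),
      ∀ g, (N g).map F.subtype = toMatrix b b (r g) := by
  obtain ⟨b, hb⟩ := h
  let N : S → Matrix (Fin (finrank K V)) (Fin (finrank K V)) F := fun g => .of fun j i => ⟨_, hb g i j⟩
  have h1 : ∀ g, (N g).map F.subtype = toMatrix b b (r g) := fun g => by
    ext j i; simp [N, toMatrix_apply]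
  have h2 : Function.Injective fun M : Matrix (Fin (finrank K V)) (Fin (finrank K V)) F =>
      M.map F.subtype := Matrix.map_injective F.subtype.injective
  exact ⟨b, ⟨⟨N, h2 ((h1 1).trans (by simp))⟩, fun x y => h2 (by
    simp only [Matrix.map_mul, h1, map_mul r, toMatrix_mul])⟩, h1⟩

omit [FiniteDimensional K V] in
theorem exists_br1 {F I : Type*} [Field F] [Finite F] [Fintype I] [DecidableEq I] (ι : F →+* K)
    (b : Basis I K V) (N : S →* Matrix I I F) (h : ∀ g, (N g).map ι = toMatrix b b (r g)) :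
    ∃ β, Br r β := by
  obtain ⟨β, c⟩ := exists_br0 ((Matrix.toLinAlgEquiv' (R := F)).toMulEquiv.toMonoidHom.comp N)
  refine ⟨β, c.conj, fun a n hN ha => ?_⟩
  have h1 := rank_map_field ι (∑ g, (a g : F) • N g)
  have h2 : (∑ g, (a g : F) • N g).map ι = toMatrix b b (∑ g, (a g : K) • r g) := by
    simp only [map_sum, map_smul, ← h]
    ext i j
    simp [Matrix.sum_apply]
  rw [h2, Matrix.rank_eq_finrank_range_toLin _ b b, Matrix.toLin_toMatrix, Matrix.rank,
    ← Matrix.toLin'_apply'] at h1
  rw [c.rk a n (fun k => hN (by simpa using congrArg ι k)) ha, h1, map_sum,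
    sum_congr rfl fun g _ => map_smul _ (a g : F) (N g)]
  rfl

omit [FiniteDimensional K V] in
theorem Rt.exists_br {F : Subfield K} [Finite F] (h : Rt F r) : ∃ β, Br r β :=
  let ⟨b, N, e⟩ := h.exists_model
  exists_br1 _ b N e

omit [FiniteDimensional K V]

theorem Br.rk' (h : Br r β) (A : ℤ[S]) {N : ℤ} (hN : (N : K) ≠ 0) (e : A * A = N • A) :
    lin β A = N * finrank K (range (alg r A)) :=
  alg_apply r A ▸ h.rk A.coeff N hN fun g => by rw [← coeff_mul_sum, e]; rfl

theorem Br.isConj (h : Br r β) {x y : S} (e : IsConj x y) : β x = β y := by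
  obtain ⟨u, rfl⟩ := isConj_iff.1 e
  exact (h.conj _ _).symm

theorem Br.one (h : Br r β) : β 1 = finrank K V := by
  have := h.rk' (single 1 1) (N := 1) (by simp) (by simp [single_mul_single])
  rw [alg_single, one_smul, map_one, show range (1 : End K V) = ⊤ from range_id] at this
  simpa using this

/-- The multiplicity of a sign character of a subgroup of order prime to the characteristic. -/
theorem Br.sub (h : Br r β) {Q : Type*} [Group Q] [Fintype Q] (ι : Q →* S) (ε : Q →* ℤˣ)
    (hQ : (Fintype.card Q : K) ≠ 0) :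
    ∑ g, ((ε g : ℤ) : ℂ) * β (ι g) =
      Fintype.card Q * finrank K (⨅ g, fs ((ε g : ℤ) • r (ι g)) : Submodule _ V) := by
  have := h.rk' (∑ g, single (ι g) (ε g : ℤ)) (N := Fintype.card Q) (by exact_mod_cast hQ) (by
    rw [sum_mul_sum, natCast_zsmul, ← card_univ, ← sum_const]
    exact sum_congr rfl fun g _ => Fintype.sum_equiv (Equiv.mulLeft g) _ _ fun u => by simp [single_mul_single])
  rw [map_sum (alg r), sum_congr rfl fun g _ => alg_single r (ι g) _] at this
  simp only [map_sum, lin_single, Int.cast_natCast] at this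
  rw [this, show range (∑ g, (ε g : ℤ) • r (ι g)) = ⨅ g, fs ((ε g : ℤ) • r (ι g)) from
    le_antisymm ?_ fun w hw => ⟨(Fintype.card Q : K)⁻¹ • w, ?_⟩]
  · rintro _ ⟨w, rfl⟩
    refine (Submodule.mem_iInf _).2 fun g => mem_fs.2 ?_
    rw [LinearMap.sum_apply, map_sum]
    exact Fintype.sum_equiv (Equiv.mulLeft g) _ _ fun u => by simp [smul_smul, mul_comm]
  · have := fun g => mem_fs.1 ((Submodule.mem_iInf _).1 hw g)
    rw [map_smul, LinearMap.sum_apply, sum_congr rfl fun g _ => this g]
    simp [← Nat.cast_smul_eq_nsmul K, smul_smul, hQ]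

theorem Br.hom (h : Br r β) {Q : Type*} [Group Q] [Fintype Q] (ι : Q →* S)
    (hQ : (Fintype.card Q : K) ≠ 0) :
    ∑ g, β (ι g) = Fintype.card Q * finrank K (Fx (r.comp ι)) := by
  have := h.sub ι 1 hQ
  rw [show (⨅ g, fs ((((1 : Q →* ℤˣ) g : ℤˣ) : ℤ) • r (ι g))) = Fx (r.comp ι) from
    iInf_congr fun g => congrArg fs (one_smul ℤ (r (ι g)))] at this
  simpa using this

theorem Br.sgn (h : Br r β) {x : S} {n : ℕ} (hn : (n : K) ≠ 0) (hx : x ^ n = 1) {ε : ℤ} (hε : ε ^ n = 1) :
    ∑ i ∈ range n, ε ^ i * β (x ^ i) = n * finrank K (fs (ε • r x)) := by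
  have e : (single x ε : ℤ[S]) ^ n = 1 := by rw [single_pow, hx, hε, MonoidAlgebra.one_def]
  have m : ∀ i : ℕ, (single x ε : ℤ[S]) ^ i * ∑ i ∈ range n, single x ε ^ i = ∑ i ∈ range n, single x ε ^ i :=
    fun i => by
      induction i with
      | zero => simp
      | succ i ih =>
        have := mul_geom_sum (single x ε : ℤ[S]) n
        rw [e, sub_self, sub_mul, one_mul, sub_eq_zero] at this
        rw [pow_succ, mul_assoc, this, ih]
  have := h.rk' (∑ i ∈ range n, single x ε ^ i) (N := n) (by exact_mod_cast hn) (by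
    rw [sum_mul, sum_congr rfl fun i _ => m i]; simp)
  rw [map_sum (alg r), sum_congr rfl fun i _ => map_pow _ _ i, alg_single,
    B.geo hn (by rw [smul_pow, hε, ← map_pow, hx, map_one, one_smul])] at this
  simpa [map_sum, single_pow] using this

theorem Br.cyc (h : Br r β) {x : S} {n : ℕ} (hn : (n : K) ≠ 0) (hx : x ^ n = 1) :
    ∑ i ∈ range n, β (x ^ i) = n * dm r x := by
  have := h.sgn hn hx (one_pow n)
  rw [one_smul] at this
  simpa [dm] using this

theorem Br.two (h : Br r β) (h2 : (2 : K) ≠ 0) {x : S} (hx : x ^ 2 = 1) :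
    β x = 2 * dm r x - finrank K V := by
  have := h.cyc (n := 2) h2 hx
  simp only [sum_range_succ, range_zero, sum_empty, pow_zero, pow_one, h.one] at this
  push_cast at this
  linear_combination this

theorem Br.three (h : Br r β) (h3 : (3 : K) ≠ 0) {x : S} (hx : x ^ 3 = 1) (c : IsConj x (x ^ 2)) :
    2 * β x = 3 * dm r x - finrank K V := by
  have := h.cyc (n := 3) h3 hx
  simp only [sum_range_succ, range_zero, sum_empty, pow_zero, pow_one, h.one, ← h.isConj c] at this
  push_cast at this
  linear_combination this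

theorem Br.four (h : Br r β) (h2 : (2 : K) ≠ 0) {x : S} (hx : x ^ 4 = 1) (c : IsConj x (x ^ 3)) :
    β x = 2 * dm r x - dm r (x ^ 2) := by
  have := h.cyc (n := 4) (by rw [show ((4 : ℕ) : K) = 2 * 2 by norm_num]; exact mul_ne_zero h2 h2) hx
  simp only [sum_range_succ, range_zero, sum_empty, pow_zero, pow_one, h.one, ← h.isConj c,
    h.two h2 (x := x ^ 2) (by rw [← pow_mul, hx])] at this
  push_cast at this
  linear_combination this / 2

/-- Frobenius groups with cyclic complement. -/
theorem Br.fr [FiniteDimensional K V] (h : Br r β) (A : Subgroup S) [Fintype A] {g : S} (hg : g ∈ Subgroup.normalizer (A : Set S))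
    {n : ℕ} (hn : g ^ (n + 1) = 1) {ε : ℤ}
    (hε : ε ^ (n + 1) = 1) (a3 : (Nat.card A : K) ≠ 0) (n3 : ((n + 1 : ℕ) : K) ≠ 0)
    (f : ∀ i < n, ∀ c ∈ A, IsConj (g ^ (i + 1)) (c * g ^ (i + 1))) :
    ∃ k d : ℕ, k ≤ d ∧ ∑ a : A, β a = Nat.card A * d ∧
      ∑ i ∈ range n, ε ^ (i + 1) * β (g ^ (i + 1)) + d = (n + 1) * k := by
  set e : ℤ[S] := ∑ a : A, single (a : S) 1 with he
  set s : ℤ[S] := ∑ i ∈ range (n + 1), single g ε ^ i with hs
  have ee : e * e = (Nat.card A : ℤ) • e := by
    rw [he, sum_mul_sum, natCast_zsmul, Nat.card_eq_fintype_card, ← card_univ, ← sum_const]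
    exact sum_congr rfl fun a _ => Fintype.sum_equiv (Equiv.mulLeft a) _ _ fun u => by simp [single_mul_single]
  have m : ∀ i : ℕ, (single g ε : ℤ[S]) ^ i * s = s := fun i => by
    induction i with
    | zero => simp
    | succ i ih =>
      have := mul_geom_sum (single g ε : ℤ[S]) (n + 1)
      rw [single_pow, hn, hε, ← MonoidAlgebra.one_def, sub_self, sub_mul, one_mul, sub_eq_zero] at this
      rw [pow_succ, mul_assoc, hs, this, ← hs, ih]
  have ss : s * s = ((n + 1 : ℕ) : ℤ) • s := by
    nth_rw 1 [hs]; rw [sum_mul, sum_congr rfl fun i _ => m i]; simp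
  have c : Commute s e := Commute.sum_left _ _ _ fun i _ => Commute.pow_left (by
    rw [Commute, SemiconjBy, he, mul_sum, sum_mul]
    exact Fintype.sum_equiv (Subgroup.normalizerMonoidHom A ⟨g, hg⟩).toEquiv _ _ fun u => by
      rw [single_mul_single, single_mul_single, mul_one, one_mul]
      exact congrArg (single · ε) (inv_mul_cancel_right _ g).symm) i
  have a := h.rk' e (N := Nat.card A) (by exact_mod_cast a3) ee
  have b := h.rk' (e * s) (N := Nat.card A * (n + 1 : ℕ)) (by
    exact_mod_cast mul_ne_zero a3 n3) (by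
      rw [mul_assoc, ← mul_assoc s, c.eq, mul_assoc, ← mul_assoc, ee, ss, smul_mul_smul_comm])
  have a' : ∑ a : A, β a = Nat.card A * finrank K (LinearMap.range (alg r e)) := by simpa [he] using a
  refine ⟨finrank K (LinearMap.range (alg r (e * s))), _, Submodule.finrank_mono ?_, a', ?_⟩
  · rw [map_mul]; exact LinearMap.range_comp_le_range _ _
  refine mul_left_cancel₀ (Nat.cast_ne_zero.2 (Nat.card_pos (α := A)).ne') ?_
  generalize finrank K (LinearMap.range (alg r (e * s))) = k at b ⊢
  rw [hs, sum_range_succ', mul_add, pow_zero, mul_one, map_add, a, mul_sum, map_sum, sum_congr rfl fun i hi => (?_ :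
    _ = (Nat.card A : ℂ) * (ε ^ (i + 1) * β (g ^ (i + 1))))] at b
  · rw [← mul_sum] at b
    push_cast at b ⊢
    linear_combination b
  · rw [he, sum_mul, map_sum, sum_congr rfl fun a _ => (?_ : _ = ε ^ (i + 1) * β (g ^ (i + 1)))]
    · simp
    rw [single_pow, single_mul_single, lin_single, ← h.isConj (f i (mem_range.1 hi) a a.2)]; simp

end CF.Al
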