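import Mathlib

/-! Generating pairs of the alternating groups of degree five to ten. -/

set_option autoImplicit false

namespace CF.Al

open Equiv Equiv.Perm

/-- An even permutation from its image list and the image list of its inverse. -/
def ap {n : ℕ} (f g : Fin n → Fin n)
    (h : (∀ i, g (f i) = i) ∧ (∀ i, f (g i) = i) := by decide)
    (s : sign (⟨f, g, h.1, h.2⟩ : Perm (Fin n)) = 1 := by decide +kernel) :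
    alternatingGroup (Fin n) := ⟨⟨f, g, h.1, h.2⟩, s⟩

namespace G

/-- A word in `a, b, a⁻¹, b⁻¹`. -/
def wd {S : Type*} [Group S] (a b : S) : List (Fin 4) → S
  | [] => 1
  | i :: l => ![a, b, a⁻¹, b⁻¹] i * wd a b l

theorem wd_mem {S : Type*} [Group S] {a b : S} {H : Subgroup S} (ha : a ∈ H) (hb : b ∈ H)
    (l : List (Fin 4)) : wd a b l ∈ H := by
  induction l with
  | nil => exact one_mem _
  | cons i l ih =>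
    refine mul_mem ?_ ih
    fin_cases i
    exacts [ha, hb, inv_mem ha, inv_mem hb]

theorem star {n : ℕ} {H : Subgroup (Perm (Fin (n + 2)))}
    (h : ∀ k, k ≠ 0 → swap 0 1 * swap 0 k ∈ H) (g : Perm (Fin (n + 2))) :
    (sign g = 1 → g ∈ H) ∧ (sign g = -1 → swap 0 1 * g ∈ H) := by
  have st : ∀ k (g : Perm (Fin (n + 2))), k ≠ 0 →
      (sign g = 1 → g ∈ H) ∧ (sign g = -1 → swap 0 1 * g ∈ H) →
      (sign (swap 0 k * g) = 1 → swap 0 k * g ∈ H) ∧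
        (sign (swap 0 k * g) = -1 → swap 0 1 * (swap 0 k * g) ∈ H) := fun k g hk ih => by
    rw [map_mul, sign_swap hk.symm]
    refine ⟨fun e => ?_, fun e => ?_⟩
    · have := mul_mem (inv_mem (h k hk)) (ih.2 (by rw [← neg_eq_iff_eq_neg, ← e, neg_one_mul]))
      simpa [mul_assoc] using this
    · rw [← mul_assoc]
      exact mul_mem (h k hk) (ih.1 (by simpa using e))
  induction g using swap_induction_on with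
  | one => exact ⟨fun _ => one_mem _, fun e => absurd e (by simp)⟩
  | swap_mul f x y hxy ih =>
    by_cases hx : x = 0
    · subst hx; exact st y f hxy.symm ih
    by_cases hy : y = 0
    · subst hy; rw [swap_comm]; exact st x f hx ih
    have e : swap x y = swap 0 x * (swap 0 y * swap 0 x) := by
      rw [← mul_assoc, swap_comm 0 y, swap_mul_swap_mul_swap hy hxy.symm]
    rw [e, mul_assoc, mul_assoc]
    exact st x _ hx (st y _ hy (st x _ hx ih))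

theorem gen {n : ℕ} {a b : alternatingGroup (Fin (n + 2))} (w : Fin (n + 2) → List (Fin 4))
    (h : ∀ k, k ≠ 0 → ∀ i, wd a.1 b.1 (w k) i = swap 0 1 (swap 0 k i))
    (H : Subgroup (alternatingGroup (Fin (n + 2)))) (ha : a ∈ H) (hb : b ∈ H) : H = ⊤ := by
  rw [eq_top_iff]
  rintro ⟨g, hg⟩ -
  obtain ⟨g', hg', rfl⟩ := (star (H := H.map (Subgroup.subtype _)) (fun k hk => by
    rw [show swap 0 1 * swap 0 k = wd a.1 b.1 (w k) from (Equiv.ext (h k hk)).symm]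
    exact wd_mem (Subgroup.mem_map_of_mem _ ha) (Subgroup.mem_map_of_mem _ hb) _) g).1 hg
  exact hg'

end G

/-- First generator, orders `(2, 3, 5)`. -/
def a5 : alternatingGroup (Fin 5) := ap ![4, 1, 3, 2, 0] ![4, 1, 3, 2, 0]

/-- Second generator, orders `(2, 3, 5)`. -/
def b5 : alternatingGroup (Fin 5) := ap ![2, 0, 1, 3, 4] ![1, 2, 0, 3, 4]

theorem g5 : ∀ H : Subgroup (alternatingGroup (Fin 5)), a5 ∈ H → b5 ∈ H → H = ⊤ :=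
  G.gen ![[],
    [],
    [1],
    [3, 0, 1, 0, 3, 0],
    [1, 0, 3, 0, 1, 0, 1]] (by decide +kernel)

/-- First generator, orders `(2, 4, 5)`. -/
def a6a : alternatingGroup (Fin 6) := ap ![1, 0, 2, 3, 5, 4] ![1, 0, 2, 3, 5, 4]

/-- Second generator, orders `(2, 4, 5)`. -/
def b6a : alternatingGroup (Fin 6) := ap ![3, 2, 1, 5, 0, 4] ![4, 2, 1, 0, 5, 3]

theorem g6a : ∀ H : Subgroup (alternatingGroup (Fin 6)), a6a ∈ H → b6a ∈ H → H = ⊤ :=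
  G.gen ![[],
    [],
    [0, 1, 0, 1, 1, 0, 3],
    [1, 1, 0, 3, 0, 1, 1, 0, 3, 0, 1, 0],
    [3, 0, 1, 0, 3, 0, 1, 1, 0, 3],
    [0, 1, 0, 1, 1, 0, 1, 0, 3, 0, 1, 0]] (by decide +kernel)

/-- First generator, orders `(3, 3, 4)`. -/
def a6b : alternatingGroup (Fin 6) := ap ![0, 1, 5, 3, 2, 4] ![0, 1, 4, 3, 5, 2]

/-- Second generator, orders `(3, 3, 4)`. -/
def b6b : alternatingGroup (Fin 6) := ap ![4, 2, 5, 0, 3, 1] ![3, 5, 1, 4, 0, 2]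

theorem g6b : ∀ H : Subgroup (alternatingGroup (Fin 6)), a6b ∈ H → b6b ∈ H → H = ⊤ :=
  G.gen ![[],
    [],
    [3, 2, 1],
    [2, 1, 2, 3, 0, 3, 2, 1],
    [2, 3, 2, 1, 0],
    [0, 3, 2, 1, 2]] (by decide +kernel)

/-- First generator, orders `(2, 4, 7)`. -/
def a7a : alternatingGroup (Fin 7) := ap ![0, 1, 5, 6, 4, 2, 3] ![0, 1, 5, 6, 4, 2, 3]

/-- Second generator, orders `(2, 4, 7)`. -/
def b7a : alternatingGroup (Fin 7) := ap ![4, 2, 0, 5, 1, 3, 6] ![2, 4, 1, 5, 0, 3, 6]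

theorem g7a : ∀ H : Subgroup (alternatingGroup (Fin 7)), a7a ∈ H → b7a ∈ H → H = ⊤ :=
  G.gen ![[],
    [],
    [1, 1, 0, 3, 0, 1, 0, 3, 0, 1, 0, 1],
    [1, 0, 1, 1, 0, 1],
    [1, 0, 3, 0, 1, 0, 3, 0, 1, 0],
    [3, 0, 3, 0, 1, 1, 0, 1, 1, 0, 1, 0, 3],
    [0, 1, 0, 1, 1, 0, 1, 0]] (by decide +kernel)

/-- First generator, orders `(3, 3, 5)`. -/
def a7b : alternatingGroup (Fin 7) := ap ![6, 0, 2, 4, 5, 3, 1] ![1, 6, 2, 5, 3, 4, 0]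

/-- Second generator, orders `(3, 3, 5)`. -/
def b7b : alternatingGroup (Fin 7) := ap ![3, 6, 1, 5, 4, 0, 2] ![5, 2, 6, 0, 4, 3, 1]

theorem g7b : ∀ H : Subgroup (alternatingGroup (Fin 7)), a7b ∈ H → b7b ∈ H → H = ⊤ :=
  G.gen ![[],
    [],
    [3, 2, 1, 0, 1, 2, 3, 2, 1, 2],
    [2, 3, 0, 3, 2, 1, 2, 3, 2, 1, 0],
    [1, 2, 3, 2, 1, 2, 3, 0, 3],
    [3, 0, 3, 0],
    [3, 2, 3, 0, 1, 0, 3, 2, 3, 2]] (by decide +kernel)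

/-- First generator, orders `(2, 5, 7)`. -/
def a8 : alternatingGroup (Fin 8) := ap ![4, 7, 5, 6, 0, 2, 3, 1] ![4, 7, 5, 6, 0, 2, 3, 1]

/-- Second generator, orders `(2, 5, 7)`. -/
def b8 : alternatingGroup (Fin 8) := ap ![0, 1, 2, 6, 5, 7, 4, 3] ![0, 1, 2, 7, 6, 4, 3, 5]

theorem g8 : ∀ H : Subgroup (alternatingGroup (Fin 8)), a8 ∈ H → b8 ∈ H → H = ⊤ :=
  G.gen ![[],
    [],
    [3, 0, 3, 3, 0, 1, 0, 1, 1, 0, 3, 0, 3, 0, 1, 0, 3, 0],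
    [3, 3, 0, 1, 0, 1, 1, 0, 3, 3, 0, 1, 1, 0, 1, 0, 3],
    [0, 1, 0, 1, 1, 0, 3, 3, 0, 1, 1, 0, 1, 0, 1, 1],
    [1, 0, 1, 0, 1, 1, 0, 3, 3, 0, 1, 1, 0, 1, 0, 1],
    [3, 0, 1, 0, 1, 1, 0, 3, 3, 0, 1, 1, 0, 1, 0, 3, 3],
    [1, 1, 0, 1, 0, 1, 1, 0, 3, 3, 0, 1, 1, 0, 1, 0]] (by decide +kernel)

/-- First generator, orders `(2, 4, 7)`. -/
def a9 : alternatingGroup (Fin 9) := ap ![3, 8, 2, 0, 7, 6, 5, 4, 1] ![3, 8, 2, 0, 7, 6, 5, 4, 1]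

/-- Second generator, orders `(2, 4, 7)`. -/
def b9 : alternatingGroup (Fin 9) := ap ![8, 6, 4, 3, 7, 2, 0, 5, 1] ![6, 8, 5, 3, 2, 7, 1, 4, 0]

theorem g9 : ∀ H : Subgroup (alternatingGroup (Fin 9)), a9 ∈ H → b9 ∈ H → H = ⊤ :=
  G.gen ![[],
    [],
    [3, 0, 1, 1, 0, 1, 1, 0, 1, 0, 3, 0, 1, 0, 3, 0, 3, 0, 3, 0],
    [0, 1, 1, 0, 1, 0, 3, 0, 1, 0, 3, 0, 1, 1, 0, 1, 1, 0, 1, 0, 1, 0, 3, 0],
    [3, 0, 3, 0, 3, 0, 1, 0, 1, 0, 1, 1, 0, 1, 0, 3, 0, 1, 1, 0, 1, 0, 3, 0, 3],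
    [3, 0, 1, 0, 3, 0, 1, 1, 0, 1, 0, 3, 0, 1, 1, 0, 3, 0, 3, 0, 1, 0, 1, 0, 3],
    [1, 1, 0, 1, 1, 0, 3, 0, 1, 1, 0, 3, 0, 1, 0, 3, 0, 3, 0, 1, 1, 0, 1, 0],
    [1, 0, 3, 0, 3, 0, 1, 1, 0, 1, 0, 3, 0, 1, 1, 0, 1, 1, 0, 3],
    [0, 1, 1, 0, 3, 0, 3, 0, 1, 1, 0, 1, 1, 0, 1, 0, 3, 0, 1, 0, 3, 0, 1, 0]] (by decide +kernel)

/-- First generator, orders `(2, 5, 7)`. -/
def a10 : alternatingGroup (Fin 10) := ap ![0, 5, 9, 7, 8, 1, 6, 3, 4, 2] ![0, 5, 9, 7, 8, 1, 6, 3, 4, 2]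

/-- Second generator, orders `(2, 5, 7)`. -/
def b10 : alternatingGroup (Fin 10) := ap ![5, 7, 9, 8, 1, 6, 2, 3, 4, 0] ![9, 4, 6, 7, 8, 0, 5, 1, 3, 2]

theorem g10 : ∀ H : Subgroup (alternatingGroup (Fin 10)), a10 ∈ H → b10 ∈ H → H = ⊤ :=
  G.gen ![[],
    [],
    [0, 3, 0, 1, 0, 1, 0, 3, 0, 3, 0, 1, 0, 1, 1, 0, 1, 0, 3, 0, 3, 0, 1, 0, 1, 0, 1, 0],
    [3, 3, 0, 3, 0, 3, 0, 1, 0, 1, 1, 0, 1, 0, 3, 0, 3, 0, 1, 0, 1, 1, 0, 3, 3],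
    [1, 1, 0, 1, 1, 0, 1, 0, 1, 1, 0, 3, 3, 0, 3, 0, 1, 0, 1, 1, 0, 1, 0, 3, 0, 1, 0],
    [0, 3, 3, 0, 1, 0, 3, 3, 0, 3, 0, 1, 1, 0, 1, 1, 0, 1, 0, 3, 0, 1, 1, 0, 1],
    [1, 0, 1, 0, 3, 0, 3, 0, 1, 0, 1, 1, 0, 1, 0, 3, 0, 3, 0, 1, 0, 1],
    [0, 3, 0, 3, 3, 0, 1, 1, 0, 1, 0, 1, 1, 0, 1, 1, 0, 1, 0, 3, 0, 1, 0, 1, 1, 0, 1],
    [3, 3, 0, 3, 0, 1, 0, 3, 3, 0, 3, 0, 3, 3, 0, 3, 0, 3, 3, 0, 1, 0, 3, 0],
    [0, 1, 0, 3, 3, 0, 3, 3, 0, 3, 3, 0, 3, 3, 0, 3, 3, 0, 3, 3, 0, 1, 1, 0]] (by decide +kernel)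

end CF.Al
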