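import Cfsg.Agent.Al.A
import Cfsg.Agent.Al.G

/-! Alternating subgroups of `F₄(q)`: characteristic two. -/

set_option autoImplicit false

namespace CF.Al

open Module CF.E83 LinearMap

variable {K V : Type*} [Field K] [AddCommGroup V] [Module K V] [FiniteDimensional K V]

namespace C2

variable {S : Type*} [Group S] {r r' : S →* End K V} {a b : S}

theorem d2 (h2 : (2 : K) = 0) (m : Md r) (h : a ^ 2 = 1) : 14 ≤ dm r a := by
  have := unip (r := r) (p := 2) (k := 1) (by exact_mod_cast h2) (by simpa using h)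
  rw [m.dim] at this
  omega

theorem d4 (h2 : (2 : K) = 0) (m : Md r) (h : a ^ 4 = 1) : 7 ≤ dm r a := by
  have := unip (r := r) (p := 2) (k := 2) (by exact_mod_cast h2) (by simpa using h)
  rw [m.dim] at this
  omega

theorem step (N : End K V) (i : ℕ) : finrank K ((ker (N ^ (i + 1))).map (N ^ i)) +
    finrank K (ker (N ^ i)) = finrank K (ker (N ^ (i + 1))) := by
  rw [← rk_map (N ^ i) (ker (N ^ (i + 1))), inf_of_le_right]
  intro v hv
  rw [mem_ker] at hv ⊢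
  rw [pow_succ', End.mul_apply, hv, map_zero]

theorem anti (N : End K V) (i : ℕ) : finrank K ((ker (N ^ (i + 2))).map (N ^ (i + 1))) ≤
    finrank K ((ker (N ^ (i + 1))).map (N ^ i)) := by
  refine Submodule.finrank_mono ?_
  rintro _ ⟨v, hv, rfl⟩
  exact ⟨N v, by simpa [pow_succ] using hv, by simp [pow_succ]⟩

theorem d24 (h2 : (2 : K) = 0) (m : Md r) (sp : Fx r ⊓ Cx r = ⊥) (h : a ^ 4 = 1) :
    23 ≤ dm r a + dm r (a ^ 2) := by
  have two : ∀ v : V, v + v = 0 := fun v => by rw [← two_smul K, h2, zero_smul]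
  have sq : ∀ A : End K V, (A - 1) ^ 2 = A ^ 2 - 1 := fun A => by
    ext v
    have := two (v - A v)
    simp only [pow_two, End.mul_apply, LinearMap.sub_apply, End.one_apply, map_sub]
    rw [← sub_eq_zero, ← this]
    abel
  set N := r a - 1 with hN
  have e2 : N ^ 2 = r (a ^ 2) - 1 := by rw [hN, sq, map_pow]
  have e4 : N ^ 4 = 0 := by
    rw [show 4 = 2 * 2 from rfl, pow_mul, e2, sq, ← map_pow, ← pow_mul, h, map_one, sub_self]
  have s1 := step N 1
  have s2 := step N 2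
  have s3 := step N 3
  have t1 := anti N 1
  have t2 := anti N 2
  have u := Submodule.finrank_sup_add_finrank_inf_eq (Fx r) ((ker (N ^ 2)).map (N ^ 1))
  have u1 : Fx r ⊓ (ker (N ^ 2)).map (N ^ 1) = ⊥ := by
    rw [eq_bot_iff, ← sp]
    refine inf_le_inf_left _ ?_
    rintro _ ⟨v, -, rfl⟩
    simpa [hN] using sub_mem_Cx a v
  have u2 : Fx r ⊔ (ker (N ^ 2)).map (N ^ 1) ≤ ker (N ^ 1) := by
    refine sup_le (fun v hv => by simp [hN, mem_Fx.1 hv a]) ?_
    rintro _ ⟨v, hv, rfl⟩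
    simpa [pow_succ] using hv
  have u3 := Submodule.finrank_mono u2
  rw [u1, finrank_bot, m.fx] at u
  have f4 : finrank K (ker (N ^ (3 + 1))) = 27 := by
    rw [show 3 + 1 = 4 from rfl, e4, ker_zero, finrank_top, m.dim]
  have f1 : dm r a = finrank K (ker (N ^ 1)) := by rw [pow_one]; rfl
  have f2 : dm r (a ^ 2) = finrank K (ker (N ^ 2)) := by rw [e2]; rfl
  simp only [Nat.reduceAdd] at s1 s2 s3 t1 t2 f4
  omega

theorem k235 (h : H2 r r') (g : ∀ H : Subgroup S, a ∈ H → b ∈ H → H = ⊤) (e2 : a ^ 2 = 1)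
    (e3 : b ^ 3 = 1) (e5 : (a * b) ^ 5 = 1) : False := by
  have := h.m.sco g
  have := h.m'.sco g
  have := d2 h.ch h.m e2
  have := d2 h.ch h.m' e2
  have := h.t3 b e3
  have := (h.t5 _ e5).1
  omega

theorem k245 (h : H2 r r') (g : ∀ H : Subgroup S, a ∈ H → b ∈ H → H = ⊤) (c : IsConj a (b ^ 2))
    (e4 : b ^ 4 = 1) (e5 : (a * b) ^ 5 = 1) : False := by
  have := h.m.sco g
  have := h.m'.sco g
  have := d24 h.ch h.m h.sp e4
  have := d24 h.ch h.m' h.sp' e4
  have := dm_conj (r := r) c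
  have := dm_conj (r := r') c
  have := (h.t5 _ e5).1
  omega

theorem k247 (h : H2 r r') (g : ∀ H : Subgroup S, a ∈ H → b ∈ H → H = ⊤) (e2 : a ^ 2 = 1)
    (e4 : b ^ 4 = 1) (e7 : (a * b) ^ 7 = 1) (c : IsConj (a * b) ((a * b) ^ 2)) : False := by
  have := h.m.sco g
  have := h.m'.sco g
  have := d2 h.ch h.m e2
  have := d2 h.ch h.m' e2
  have := d4 h.ch h.m e4
  have := d4 h.ch h.m' e4
  have := h.t7 _ e7 c
  omega

theorem k257 (h : H2 r r') (g : ∀ H : Subgroup S, a ∈ H → b ∈ H → H = ⊤) (e2 : a ^ 2 = 1)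
    (e5 : b ^ 5 = 1) (c' : IsConj b (b ^ 2)) (e7 : (a * b) ^ 7 = 1)
    (c : IsConj (a * b) ((a * b) ^ 2)) : False := by
  have := h.m.sco g
  have := h.m'.sco g
  have := d2 h.ch h.m e2
  have := d2 h.ch h.m' e2
  have := (h.t5 _ e5).2 c'
  have := h.t7 _ e7 c
  omega

end C2

open C2 in
theorem c2 {n : ℕ} (h5 : 5 ≤ n) (h10 : n ≤ 10) {r r' : alternatingGroup (Fin n) →* End K V}
    (h : H2 r r') : False := by
  interval_cases n
  · exact k235 h g5 (by decide +kernel) (by decide +kernel) (by decide +kernel)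
  · exact k245 h g6a (isConj_iff.2 ⟨ap ![0, 5, 2, 1, 4, 3] ![0, 3, 2, 5, 4, 1], by decide +kernel⟩)
      (by decide +kernel) (by decide +kernel)
  · exact k247 h g7a (by decide +kernel) (by decide +kernel) (by decide +kernel)
      (isConj_iff.2 ⟨ap ![4, 3, 2, 6, 5, 0, 1] ![5, 6, 2, 1, 0, 4, 3], by decide +kernel⟩)
  · exact k257 h g8 (by decide +kernel) (by decide +kernel)
      (isConj_iff.2 ⟨ap ![2, 1, 0, 5, 4, 7, 3, 6] ![2, 1, 0, 6, 4, 3, 7, 5], by decide +kernel⟩)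
      (by decide +kernel)
      (isConj_iff.2 ⟨ap ![4, 2, 7, 3, 5, 0, 6, 1] ![5, 7, 1, 3, 0, 4, 6, 2], by decide +kernel⟩)
  · exact k247 h g9 (by decide +kernel) (by decide +kernel) (by decide +kernel)
      (isConj_iff.2 ⟨ap ![5, 7, 1, 0, 4, 3, 6, 2, 8] ![3, 2, 7, 5, 4, 0, 6, 1, 8],
        by decide +kernel⟩)
  · exact k257 h g10 (by decide +kernel) (by decide +kernel)
      (isConj_iff.2 ⟨ap ![9, 4, 0, 8, 3, 5, 2, 7, 1, 6] ![2, 8, 6, 4, 1, 5, 9, 7, 3, 0],
        by decide +kernel⟩) (by decide +kernel)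
      (isConj_iff.2 ⟨ap ![5, 9, 8, 1, 4, 6, 0, 2, 7, 3] ![6, 3, 7, 9, 4, 0, 5, 8, 2, 1],
        by decide +kernel⟩)

end CF.Al
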