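import Cfsg.Agent.Al.C3a

/-! `A₇` in characteristic three. -/

set_option autoImplicit false
set_option maxRecDepth 100000

namespace CF.Al

open Module CF.E83 Finset

namespace C3

def T : A7 := el 546
def U : A7 := el 725
def Y : A7 := el 591

def wd : ℕ → ℕ → A7
  | 0, _ => 1
  | f + 1, n => if n ≤ 1 then 1 else (if n % 2 = 0 then T else U) * wd f (n / 2)

def wc : ℕ → ℕ → ℕ
  | 0, _ => 1754760
  | f + 1, n => if n ≤ 1 then 1754760 else cm (if n % 2 = 0 then ec 546 else ec 725) (wc f (n / 2))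

theorem cd_wd : ∀ f n, cd (wd f n) = wc f n
  | 0, _ => cd_one
  | f + 1, n => by
    rw [wd, wc]
    split_ifs <;> simp only [cd_one, cd_mul, cd_wd f, T, U, cd_el]

def WW : List (List ℕ) := [[1, 3511, 1010411, 61, 44717, 93909, 87510],
  [1, 1, 965303, 55, 55994, 93098, 109430],
  [1, 1, 1, 54741, 877, 55021, 56245],
  [1, 1, 1, 1, 1005399, 89013, 110042],
  [1, 1, 1, 1, 1, 56182, 46519]]

theorem ww : ∀ k < 5, ∀ j < 7, k ≤ j → wc 20 ((WW.getD k []).getD j 0) = uc k j := by decide +kernel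

theorem gen (H : Subgroup A7) (a : T ∈ H) (b : U ∈ H) : H = ⊤ := by
  have w : ∀ f n, wd f n ∈ H := fun f => by
    induction f with
    | zero => exact fun _ => H.one_mem
    | succ f ih =>
      intro n
      rw [wd]
      split_ifs
      exacts [H.one_mem, H.mul_mem a (ih _), H.mul_mem b (ih _)]
  have h : ∀ k < 5, ∀ j < 7, k ≤ j → u k j ∈ H := fun k hk j hj l =>
    cd_inj ((cd_wd _ _).trans ((ww k hk j hj l).trans (cd_u k (by omega) j hj).symm)) ▸ w _ _
  refine eq_top_iff.2 fun g _ => ?_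
  obtain ⟨n, -, rfl⟩ := mem_image.1 (img.ge (mem_univ g))
  refine H.mul_mem (h _ ?_ _ ?_ ?_) (H.mul_mem (h _ ?_ _ ?_ ?_) (H.mul_mem (h _ ?_ _ ?_ ?_)
    (H.mul_mem (h _ ?_ _ ?_ ?_) (h _ ?_ _ ?_ ?_)))) <;> omega

def pc (c : ℕ) : ℕ → ℕ
  | 0 => 1754760
  | k + 1 => cm (pc c k) c

theorem cd_pow (g : A7) : ∀ k, cd (g ^ k) = pc (cd g) k
  | 0 => cd_one
  | k + 1 => by rw [pow_succ, cd_mul, cd_pow g k, pc]

theorem cj_of (n : ℕ) {x y : A7} (h : cm (ec n) (cd x) = cm (cd y) (ec n)) : IsConj x y :=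
  isConj_iff.2 ⟨el n, mul_inv_eq_iff_eq_mul.2 (cd_inj (by rw [cd_mul, cd_mul, cd_el, h]))⟩

theorem T_2 : T ^ 2 = 1 := eq_one.2 (by rw [cd_pow, T, cd_el]; decide +kernel)
theorem T1 : T ≠ 1 := mt eq_one.1 (by rw [T, cd_el]; decide +kernel)
theorem U4 : U ^ 4 = 1 := eq_one.2 (by rw [cd_pow, U, cd_el]; decide +kernel)
theorem U2 : U ^ 2 ≠ 1 := mt eq_one.1 (by rw [cd_pow, U, cd_el]; decide +kernel)
theorem Y5 : Y ^ 5 = 1 := eq_one.2 (by rw [cd_pow, Y, cd_el]; decide +kernel)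
theorem Y1 : Y ≠ 1 := mt eq_one.1 (by rw [Y, cd_el]; decide +kernel)
theorem W7 : (T * U) ^ 7 = 1 := eq_one.2 (by rw [cd_pow, cd_mul, T, U, cd_el, cd_el]; decide +kernel)
theorem W1 : T * U ≠ 1 := mt eq_one.1 (by rw [cd_mul, T, U, cd_el, cd_el]; decide +kernel)
theorem eY : T * el 636 = Y := cd_inj (by rw [cd_mul, T, Y, cd_el, cd_el, cd_el]; decide +kernel)
theorem eW : el 1173 = T * U := cd_inj (by rw [cd_mul, T, U, cd_el, cd_el, cd_el]; decide +kernel)
theorem eW3 : el 1951 = (T * U) ^ 3 :=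
  cd_inj (by rw [cd_pow, cd_mul, T, U, cd_el, cd_el, cd_el]; decide +kernel)
theorem e0 : el 0 = 1 := eq_one.2 (by rw [cd_el]; decide +kernel)
theorem cT : IsConj T (el 636) := cj_of 2 (by rw [T, cd_el, cd_el]; decide +kernel)
theorem cTU : IsConj T (U ^ 2) := cj_of 411 (by rw [cd_pow, T, U, cd_el, cd_el]; decide +kernel)
theorem cU : IsConj U (U ^ 3) := cj_of 11 (by rw [cd_pow, U, cd_el]; decide +kernel)
theorem cY2 : IsConj Y (Y ^ 2) := cj_of 153 (by rw [cd_pow, Y, cd_el]; decide +kernel)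
theorem cY3 : IsConj Y (Y ^ 3) := cj_of 194 (by rw [cd_pow, Y, cd_el]; decide +kernel)
theorem cY4 : IsConj Y (Y ^ 4) := cj_of 2 (by rw [cd_pow, Y, cd_el]; decide +kernel)
theorem cW2 : IsConj (T * U) ((T * U) ^ 2) :=
  cj_of 334 (by rw [cd_pow, cd_mul, T, U, cd_el, cd_el]; decide +kernel)
theorem cW4 : IsConj (T * U) ((T * U) ^ 4) :=
  cj_of 288 (by rw [cd_pow, cd_mul, T, U, cd_el, cd_el]; decide +kernel)
theorem cW5 : IsConj ((T * U) ^ 3) ((T * U) ^ 5) :=
  cj_of 288 (by rw [cd_pow, cd_pow, cd_mul, T, U, cd_el, cd_el]; decide +kernel)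
theorem cW6 : IsConj ((T * U) ^ 3) ((T * U) ^ 6) :=
  cj_of 334 (by rw [cd_pow, cd_pow, cd_mul, T, U, cd_el, cd_el]; decide +kernel)

theorem av : ∀ i < 9, a (el (ri i)) = [78, 2, -4, 3, 1, 1, 0, 0, 0].getD i 0 := by
  simp only [a_cd, cd_el]
  decide +kernel

variable {K V : Type*} [Field K] [AddCommGroup V] [Module K V] [FiniteDimensional K V] {r : A7 →* End K V} {β : A7 → ℂ}

theorem key (h : Br r β) (h2 : (2 : K) ≠ 0) (h5 : (5 : K) ≠ 0) (h7 : (7 : K) ≠ 0) : ∃ k : ℕ,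
    (78 * finrank K V + 210 * (2 * dm r T - finrank K V) - 2520 * (2 * dm r U - dm r T) : ℤ) +
      378 * (5 * dm r Y - finrank K V) + 120 * (7 * dm r (T * U) - finrank K V) = 280 * k := by
  have e := h.rk a 280 (by
    rw [show ((280 : ℤ) : K) = 2 * 2 * 2 * 5 * 7 by norm_num]; simp [h2, h5, h7]) conv
  rw [sum_cl _ fun g c => by rw [a_conj, h.conj], sum_congr rfl fun i hi => by rw [av i (mem_range.1 hi)]] at e
  have y := h.cyc (n := 5) (by exact_mod_cast h5) Y5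
  have w := h.cyc (n := 7) (by exact_mod_cast h7) W7
  have t := h.two h2 T_2
  have u := h.four h2 U4 cU
  rw [← dm_conj cTU] at u
  simp only [sum_range_succ, range_zero, sum_empty, pow_zero, pow_one, h.one, ← h.isConj cY2, ← h.isConj cY3,
    ← h.isConj cY4, ← h.isConj cW2, ← h.isConj cW4, ← h.isConj cW5, ← h.isConj cW6] at y w
  simp only [sum_range_succ, range_zero, sum_empty, ri, List.getD_cons_zero, List.getD_cons_succ, e0, eW, eW3,
    h.one] at e
  refine ⟨finrank K (LinearMap.range (∑ g, (a g : K) • r g)), Int.cast_injective (α := ℂ) ?_⟩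
  change _ + _ * (_ * β T) + _ * (_ * β U) + _ * (_ * β Y) + _ + _ + _ + _ + _ = _ at e
  push_cast at e y w ⊢
  linear_combination e - 210 * t + 2520 * u - 378 * y - 120 * w

end C3

open C3

variable {K V W : Type*} [Field K] [AddCommGroup V] [Module K V] [AddCommGroup W] [Module K W]
  [FiniteDimensional K V] [FiniteDimensional K W]

theorem c3 {r : alternatingGroup (Fin 7) →* End K V}
    {l : alternatingGroup (Fin 7) →* End K W} (h : Ho r l) (h3 : (3 : K) = 0) : False := by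
  have h2 := h.h2
  have h5 : (5 : K) ≠ 0 := fun e => h2 (by linear_combination e - h3)
  have h7 : (7 : K) ≠ 0 := fun e => one_ne_zero (α := K) (by linear_combination e - 2 * h3)
  obtain ⟨β, b⟩ := h.br
  obtain ⟨γ, c⟩ := h.bl
  obtain ⟨k, e⟩ := key b h2 h5 h7
  obtain ⟨m, f⟩ := key c h2 h5 h7
  have t := h.t2 T T_2 T1
  have u := h.t4 U U4 U2
  obtain ⟨y, y'⟩ := h.t5 h5 Y Y5 Y1
  replace y' := y' cY2
  have w := h.t7 h7 _ W7 W1 cW2
  have s := h.m.sco gen
  have d := dm_add_le (r := l) T (el 636)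
  rw [← dm_conj cT, eY] at d
  rw [← dm_conj cTU] at u
  rw [h.dr] at e
  rw [h.dl] at f d
  omega

end CF.Al
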