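import Cfsg.Agent.Al.B

/-! The alternating group of degree five: computations in the integral group ring. -/

set_option autoImplicit false

namespace CF.Al

open Module CF.E83 Finset Equiv

namespace C5

/-- the group -/
abbrev A := alternatingGroup (Fin 5)

/-- an involution -/
def a : A := ⟨swap 0 4 * swap 2 3, by simp⟩

/-- an element of order three -/
def b : A := ⟨swap 0 1 * swap 0 2, by simp⟩

/-- digits -/
def dg (x i : ℕ) : ℕ := x / 5 ^ i % 5

/-- code of a permutation -/
def enc (g : A) : ℕ := g.1 0 + 5 * g.1 1 + 25 * g.1 2 + 125 * g.1 3 + 625 * g.1 4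

/-- product of codes -/
def ml (x y : ℕ) : ℕ := dg x (dg y 0) + 5 * dg x (dg y 1) + 25 * dg x (dg y 2) + 125 * dg x (dg y 3) + 625 * dg x (dg y 4)

/-- inverse of a code -/
def iv (x : ℕ) : ℕ := 5 ^ dg x 1 + 2 * 5 ^ dg x 2 + 3 * 5 ^ dg x 3 + 4 * 5 ^ dg x 4

theorem dg_enc (g : A) (i : Fin 5) : dg (enc g) i = g.1 i := by
  have := (g.1 0).2; have := (g.1 1).2; have := (g.1 2).2; have := (g.1 3).2; have := (g.1 4).2
  fin_cases i <;> simp [dg, enc] <;> omega

theorem enc_mul (g h : A) : enc (g * h) = ml (enc g) (enc h) := by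
  rw [ml, show dg (enc h) 0 = _ from dg_enc h 0, show dg (enc h) 1 = _ from dg_enc h 1, show dg (enc h) 2 = _ from dg_enc h 2,
    show dg (enc h) 3 = _ from dg_enc h 3, show dg (enc h) 4 = _ from dg_enc h 4]
  simp only [dg_enc]
  rfl

theorem enc_inj {g h : A} : enc g = enc h ↔ g = h :=
  ⟨fun e => Subtype.ext (Equiv.ext fun i => Fin.ext (by rw [← dg_enc, ← dg_enc, e])), congrArg _⟩

theorem enc_inv : ∀ g : A, enc g⁻¹ = iv (enc g) := by decide +kernel

/-- all codes -/
def els : List ℕ := [194, 222, 238, 298, 334, 366, 414, 446, 482, 542, 558, 586, 698, 714, 742, 894, 970, 978, 1022, 1054,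
  1110, 1138, 1190, 1202, 1294, 1346, 1358, 1398, 1454, 1490, 1634, 1670, 1726, 1766, 1778, 1830, 1922, 1934, 1986, 2014,
  2070, 2102, 2146, 2154, 2230, 2382, 2410, 2426, 2538, 2566, 2582, 2642, 2678, 2710, 2758, 2790, 2826, 2886, 2902, 2930]

theorem univ_els : (univ : Finset A).val.map enc = (els : Multiset ℕ) := by decide +kernel

theorem mem_els (g : A) : enc g ∈ els :=
  Multiset.mem_coe.1 (univ_els ▸ Multiset.mem_map_of_mem _ (mem_univ g))

theorem sum_els (f : ℕ → ℤ) : ∑ h : A, f (enc h) = (els.map f).sum := by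
  rw [← Multiset.sum_coe, ← Multiset.map_coe, ← univ_els, Multiset.map_map]; rfl

theorem card_A : Fintype.card A = 60 := by
  simpa [els] using congrArg Multiset.card univ_els

/-- the sum of the two characters of degree three -/
def ca (x : ℕ) : ℤ := if x = 2930 then 6 else if ml x x = 2930 then -2 else if ml x (ml x x) = 2930 then 0 else 1

/-- the difference of the two classes of elements of order five -/
def cd (x : ℕ) : ℤ := if x ∈ [298, 366, 542, 714, 742, 1202, 1398, 1454, 1778, 1986, 2014, 2146] then 5 else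
  if x ∈ [222, 238, 586, 894, 978, 1138, 1294, 1346, 1766, 1922, 2102, 2154] then -5 else 0

/-- convolution -/
def cv (f f' : ℕ → ℤ) (x : ℕ) : ℤ := (els.map fun h => f h * f' (ml (iv h) x)).sum

/-- number of conjugating elements -/
def cj (x g : ℕ) : ℤ := (els.map fun h => if ml h x = ml g h then 1 else 0).sum

theorem tab : ∀ g ∈ els, cv ca ca g = 20 * ca g ∧ cv cd ca g = 20 * cd g ∧ cv cd cd g = 100 * ca g ∧
    20 * ca g = 2 * cj 2930 g - 10 * cj 334 g + 4 * cj 298 g + 4 * cj (ml 298 298) g ∧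
    cd g = cj 298 g - cj (ml 298 298) g ∧ 2 * ca (ml (iv 298) (ml (iv 298) (ml (iv 298) g))) -
      ca (ml (iv 298) (ml (iv 298) g)) + ca (ml (iv 298) g) - 2 * ca g =
      cd (ml (iv 298) (ml (iv 298) g)) - cd (ml (iv 298) g) := by decide +kernel

theorem enc_one : enc 1 = 2930 := by decide
theorem enc_a : enc a = 334 := by decide
theorem enc_y : enc (a * b) = 298 := by decide

theorem ca_aut (α : MulAut A) (g : A) : ca (enc (α g)) = ca (enc g) := by
  simp only [ca, ← enc_one, ← enc_mul, enc_inj, ← map_mul, EmbeddingLike.map_eq_one_iff]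

theorem sum_cj {M : Type*} [Ring M] (f : A → M) (hf : ∀ g h, f (h * g * h⁻¹) = f g) (x : A) :
    ∑ g, (cj (enc x) (enc g) : M) * f g = 60 * f x := by
  have : ∀ g, cj (enc x) (enc g) = ∑ h : A, if h * x * h⁻¹ = g then 1 else 0 := fun g => by
    rw [cj, ← sum_els]
    simp only [← enc_mul, enc_inj, mul_inv_eq_iff_eq_mul]
  simp only [this, Int.cast_sum, sum_mul]
  rw [sum_comm]
  simp only [ite_mul, one_mul, zero_mul, Int.cast_ite, Int.cast_one, Int.cast_zero, sum_ite_eq, mem_univ, if_true, hf,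
    sum_const, card_univ, card_A, nsmul_eq_mul, Nat.cast_ofNat]

theorem cv_eq (f f' : ℕ → ℤ) (g : A) : ∑ h : A, f (enc h) * f' (enc (h⁻¹ * g)) = cv f f' (enc g) := by
  rw [cv, ← sum_els]
  simp only [enc_mul, enc_inv]

variable {K V : Type*} [Field K] [AddCommGroup V] [Module K V]

/-- the operator with given coefficients -/
noncomputable def op (r : A →* End K V) (f : ℕ → ℤ) : End K V := ∑ g, (f (enc g) : K) • r g

theorem tp {S : Type*} [Group S] [Fintype S] (r : S →* End K V) (a : S → ℤ) {E : End K V} (e : E = ∑ g, (a g : K) • r g) :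
    LinearMap.range (∑ g, (a g : K) • r g) = LinearMap.range E := by rw [e]

theorem rk2 {S : Type*} [Group S] [Fintype S] {r : S →* End K V} {β : S → ℂ} (h : Br r β) (a : S → ℤ) (N : ℤ)
    (hN : (N : K) ≠ 0) (e : ∀ g, ∑ h, a h * a (h⁻¹ * g) = N * a g) {E : End K V} (e' : E = ∑ g, (a g : K) • r g) :
    ∑ g, (a g : ℂ) * β g = N * finrank K (LinearMap.range E) := e' ▸ h.rk a N hN e

theorem sh (r : A →* End K V) (f : ℕ → ℤ) (x : A) : r x * op r f = op r fun g => f (ml (iv (enc x)) g) := by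
  rw [op, op, mul_sum]
  exact Fintype.sum_equiv (Equiv.mulLeft x) _ _ fun g => by simp [← enc_inv, ← enc_mul]

theorem op_mul (r : A →* End K V) (f f' : ℕ → ℤ) : op r f * op r f' = op r (cv f f') := by
  rw [op, sum_mul]
  simp only [smul_mul_assoc, sh]
  simp only [op, smul_sum, ← cv_eq, Int.cast_sum, sum_smul]
  rw [sum_comm]
  simp [smul_smul, enc_mul, enc_inv]

theorem op_eq (r : A →* End K V) {f f' : ℕ → ℤ} (c : ℤ) (h : ∀ g ∈ els, f g = c * f' g) : op r f = (c : K) • op r f' := by
  simp [op, smul_sum, smul_smul, h _ (mem_els _)]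

theorem gen (H : Subgroup A) (ha : a ∈ H) (hb : b ∈ H) : H = ⊤ := by
  have o : ∀ (x : A) (p : ℕ), p.Prime → x ^ p = 1 → x ≠ 1 → x ∈ H → p ∣ Nat.card H := fun x p hp e n m => by
    have := Fact.mk hp
    exact orderOf_eq_prime e n ▸ H.orderOf_dvd_natCard m
  have h2 := o a 2 Nat.prime_two (by decide) (by decide) ha
  have h3 := o b 3 Nat.prime_three (by decide) (by decide) hb
  have h5 := o (a * b) 5 Nat.prime_five (by decide) (by decide) (mul_mem ha hb)
  have e := H.card_mul_index
  rw [Nat.card_eq_fintype_card (α := A), card_A] at e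
  obtain ⟨k, hk⟩ : 30 ∣ Nat.card H := by omega
  rw [hk, mul_assoc] at e
  obtain i | i : H.index = 1 ∨ H.index = 2 := (Nat.dvd_prime Nat.prime_two).1 ⟨k, by rw [mul_comm]; omega⟩
  · exact Subgroup.index_eq_one.1 i
  · refine (H.normal_of_index_eq_two i).eq_bot_or_eq_top.resolve_left fun z => ?_
    exact absurd (Subgroup.mem_bot.1 (z.le ha)) (by decide)

theorem eig3 {f : End K V} {v : V} {x y z : K} (h1 : x ≠ y) (h2 : x ≠ z) (h3 : y ≠ z)
    (h : f (f (f v)) - (x + y + z) • f (f v) + (x * y + x * z + y * z) • f v - (x * y * z) • v = 0) :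
    v ∈ f.eigenspace x ⊔ (f.eigenspace y ⊔ f.eigenspace z) := by
  have k : ∀ a b c : K, a + b + c = x + y + z → a * b + a * c + b * c = x * y + x * z + y * z → a * b * c = x * y * z →
      ∀ d : K, d • (f (f v) - (b + c) • f v + (b * c) • v) ∈ f.eigenspace a := fun a b c e1 e2 e3 d =>
    Submodule.smul_mem _ _ (End.mem_eigenspace_iff.2 (by
      rw [← e1, ← e2, ← e3] at h
      simp only [map_add, map_sub, map_smul]
      linear_combination (norm := module) h))
  have := sub_ne_zero.2 h1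
  have := sub_ne_zero.2 h2
  have := sub_ne_zero.2 h3
  convert Submodule.add_mem_sup (k x y z rfl rfl rfl ((x - y) * (x - z))⁻¹) (Submodule.add_mem_sup
    (k y x z (by ring) (by ring) (by ring) (-((x - y) * (y - z))⁻¹)) (k z x y (by ring) (by ring) (by ring)
      ((x - z) * (y - z))⁻¹)) using 1
  match_scalars <;> field_simp <;> ring

variable [FiniteDimensional K V]

/-- The block of the characters of degree three. -/
theorem blk {r : A →* End K V} {β : A → ℂ} (hb : Br r β) (h2 : (2 : K) ≠ 0) (h3 : (3 : K) ≠ 0) (h5 : (5 : K) ≠ 0)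
    (d : finrank K V = 27) (da : dm r a = 15) (dy : dm r (a * b) = 5) {ζ : K} (hζ : IsPrimitiveRoot ζ 5)
    (tr : LinearMap.trace K V (r (a * b)) - LinearMap.trace K V (r ((a * b) ^ 2)) = ζ + ζ ^ 4 - ζ ^ 2 - ζ ^ 3) :
    finrank K (LinearMap.range (op r ca)) = 3 ∧ LinearMap.range (op r ca) ≤
      fs (r (a * b)) ⊔ ((r (a * b)).eigenspace ζ ⊔ (r (a * b)).eigenspace (ζ ^ 4)) := by
  have h20 : (20 : K) ≠ 0 := by rw [show (20 : K) = 2 * 2 * 5 by norm_num]; simp [h2, h5]
  have y2 : enc ((a * b) ^ 2) = ml 298 298 := by rw [sq, enc_mul, enc_y]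
  have rk : finrank K (LinearMap.range (op r ca)) = 3 := by
    have e1 := rk2 hb (fun g => ca (enc g)) 20 (by exact_mod_cast h20) (E := op r ca)
      (fun g => (cv_eq ..).trans (tab _ (mem_els g)).1) rfl
    have e2 : ∑ g, ((20 * ca (enc g) : ℤ) : ℂ) * β g =
        2 * (60 * β 1) - 10 * (60 * β a) + 4 * (60 * β (a * b)) + 4 * (60 * β ((a * b) ^ 2)) := by
      simp only [← sum_cj β hb.conj, (tab _ (mem_els _)).2.2.2.1, enc_one, enc_a, enc_y, y2, mul_sum, ← sum_sub_distrib,
        ← sum_add_distrib]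
      exact sum_congr rfl fun g _ => by push_cast; ring
    have e3 := hb.two h2 (x := a) (by decide)
    have e4 := hb.cyc (x := a * b) (n := 5) (by exact_mod_cast h5) (by decide)
    have c : ∀ k : A, IsConj k ((⟨swap 0 1 * swap 2 3, by simp⟩ : A) * k * (⟨swap 0 1 * swap 2 3, by simp⟩ : A)⁻¹) :=
      fun k => isConj_iff.2 ⟨_, rfl⟩
    simp only [sum_range_succ, range_zero, sum_empty, pow_zero, pow_one] at e4
    rw [← hb.isConj (x := (a * b) ^ 2) (y := (a * b) ^ 3) (by convert c _ using 1; decide),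
      ← hb.isConj (x := a * b) (y := (a * b) ^ 4) (by convert c _ using 1; decide), dy] at e4
    simp only [Int.cast_mul, mul_assoc, ← mul_sum] at e2
    rw [e1, hb.one, e3, da, d] at e2
    rw [hb.one, d] at e4
    push_cast at e2 e4
    exact_mod_cast (by linear_combination e2 / 400 + e4 * 3 / 10 : (finrank K (LinearMap.range (op r ca)) : ℂ) = 3)
  refine ⟨rk, ?_⟩
  have z5 := hζ.pow_eq_one
  have z1 : 1 + ζ + ζ ^ 2 + ζ ^ 3 + ζ ^ 4 = 0 := by simpa [sum_range_succ] using hζ.geom_sum_eq_zero (by norm_num)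
  obtain ⟨s, hs⟩ : ∃ s, s = ζ + ζ ^ 4 - ζ ^ 2 - ζ ^ 3 := ⟨_, rfl⟩
  have s2 : s * s = 5 := by
    rw [hs]; linear_combination (ζ ^ 3 - 2 * ζ ^ 2 - ζ + 4) * z5 - z1
  have aa : op r ca * op r ca = (20 : K) • op r ca := by rw [op_mul, op_eq r 20 fun g m => (tab g m).1]; norm_num
  have da : op r cd * op r ca = (20 : K) • op r cd := by rw [op_mul, op_eq r 20 fun g m => (tab g m).2.1]; norm_num
  have dd : op r cd * op r cd = (100 : K) • op r ca := by rw [op_mul, op_eq r 100 fun g m => (tab g m).2.2.1]; norm_num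
  have ad : op r ca * op r cd = (20 : K) • op r cd := by
    have : (100 : K) ≠ 0 := by rw [show (100 : K) = 20 * 5 by norm_num]; simp [h20, h5]
    rw [← da, ← smul_right_inj this, ← smul_mul_assoc, ← dd, ← mul_smul_comm, ← dd, mul_assoc]
  have td : LinearMap.trace K V (op r cd) = 60 * s := by
    have := sum_cj (fun g => LinearMap.trace K V (r g)) fun g h => by
      rw [map_mul, LinearMap.trace_mul_comm, ← map_mul, inv_mul_cancel_left]
    rw [hs, ← tr, mul_sub, ← this, ← this, ← sum_sub_distrib, op, map_sum]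
    exact sum_congr rfl fun g _ => by rw [(tab _ (mem_els g)).2.2.2.2.1, enc_y, y2]; simp [sub_mul]
  have idm : ∀ (E : End K V) (c : K), c ≠ 0 → E * E = c • E →
      LinearMap.trace K V E = c * finrank K (LinearMap.range E) := fun E c c0 e => by
    have := (LinearMap.IsIdempotentElem.isProj_range (c⁻¹ • E) (by
      rw [IsIdempotentElem, smul_mul_smul_comm, e, smul_smul, mul_assoc, inv_mul_cancel₀ c0, mul_one])).trace
    rw [LinearMap.range_smul _ _ (inv_ne_zero c0), map_smul, smul_eq_mul] at this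
    rw [← this, mul_inv_cancel_left₀ c0]
  have ta := idm _ _ h20 aa
  have h200 : (200 : K) ≠ 0 := by rw [show (200 : K) = 20 * 2 * 5 by norm_num]; simp [h20, h2, h5]
  have te := idm ((5 : K) • op r ca - s • op r cd) 200 h200 (by
    simp only [sub_mul, mul_sub, smul_mul_assoc, mul_smul_comm, aa, ad, da, dd]
    match_scalars
    · linear_combination 100 * s2
    · ring)
  have le : finrank K (LinearMap.range ((5 : K) • op r ca - s • op r cd)) ≤ 3 := le_of_le_of_eq (Submodule.finrank_mono (by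
    rintro _ ⟨v, rfl⟩
    refine ⟨(5 : K) • v - (s / 20) • op r cd v, ?_⟩
    rw [map_sub, map_smul, map_smul, ← End.mul_apply (op r ca), ad]
    simp [smul_smul, h20])) rk
  rw [map_sub, map_smul, map_smul, ta, td, rk] at te
  have z : (finrank K (LinearMap.range ((5 : K) • op r ca - s • op r cd)) : K) = 0 :=
    (mul_eq_zero.1 (by rw [← te]; simp only [smul_eq_mul]; push_cast; linear_combination -60 * s2)).resolve_left h200
  have e0 : (5 : K) • op r ca - s • op r cd = 0 := by
    rw [← LinearMap.range_eq_bot, ← Submodule.finrank_eq_zero]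
    generalize finrank K (LinearMap.range ((5 : K) • op r ca - s • op r cd)) = k at le z
    interval_cases k <;> simp_all
  have e1 : op r cd = s • op r ca := by
    rw [← smul_right_inj h5, ← s2, mul_smul, ← sub_eq_zero.1 e0, s2, smul_comm]
  have e2 : (2 : K) • (r (a * b) * (r (a * b) * (r (a * b) * op r ca))) - r (a * b) * (r (a * b) * op r ca) +
      r (a * b) * op r ca - (2 : K) • op r ca = r (a * b) * (r (a * b) * op r cd) - r (a * b) * op r cd := by
    simp only [sh, enc_y]
    simp only [op, smul_sum, ← sum_sub_distrib, ← sum_add_distrib, smul_smul, ← sub_smul, ← add_smul]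
    exact sum_congr rfl fun g _ => congrArg (· • r g) (by exact_mod_cast congrArg Int.cast (tab _ (mem_els g)).2.2.2.2.2)
  rintro _ ⟨v, rfl⟩
  have e3 := LinearMap.congr_fun e2 v
  simp only [e1, LinearMap.add_apply, LinearMap.sub_apply, LinearMap.smul_apply, End.mul_apply, map_smul] at e3
  rw [show fs (r (a * b)) = (r (a * b)).eigenspace 1 by ext; simp [mem_fs]]
  refine eig3 (hζ.ne_one (by norm_num)).symm (hζ.pow_ne_one_of_pos_of_lt (by norm_num) (by norm_num)).symm
    (fun e => absurd (hζ.pow_inj (i := 1) (j := 4) (by norm_num) (by norm_num) (by rw [pow_one, ← e])) (by norm_num))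
    ((smul_right_inj h2).1 ?_)
  rw [smul_zero, ← sub_eq_zero.2 e3, hs]
  match_scalars
  · ring
  · linear_combination -z1
  · linear_combination z1 + 2 * z5
  · linear_combination -2 * z5

end C5

open C5 in
theorem c5 {K V W : Type*} [Field K] [AddCommGroup V] [Module K V] [AddCommGroup W] [Module K W]
    [FiniteDimensional K V] [FiniteDimensional K W] [IsAlgClosed K] {r : alternatingGroup (Fin 5) →* End K V}
    {l : alternatingGroup (Fin 5) →* End K W} (h : Ho r l)
    (iv : ∀ x : alternatingGroup (Fin 5), x ^ 5 = 1 → x ≠ 1 → ¬ Iv x) : False := by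
  have y5 : (a * b) ^ 5 = 1 := by decide
  have y1 : a * b ≠ 1 := by decide
  have pr : ∀ u v x : A, u * a * u⁻¹ * (v * a * v⁻¹) = x → 2 * dm l a ≤ 52 + dm l x := fun u v x e => by
    have := dm_add_le (r := l) (u * a * u⁻¹) (v * a * v⁻¹)
    rw [e, ← dm_conj (isConj_iff.2 ⟨u, rfl⟩), ← dm_conj (isConj_iff.2 ⟨v, rfl⟩), h.dl] at this
    omega
  have p5 := pr ⟨swap 2 3 * swap 2 4, by simp⟩ ⟨swap 0 1 * swap 2 4, by simp⟩ (a * b) (by decide)
  have p3 := pr ⟨swap 2 4 * swap 2 3, by simp⟩ ⟨swap 0 1 * swap 2 4, by simp⟩ b (by decide)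
  have t2 := h.t2 a (by decide) (by decide)
  have sr := h.m.sco gen
  have sl := sco (r := l) gen
  have : Fact (Nat.Prime 3) := ⟨Nat.prime_three⟩
  have : Fact (Nat.Prime 5) := ⟨Nat.prime_five⟩
  have u3 := fun k : ((3 : ℕ) : K) = 0 => And.intro (unip (r := r) k (x := b) (k := 1) (by decide))
    (unip (r := l) k (x := b) (k := 1) (by decide))
  have u5 := fun k : ((5 : ℕ) : K) = 0 => And.intro (unip (r := r) k (x := a * b) (k := 1) y5)
    (unip (r := l) k (x := a * b) (k := 1) y5)
  have t3 := fun k => h.t3 k b (by decide) (by decide)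
  rw [h.dr, h.dl] at u3 u5
  rw [h.dl] at sl
  by_cases h5 : (5 : K) = 0
  · have := t3 fun k => h.h2 (by linear_combination h5 - k)
    have := u5 (by exact_mod_cast h5)
    have := h.cnt h5 (by rw [Nat.card_eq_fintype_card (α := A), card_A])
    omega
  have t5 := (h.t5 h5 _ y5 y1).1
  have key : 52 < dm l a + dm l b + dm l (a * b) → dm r (a * b) ≠ 7 → False := fun k k' =>
    iv _ y5 y1 (h.u5 h5 (sco' gen (h.dl ▸ k)) _ y5 y1 k')
  by_cases h3 : (3 : K) = 0
  · have := u3 (by exact_mod_cast h3)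
    exact key (by omega) (by omega)
  have := t3 h3
  rcases t2 with t2 | t2
  · exact key (by omega) (by omega)
  obtain ⟨β, hb⟩ := h.br
  obtain ⟨ζ, hζ, tr, k⟩ := h.bp h5 _ y5 (by omega)
  obtain ⟨e1, e2⟩ := blk hb h.h2 h3 h5 h.dr t2.1 (by omega) hζ tr
  replace k := k (fun g => ca (enc g)) ca_aut
  rw [tp r (fun g => ca (enc g)) (E := op r ca) rfl] at k
  refine (k e1.le e2).elim (iv _ y5 y1) fun z => ?_
  have := Submodule.finrank_mono z
  rw [h.m.fx] at this
  exact absurd (e1.ge.trans this) (by norm_num)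

end CF.Al
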