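import Cfsg.Agent.Al.F
import Cfsg.Agent.Al.G

/-! The alternating group of degree six in characteristic five. -/

set_option autoImplicit false

namespace CF.Al

open Module CF.E83

variable {K V W : Type*} [Field K] [AddCommGroup V] [Module K V] [AddCommGroup W] [Module K W]
  [FiniteDimensional K V] [FiniteDimensional K W]

theorem c6 {r : alternatingGroup (Fin 6) →* End K V}
    {l : alternatingGroup (Fin 6) →* End K W} (h : Ho r l) (h5 : (5 : K) = 0)
    (iv : ∀ x : alternatingGroup (Fin 6), x ^ 3 = 1 → x ≠ 1 → ¬ Iv x) : False := by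
  have h3 : (3 : K) ≠ 0 := fun e => h.h2 (by linear_combination h5 - e)
  have c1 : IsConj (b6a ^ 2) a6a :=
    isConj_iff.2 ⟨ap ![0, 2, 3, 4, 5, 1] ![0, 5, 1, 2, 3, 4], by decide +kernel⟩
  have t2 := h.t2 a6a (by decide +kernel) (by decide +kernel)
  have t4 := h.t4 b6a (by decide +kernel) (by decide +kernel)
  have dl := h.dl
  rw [dm_conj c1] at t4
  rcases t2 with ⟨e1, e2⟩ | ⟨e1, e2⟩
  · let g : alternatingGroup (Fin 6) := ap ![0, 1, 2, 4, 5, 3] ![0, 1, 2, 5, 3, 4]
    have a := dm_add_le (r := l) a6a (g * a6a * g⁻¹)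
    rw [← dm_conj (isConj_iff.2 ⟨g, rfl⟩), show a6a * (g * a6a * g⁻¹) = g by decide +kernel] at a
    have b := h.t3 h3 g (by decide +kernel) (by decide +kernel)
    exact iv g (by decide +kernel) (by decide +kernel)
      (h.u3 h3 (sco' g6a (by omega)) g (by decide +kernel) (by omega))
  have : Fact (Nat.Prime 5) := ⟨by norm_num⟩
  have a := unip (r := r) (p := 5) (k := 1) (x := a6a * b6a) (by exact_mod_cast h5) (by decide +kernel)
  have b := h.m.sco g6a
  have dr := h.dr
  let x : alternatingGroup (Fin 6) := ap ![5, 0, 2, 3, 4, 1] ![1, 5, 2, 3, 4, 0]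
  let y : alternatingGroup (Fin 6) := ap ![0, 1, 3, 4, 2, 5] ![0, 1, 4, 2, 3, 5]
  have d : dm l b6a = 14 := by omega
  obtain ⟨k1, k2⟩ := fr36 (x := x) (y := y) (u := b6a) h.toTb h.bl h3 (by decide +kernel) (by decide +kernel)
    (by decide +kernel) (by decide +kernel) (by rw [Commute, SemiconjBy]; decide +kernel) (by decide +kernel)
    (by decide +kernel) d ((dm_conj c1).trans e2)
  have c2 := dm_conj (r := l) (x := a6b) (y := x)
    (isConj_iff.2 ⟨ap ![2, 4, 0, 3, 1, 5] ![2, 4, 0, 3, 1, 5], by decide +kernel⟩)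
  have c3 := dm_conj (r := l) (x := b6b) (y := x * y)
    (isConj_iff.2 ⟨ap ![2, 0, 5, 4, 3, 1] ![1, 5, 0, 4, 3, 2], by decide +kernel⟩)
  have c4 := dm_conj (r := l) (x := a6b * b6b) (y := b6a)
    (isConj_iff.2 ⟨ap ![0, 2, 3, 4, 5, 1] ![0, 5, 1, 2, 3, 4], by decide +kernel⟩)
  exact iv x (by decide +kernel) (by decide +kernel)
    (h.u3 h3 (sco' g6b (by omega)) x (by decide +kernel) k1)

end CF.Al
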