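import Cfsg.Agent.Al.C3

/-! `A₇` in characteristic prime to six. -/

set_option autoImplicit false
set_option maxRecDepth 100000

namespace CF.Al

open Module CF.E83 Finset C3

namespace C7

/-- evaluate the codes of a list -/
def fl {α : Type} : List ℕ → (List ℕ → α) → α
  | [], k => k []
  | x :: l, k => fc (ec x) fun c => fl l fun m => k (c :: m)

theorem fl_eq {α : Type} : ∀ (l : List ℕ) (k : List ℕ → α), fl l k = k (l.map ec)
  | [], _ => rfl
  | x :: l, k => by rw [fl, fc_eq, fl_eq l, List.map_cons]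

def ok (L : List ℕ) : Bool := L.all (· < 2520) && chk L 0 && L.contains 0 &&
  fl L fun M => M.all fun a => M.all fun b => fc (cm a b) fun c => M.contains c

theorem ok_iff {L : List ℕ} (h : ok L = true) : (∀ n ∈ L, n < 2520) ∧ L.Nodup ∧ 0 ∈ L ∧
    ∀ a ∈ L, ∀ b ∈ L, ∃ c ∈ L, el c = el a * el b := by
  simp only [ok, fl_eq, fc_eq, Bool.and_eq_true, List.all_eq_true, decide_eq_true_eq,
    List.contains_iff_mem, List.mem_map] at h
  refine ⟨h.1.1.1, (chk_nd _ _ h.1.1.2).1, h.1.2, fun a ha b hb => ?_⟩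
  obtain ⟨c, hc, e⟩ := h.2 _ ⟨a, ha, rfl⟩ _ ⟨b, hb, rfl⟩
  exact ⟨c, hc, cd_inj (by rw [cd_mul, cd_el, cd_el, cd_el, e])⟩

def sm (L : List ℕ) (h : ok L = true) : Submonoid A7 where
  carrier := {g | g ∈ L.map el}
  one_mem' := List.mem_map.2 ⟨0, (ok_iff h).2.2.1, e0⟩
  mul_mem' := fun ha hb => by
    obtain ⟨a, ka, rfl⟩ := List.mem_map.1 ha
    obtain ⟨b, kb, rfl⟩ := List.mem_map.1 hb
    exact List.mem_map.2 ((ok_iff h).2.2.2 a ka b kb)

def sg (L : List ℕ) (h : ok L = true) : Subgroup A7 where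
  toSubmonoid := sm L h
  inv_mem' := fun {g} hg => Submonoid.powers_le.2 (show g ∈ sm L h from hg)
    (mem_powers_iff_mem_zpowers.2 (inv_mem (Subgroup.mem_zpowers g)))

theorem cc {n : ℕ} (h : n < 2520) : IsConj (el (ri (cl n))) (el n) := isConj_iff.2 ⟨_, (cls h).2⟩

theorem sum_cnt (F : ℕ → ℂ) : ∀ l : List ℕ, (∀ i ∈ l, i < 9) →
    (l.map F).sum = ∑ i ∈ range 9, (l.count i : ℂ) * F i
  | [], _ => by simp
  | x :: l, h => by
    rw [List.map_cons, List.sum_cons, sum_cnt F l fun i hi => h i (List.mem_cons_of_mem _ hi)]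
    simp only [List.count_cons, beq_iff_eq, Nat.cast_add, add_mul, sum_add_distrib, Nat.cast_ite,
      Nat.cast_one, Nat.cast_zero, ite_mul, one_mul, zero_mul, sum_ite_eq, mem_range,
      h x List.mem_cons_self, if_true, add_comm]

variable {K V : Type*} [Field K] [AddCommGroup V] [Module K V] {r : A7 →* End K V} {β : A7 → ℂ}

def fx (r : A7 →* End K V) (L : List ℕ) : Submodule K V := ⨅ n ∈ L, fs (r (el n))

theorem mem_fx {L : List ℕ} {v : V} : v ∈ fx r L ↔ ∀ n ∈ L, r (el n) v = v := by simp [fx, mem_fs]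

theorem fx_le {L M : List ℕ} (h : ∀ n ∈ L, n ∈ M) : fx r M ≤ fx r L :=
  fun _ hv => mem_fx.2 fun n hn => mem_fx.1 hv n (h n hn)

theorem key (h : Br r β) {L c : List ℕ} (hL : ok L = true) {m : ℕ} (hm : L.length = m)
    (hc : ∀ i < 9, (L.map cl).count i = c.getD i 0) (hK : (m : K) ≠ 0) :
    ∑ i ∈ range 9, (c.getD i 0 : ℂ) * β (el (ri i)) = m * finrank K (fx r L) := by
  obtain ⟨h1, h2, -⟩ := ok_iff hL
  have nd : (L.map el).Nodup := h2.map_on fun a ha b hb => el_inj (by simpa using h1 a ha) (by simpa using h1 b hb)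
  have s : ∀ {M : Type} [AddCommMonoid M] (F : A7 → M) [Fintype (sg L hL)],
      ∑ g : sg L hL, F g = ((L.map el).map F).sum := fun F _ => by
    rw [← List.sum_toFinset F nd]
    exact (sum_subtype _ (fun _ => List.mem_toFinset) F).symm
  classical
  have n : Fintype.card (sg L hL) = m := by
    rw [Fintype.card_eq_sum_ones, s fun _ => 1, List.map_const']; simp [hm]
  have e := h.hom (sg L hL).subtype (n ▸ hK)
  rw [n, show Fx (r.comp (sg L hL).subtype) = fx r L from Submodule.ext fun v => mem_Fx.trans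
    ⟨fun k => mem_fx.2 fun a ha => k ⟨_, List.mem_map_of_mem ha⟩, fun k ⟨g, hg⟩ => by
      obtain ⟨a, ha, rfl⟩ := List.mem_map.1 hg
      exact mem_fx.1 k a ha⟩] at e
  rw [← e, sum_congr rfl fun i hi => by rw [← hc i (mem_range.1 hi)],
    ← sum_cnt (fun i => β (el (ri i))) _ (List.forall_mem_map.2 fun a ha => (cls (h1 a ha)).1)]
  refine Eq.trans ?_ (s β).symm
  rw [List.map_map, List.map_map]
  exact congrArg _ (List.map_congr_left fun a ha => h.isConj (cc (h1 a ha)))

def LB : List ℕ := [0, 15, 17, 20, 29, 31, 34, 85, 87, 90, 98, 119, 169, 171, 174, 182, 203, 421, 423, 426,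
  434, 455, 504, 519, 521, 524, 533, 535, 538, 546, 561, 563, 566, 575, 577, 580, 1681, 1683, 1686, 1694,
  1715, 1764, 1779, 1781, 1784, 1793, 1795, 1798, 1806, 1821, 1823, 1826, 1835, 1837, 1840, 2310, 2325,
  2327, 2330, 2339, 2341, 2344, 2395, 2397, 2400, 2408, 2429, 2479, 2481, 2484, 2492, 2513]

def LA : List ℕ := [0, 15, 17, 20, 29, 31, 34, 421, 423, 426, 434, 455, 1764, 1779, 1781, 1784, 1793, 1795,
  1798, 1806, 1821, 1823, 1826, 1835, 1837, 1840, 2395, 2397, 2400, 2408, 2429, 2479, 2481, 2484, 2492, 2513]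

def LC : List ℕ := [0, 15, 17, 85, 87, 98, 169, 171, 182, 264, 289, 320, 333, 348, 373, 683, 695, 725, 737,
  782, 795, 1681, 1683, 1694, 1748, 1761, 1764, 1779, 1781, 1806, 1821, 1823, 1902, 1927, 2111, 2123]

def LD : List ℕ := [0, 15, 17, 85, 87, 98, 169, 171, 182, 1681, 1683, 1694, 1764, 1779, 1781, 1806, 1821, 1823]

theorem okB : ok LB = true := by decide +kernel
theorem okA : ok LA = true := by decide +kernel
theorem okC : ok LC = true := by decide +kernel
theorem okD : ok LD = true := by decide +kernel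

def X : A7 := el 5
def Z : A7 := el 54

theorem X3 : X ^ 3 = 1 := eq_one.2 (by rw [cd_pow, X, cd_el]; decide +kernel)
theorem X1 : X ≠ 1 := mt eq_one.1 (by rw [X, cd_el]; decide +kernel)
theorem Z3 : Z ^ 3 = 1 := eq_one.2 (by rw [cd_pow, Z, cd_el]; decide +kernel)
theorem Z1 : Z ≠ 1 := mt eq_one.1 (by rw [Z, cd_el]; decide +kernel)
theorem cX : IsConj X (X ^ 2) := cj_of 7 (by rw [cd_pow, X, cd_el]; decide +kernel)
theorem cZ : IsConj Z (Z ^ 2) := cj_of 7 (by rw [cd_pow, Z, cd_el]; decide +kernel)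
theorem X3c : X.1.IsThreeCycle := card_support_eq_three_iff.1 (by decide +kernel)
theorem eX : el 7 * el 13 = X := cd_inj (by rw [cd_mul, X, cd_el, cd_el, cd_el]; decide +kernel)
theorem cc' {n m : ℕ} (h : n < 2520 ∧ ri (cl n) = m) : IsConj (el m) (el n) := h.2 ▸ cc h.1
theorem c_7 : IsConj T (el 7) := cc' (by decide +kernel)
theorem c13 : IsConj T (el 13) := cc' (by decide +kernel)
theorem c398 : IsConj Z (el 398) := cc' (by decide +kernel)
theorem W5 : (Z * el 398) ^ 5 = 1 := eq_one.2 (by rw [cd_pow, cd_mul, Z, cd_el, cd_el]; decide +kernel)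
theorem W1 : Z * el 398 ≠ 1 := mt eq_one.1 (by rw [cd_mul, Z, cd_el, cd_el]; decide +kernel)

theorem gen' (H : Subgroup A7) (a : Z ∈ H) (b : el 398 ∈ H) : H = ⊤ := by
  have e : el 398 * Z * el 398 * Z * Z * el 398 * Z * el 398 * Z * Z = T ∧
      Z * el 398 * Z * el 398 * el 398 = U := by
    constructor <;> exact cd_inj (by simp only [cd_mul, Z, T, U, cd_el]; decide +kernel)
  generalize el 398 = y, Z = z at *
  refine gen H (e.1 ▸ ?_) (e.2 ▸ ?_) <;> repeat (first | assumption | apply mul_mem)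

variable [FiniteDimensional K V]

theorem eqs (h : Br r β) (h2 : (2 : K) ≠ 0) (h3 : (3 : K) ≠ 0) :
    (4 * finrank K (fx r LB) : ℤ) = 2 * finrank K (fx r LA) + (2 * dm r U + dm r T - finrank K V) ∧
      (2 * finrank K (fx r LC) : ℤ) = finrank K (fx r LD) + (2 * dm r U - dm r T) ∧
      (18 * finrank K (fx r LD) : ℤ) = 18 * dm r T + 6 * dm r X + 6 * dm r Z - 12 * finrank K V := by
  have k18 : ((18 : ℕ) : K) ≠ 0 := by
    rw [show ((18 : ℕ) : K) = 2 * 3 * 3 by norm_num]; simp [h2, h3]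
  have k36 : ((36 : ℕ) : K) ≠ 0 := by
    rw [show ((36 : ℕ) : K) = 2 * 2 * 3 * 3 by norm_num]; simp [h2, h3]
  have k72 : ((72 : ℕ) : K) ≠ 0 := by
    rw [show ((72 : ℕ) : K) = 2 * 2 * 2 * 3 * 3 by norm_num]; simp [h2, h3]
  have b := key h (c := [1, 21, 18, 0, 0, 0, 10, 6, 16]) (m := 72) okB rfl (by decide +kernel) k72
  have a := key h (c := [1, 3, 0, 0, 0, 0, 10, 6, 16]) (m := 36) okA rfl (by decide +kernel) k36
  have c := key h (c := [1, 9, 18, 0, 0, 0, 4, 0, 4]) (m := 36) okC rfl (by decide +kernel) k36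
  have d := key h (c := [1, 9, 0, 0, 0, 0, 4, 0, 4]) (m := 18) okD rfl (by decide +kernel) k18
  have t := h.two h2 T_2
  have u := h.four h2 U4 cU
  have x := h.three h3 X3 cX
  have z := h.three h3 Z3 cZ
  rw [← dm_conj cTU] at u
  simp only [sum_range_succ, range_zero, sum_empty, ri, List.getD_cons_zero, List.getD_cons_succ, e0,
    h.one] at a b c d
  rw [T] at t
  rw [U] at u
  rw [X] at x
  rw [Z] at z
  refine ⟨Int.cast_injective (α := ℂ) ?_, Int.cast_injective (α := ℂ) ?_, Int.cast_injective (α := ℂ) ?_⟩ <;>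
    simp only [T, U, X, Z] at * <;> push_cast at *
  · linear_combination (a - b) / 18 + t + u
  · linear_combination (d - c) / 18 + u
  · linear_combination -d + 9 * t + 2 * x + 2 * z

theorem two_le (m : finrank K (fx r LD) + 2 ≤ finrank K (fx r LB) + finrank K (fx r LC)) :
    2 ≤ finrank K (Fx r) := by
  have h1 := Submodule.finrank_sup_add_finrank_inf_eq (fx r LB) (fx r LC)
  have h2 := Submodule.finrank_mono (sup_le (fx_le (r := r) (L := LD) (M := LB) (by decide +kernel))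
    (fx_le (r := r) (L := LD) (M := LC) (by decide +kernel)))
  have h3 := gen (Sg r (fx r LB ⊓ fx r LC) ⊤)
    ⟨fun v hv => mem_fx.1 hv.1 546 (by decide +kernel), fun _ => trivial⟩
    ⟨fun v hv => mem_fx.1 hv.2 725 (by decide +kernel), fun _ => trivial⟩
  have h4 : fx r LB ⊓ fx r LC ≤ Fx r := fun v hv => mem_Fx.2 fun g => (h3.ge trivial : g ∈ _).1 v hv
  have := Submodule.finrank_mono h4
  omega

end C7

open C7

variable {K V W : Type*} [Field K] [AddCommGroup V] [Module K V] [AddCommGroup W] [Module K W]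
  [FiniteDimensional K V] [FiniteDimensional K W]

theorem c7 {r : alternatingGroup (Fin 7) →* End K V}
    {l : alternatingGroup (Fin 7) →* End K W} (h : Ho r l) (h3 : (3 : K) ≠ 0)
    (iv : ∀ x : alternatingGroup (Fin 7), x.1.IsThreeCycle → ¬ Iv x) : False := by
  have h2 := h.h2
  obtain ⟨β, b⟩ := h.br
  obtain ⟨γ, c⟩ := h.bl
  obtain ⟨e1, e2, e3⟩ := eqs b h2 h3
  obtain ⟨-, f2, f3⟩ := eqs c h2 h3
  have t := h.t2 T T_2 T1
  have u := h.t4 U U4 U2
  have x := h.t3 h3 X X3 X1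
  have z := h.t3 h3 Z Z3 Z1
  have s := h.m.sco gen
  have s' := h.m.sco gen'
  have d := dm_add_le (r := l) (el 7) (el 13)
  have w : 11 ≤ dm l (Z * el 398) := by
    by_cases h5 : (5 : K) = 0
    · have := Fact.mk Nat.prime_five
      have := unip (r := l) (p := 5) (k := 1) (by exact_mod_cast h5) W5
      rw [h.dl] at this
      omega
    · have := (h.t5 h5 _ W5 C7.W1).1
      omega
  have i := mt (fun k : (Fx l ≠ ⊥ ∨ Cx l ≠ ⊤) ∧ dm l X = 22 => h.u3 h3 k.1 X X3 k.2) (iv X X3c)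
  have p := sco' (r := l) gen
  have p' := sco' (r := l) gen'
  have m1 := Submodule.finrank_mono (fx_le (r := r) (L := LA) (M := LB) (by decide +kernel))
  have m2 := Submodule.finrank_mono (fx_le (r := l) (L := LD) (M := LC) (by decide +kernel))
  have m3 := two_le (r := r)
  rw [← dm_conj c_7, ← dm_conj c13, eX] at d
  rw [← dm_conj cTU] at u
  rw [← dm_conj c398] at s' p'
  rw [h.m.fx] at m3
  rw [h.dr] at e1 e3
  rw [h.dl] at f3 d p p'
  rcases t with t | t
  · exact i ⟨p (by omega), by omega⟩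
  · by_cases k : dm r U = 7
    · exact i ⟨p' (by omega), by omega⟩
    · omega

end CF.Al
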