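import Cfsg.Agent.Al.A
import Cfsg.Agent.ExA.A

/-! Alternating subgroups of `F₄(q)`: degree at least eight, odd characteristic. -/

set_option autoImplicit false

namespace CF.Al

open Module CF.E83 Equiv

variable {K V W : Type*} [Field K] [AddCommGroup V] [Module K V] [AddCommGroup W] [Module K W]
  [FiniteDimensional K V]

namespace C8

theorem key {S : Type*} [Group S] {r : S →* End K V} {l : S →* End K W} (h : Tb r l)
    (h0 : Fx r ≠ ⊥) {a b c d x y w : S} (aa : a * a = 1) (ab : a * b = b * a) (ac : a * c = c * a)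
    (a1 : a ≠ 1) (ca : c * a ≠ 1) (xa : x * a * x⁻¹ = b) (xb : x * b * x⁻¹ = b * a)
    (xc : x * c * x⁻¹ = c) (xd : x * d * x⁻¹ = d) (ya : y * a * y⁻¹ = a) (yc : y * c * y⁻¹ = d)
    (yd : y * d * y⁻¹ = d * c) (wa : w * a * w⁻¹ = c) (wb : w * b * w⁻¹ = d) : False := by
  have cj : ∀ u g g' : S, u * (g * g') * u⁻¹ = u * g * u⁻¹ * (u * g' * u⁻¹) := fun u g g' => by group
  have sq : ∀ u : S, u * a * u⁻¹ * (u * a * u⁻¹) = 1 := fun u => by rw [← cj, aa]; group
  have bb : b * b = 1 := xa ▸ sq x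
  have cc : c * c = 1 := wa ▸ sq w
  have dd : d * d = 1 := by rw [← yc, ← cj, cc]; group
  have ad : a * d = d * a := by rw [← ya, ← yc, ← cj, ← cj, ac]
  have bc : b * c = c * b := by rw [← xa, ← xc, ← cj, ← cj, ac]
  have bd : b * d = d * b := by rw [← xa, ← xd, ← cj, ← cj, ad]
  have cd : c * d = d * c := by rw [← wa, ← wb, ← cj, ← cj, ab]
  have cm : ∀ {g g' : S}, g * g' = g' * g → ∀ v, r g (r g' v) = r g' (r g v) := fun e v => by
    rw [← End.mul_apply, ← map_mul, e, map_mul, End.mul_apply]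
  have iv : ∀ {g : S}, g * g = 1 → ∀ v, r g (r g v) = v := fun e v => by
    rw [← End.mul_apply, ← map_mul, e, map_one, End.one_apply]
  have s : Ser r [a, b, c, d] :=
    ⟨⟨⟨⟨trivial, trivial, fun v _ => iv dd v⟩, ⟨trivial, fun v _ => cm cd v⟩, fun v _ => iv cc v⟩,
      ⟨⟨trivial, fun v _ => cm bd v⟩, fun v _ => cm bc v⟩, fun v _ => iv bb v⟩,
      ⟨⟨⟨trivial, fun v _ => cm ad v⟩, fun v _ => cm ac v⟩, fun v _ => cm ab v⟩, fun v _ => iv aa v⟩
  have e := s.sum h.h2
  have p : 0 < finrank K (Wl r [a, b, c, d]) := by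
    have : Fx r ≤ Wl r [a, b, c, d] := fun v hv => mem_Wl.2 fun g _ => mem_Fx.1 hv g
    have := Submodule.finrank_mono this
    have := mt Submodule.finrank_eq_zero.1 h0
    omega
  simp only [Fs, mul_one, List.length_cons, List.length_nil, ← mul_assoc] at e
  have b1 := dm_two (r := r) h.h2 (one_mul (1 : S))
  have b2 := dm_two (r := r) h.h2 aa
  have c2 : c * a * (c * a) = 1 := by rw [mul_assoc, ← mul_assoc a, ac, mul_assoc, aa, mul_one, cc]
  have b3 := dm_two (r := r) h.h2 c2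
  have t1 := h.t2 a (by rw [pow_two, aa]) a1
  have t2 := h.t2 (c * a) (by rw [pow_two, c2]) ca
  rw [dm_one] at b1
  rw [h.dr] at b1 b2 b3
  have k1 := bt_conj (r := r) a x
  have k2 := bt_conj (r := r) b x
  have k3 := bt_conj (r := r) a w
  have k4 := bt_conj (r := r) c y
  have k5 := bt_conj (r := r) d y
  have k6 := bt_conj (r := r) (c * a) y
  have k7 := bt_conj (r := r) (d * a) y
  have m1 := bt_conj (r := r) (c * a) x
  have m2 := bt_conj (r := r) (c * b) x
  have m3 := bt_conj (r := r) (d * a) x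
  have m4 := bt_conj (r := r) (d * b) x
  have m5 := bt_conj (r := r) (d * c * a) x
  have m6 := bt_conj (r := r) (d * c * b) x
  simp only [cj, xa, xb, xc, xd, ya, yc, yd, wa] at k1 k2 k3 k4 k5 k6 k7 m1 m2 m3 m4 m5 m6
  simp only [← mul_assoc] at m2 m4 m6
  omega

/-- Even permutations as products of two transpositions. -/
def e2 (i j k l : Fin 8) (h : Perm.sign (swap i j * swap k l) = 1 := by decide) :
    alternatingGroup (Fin 8) := ⟨swap i j * swap k l, Perm.mem_alternatingGroup.2 h⟩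

end C8

open C8 in
theorem c8 {n : ℕ} (h8 : 8 ≤ n) {r : alternatingGroup (Fin n) →* End K V}
    {l : alternatingGroup (Fin n) →* End K W} (h : Tb r l) (h0 : Fx r ≠ ⊥) : False := by
  obtain ⟨f, hf⟩ := ExA.exists_alt_hom (α := Fin 8) (β := Fin n) (by simpa using h8)
  refine key (h.comp hf) (fun e => h0 (eq_bot_iff.2 (e ▸ Fx_le_comp f))) (a := e2 0 1 2 3)
    (b := e2 0 2 1 3) (c := e2 4 5 6 7) (d := e2 4 6 5 7) (x := e2 1 2 2 3) (y := e2 5 6 6 7)
    (w := e2 0 4 1 5 * e2 2 6 3 7) ?_ ?_ ?_ ?_ ?_ ?_ ?_ ?_ ?_ ?_ ?_ ?_ ?_ ?_ <;> decide +kernel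

end CF.Al
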