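import Cfsg.Agent.Al.Ln
import Cfsg.Agent.ExA.G

/-! Maximal subgroups of `F₄(q)` with alternating socle: counting lines, small invariant subspaces. -/

set_option autoImplicit false
set_option linter.unusedSectionVars false

namespace CF.Al

open Module CF.E83 Function Submodule Ln

variable {K V W : Type*} [Field K] [AddCommGroup V] [Module K V] [AddCommGroup W] [Module K W]
  [FiniteDimensional K V] [FiniteDimensional K W] {X A : Type*} [Group X] [Finite X] [IsSimpleGroup X] [Group A]
  {H : Subgroup X} {j : A →* X} (M : Mx H j) (hX : ∃ a b : X, a * b ≠ b * a) {F : Subfield K} [Finite F]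
include M

theorem Cn.two [Finite A] (hi : Nat.card H ≤ 2 * Nat.card A) :
    ∃ t ∈ H, ∀ h ∈ H, h ∈ j.range ∨ h * t ∈ j.range := by
  by_cases o : ∀ h ∈ H, h ∈ j.range
  · exact ⟨1, one_mem _, fun h m => .inl (o h m)⟩
  push Not at o
  obtain ⟨t, m, n⟩ := o
  have l : j.range ≤ H := by rintro _ ⟨g, rfl⟩; exact M.le g
  have a := (j.range.subgroupOf H).card_mul_index
  rw [Nat.card_congr (Subgroup.subgroupOfEquivOfLe l).toEquiv,
    ← Nat.card_congr (MonoidHom.ofInjective M.inj).toEquiv] at a
  have b : (j.range.subgroupOf H).index ≠ 1 := fun e => n ((Subgroup.index_eq_one.1 e).ge (Subgroup.mem_top ⟨t, m⟩))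
  have c := Subgroup.index_ne_zero_of_finite (H := j.range.subgroupOf H)
  have d : (j.range.subgroupOf H).index ≤ 2 :=
    Nat.le_of_mul_le_mul_left (a.trans_le (hi.trans_eq (mul_comm _ _))) Nat.card_pos
  refine ⟨t, m, fun h m' => or_iff_not_imp_left.2 fun n' => ?_⟩
  exact (Subgroup.mul_mem_iff_of_index_two (H := j.range.subgroupOf H) (by omega) (a := ⟨h, m'⟩) (b := ⟨t, m⟩)).2
    (iff_of_false n' n)

include hX

theorem Cn.fx [Finite A] {l : X →* End K W} (hl : Rt F l) (h1 : Fx l = ⊥) (hi : Nat.card H ≤ 2 * Nat.card A) {k : ℕ}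
    (h : Nat.card H * Nat.card F ^ finrank K W < Nat.card X * (Nat.card F ^ (k + 1) - 1)) :
    finrank K (Fx (l.comp j)) ≤ 2 * k := by
  obtain ⟨b, hb⟩ := hl
  obtain ⟨t, m, ht⟩ := Cn.two M hi
  have key (ε : ℤˣ) (E : Submodule K W) (e : ∀ v, v ∈ E ↔ v ∈ Fx (l.comp j) ∧ l t v = ε • v) : finrank K E ≤ k := by
    by_contra! n
    have c := card_rat b (F := F) (E := E) fun f v u => (e _).2 ⟨mem_Fx.2 fun g => (pj_ap b (hb _) f v).symm.trans
      (congrArg _ (mem_Fx.1 ((e v).1 u).1 g)), by
        rw [← pj_ap b (hb _), ((e v).1 u).2, Units.smul_def, Units.smul_def, map_zsmul]⟩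
    have st (v) (u : v ∈ (La F b ∩ E : Set W) \ {0}) : St l v = H := St_eq M hX (by rw [h1]; exact u.2) fun x y => by
      obtain ⟨a, d⟩ := (e v).1 u.1.2
      rcases ht x y with ⟨g, rfl⟩ | ⟨g, z⟩
      · exact ⟨1, by simp [show l (j g) v = v from mem_Fx.1 a g]⟩
      · have := mem_Fx.1 a g
        rw [MonoidHom.comp_apply, z, map_mul, End.mul_apply, d, Units.smul_def, map_zsmul] at this
        refine ⟨ε, ?_⟩
        nth_rw 2 [← this]
        simp [Units.smul_def, smul_smul]
    have cj (x v w) (r : l x v = w) (g) (u : g ∈ St l v) : x * g * x⁻¹ ∈ St l w := u.imp fun δ u => by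
      rw [h1, mem_bot, sub_eq_zero] at u ⊢
      rw [← r, ← End.mul_apply, ← map_mul, inv_mul_cancel_right, map_mul, End.mul_apply, u, Units.smul_def,
        Units.smul_def, map_zsmul]
    have := count (r := l) (H := H) (D := (La F b ∩ E : Set W) \ {0}) (card_La (F := F) b).1
      (fun x v u => ap_La b (hb x) u.1.1) fun x v u u' => nrm hX M.co fun g => ⟨fun y => by
        simpa [st _ u'] using cj x v _ rfl g (st v u ▸ y), fun y => by
        have := cj x⁻¹ _ v (by rw [← End.mul_apply, ← map_mul]; simp) _ (st _ u' ▸ y)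
        rwa [st _ u, show x⁻¹ * (x * g * x⁻¹) * x⁻¹⁻¹ = g by group] at this⟩
    rw [Set.ncard_sdiff_singleton_of_mem (Set.mem_inter (zero_mem (La F b)) (zero_mem E))] at this
    exact h.not_ge ((Nat.mul_le_mul_left _ (Nat.sub_le_sub_right ((Nat.pow_le_pow_right Nat.card_pos n).trans c) 1)).trans
      (this.trans (Nat.mul_le_mul_left _ (card_La b).2)))
  have a := rk_map (l t - 1) (Fx (l.comp j))
  have c := key 1 (Fx (l.comp j) ⊓ LinearMap.ker (l t - 1)) fun v => by simp [sub_eq_zero]
  have d := key (-1) (Fx (l.comp j) ⊓ LinearMap.ker (l t + 1)) fun v => by simp [add_eq_zero_iff_eq_neg]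
  have := Submodule.finrank_mono (show (Fx (l.comp j)).map (l t - 1) ≤ Fx (l.comp j) ⊓ LinearMap.ker (l t + 1) by
    rintro _ ⟨v, u, rfl⟩
    exact ⟨sub_mem (inv M m u) u, by simp [sq M m u]⟩)
  omega

set_option linter.unusedVariables false in
theorem Mx.cnt [Finite A] {l : X →* End K W} (hl : Rt F l) (h1 : Fx l = ⊥) (h2 : Cx l = ⊤)
    (c2 : (2 : K) ≠ 0) (hi : Nat.card H ≤ 2 * Nat.card A) {k : ℕ}
    (h : Nat.card H * Nat.card F ^ finrank K W < Nat.card X * (Nat.card F ^ (k + 1) - 1)) :
    finrank K (Fx (l.comp j)) ≤ 2 * k ∧ finrank K W ≤ finrank K (Cx (l.comp j)) + 2 * k := by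
  refine ⟨Cn.fx M hX hl h1 hi h, ?_⟩
  have a := Cn.fx M hX (k := k) (rt_dual hl) (by rw [fx_dual, h2, dualAnnihilator_top]) hi
    (by rwa [Subspace.dual_finrank_eq])
  rw [dual_comp, fx_dual] at a
  have := Subspace.finrank_add_finrank_dualAnnihilator_eq (Cx (l.comp j))
  omega

omit [Finite F] in
set_option linter.unusedVariables false in
theorem Mx.bp [Fintype A] [IsAlgClosed K] {r : X →* End K V} (c2 : (2 : K) ≠ 0)
    {E : Multiplicative (Fin 4 → ZMod 2) →* X} (hE : Injective E) {a : A → ℤ}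
    (ha : ∀ (α : MulAut A) g, a (α g) = a g)
    (h3 : finrank K (LinearMap.range (∑ g, (a g : K) • r (j g))) ≤ 3) {z : X}
    (hz : ∀ v ∈ LinearMap.range (∑ g, (a g : K) • r (j g)),
      r z v ∈ LinearMap.range (∑ g, (a g : K) • r (j g))) :
    z ∈ H ∨ LinearMap.range (∑ g, (a g : K) • r (j g)) ≤ Fx r := by
  classical
  have cm (h) (m : h ∈ H) : r h * ∑ g, (a g : K) • r (j g) = (∑ g, (a g : K) • r (j g)) * r h := by
    choose f e using M.nor h m
    let φ : A →* A := .mk' f fun x y => M.inj (by rw [map_mul, ← e, ← e, ← e, map_mul, conj_mul])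
    let α := MulEquiv.ofBijective φ (Finite.injective_iff_bijective.1 fun x y k => M.inj
      (conj_injective ((e x).trans ((congrArg j k).trans (e y).symm))))
    rw [Finset.mul_sum, ← α.toEquiv.sum_comp fun g => (a g : K) • r (j g), Finset.sum_mul]
    refine Finset.sum_congr rfl fun g _ => ?_
    rw [mul_smul_comm, smul_mul_assoc, ← map_mul, ← map_mul, ← ha α g, mul_inv_eq_iff_eq_mul.1 (e g)]
    rfl
  generalize ∑ g, (a g : K) • r (j g) = T at *
  let S : Subgroup X :=
    { carrier := {x | ∀ v ∈ LinearMap.range T, r x v ∈ LinearMap.range T}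
      one_mem' := by simp
      mul_mem' {x y} p q v m := by simpa using p _ (q v m)
      inv_mem' {x} p v m := by
        rw [inv_eq_of_mul_eq_one_right (mul_pow_sub_one (orderOf_pos x).ne' x ▸ pow_orderOf_eq_one x), map_pow,
          End.pow_apply]
        exact Function.Iterate.rec _ m p _ }
  have l : H ≤ S := by
    rintro h m _ ⟨v, rfl⟩
    exact ⟨r h v, (LinearMap.congr_fun (cm h m) v).symm⟩
  refine (M.co.le_iff.1 l).symm.imp (fun e => e.le hz) fun e => ?_
  have s (x) : x ∈ S := e.ge trivial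
  let ρ : X →* End K (LinearMap.range T) :=
    { toFun x := (r x).restrict (s x)
      map_one' := by ext; simp
      map_mul' x y := by ext; simp }
  rcases ρ.normal_ker.eq_bot_or_eq_top with o | o
  · obtain ⟨b, l, k⟩ := CF.ExA.exists_eigb (I := Fin (finrank K (LinearMap.range T))) (ρ.comp E) (m := 2) c2
      (by decide) (Fintype.card_fin _).symm
    have i : Function.Injective fun g i => decide (l i g = 1) := fun g g' e => hE (ρ.ker_eq_bot_iff.1 o (b.ext fun i => by
      have q (g) : l i g = 1 ∨ l i g = -1 := by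
        rw [← Units.val_inj, ← Units.val_inj (a := l i g), Units.val_neg, Units.val_one, ← sq_eq_one_iff,
          ← Units.val_pow_eq_pow_val, ← map_pow, show g ^ 2 = 1 by revert g; decide, map_one, Units.val_one]
      have : l i g = l i g' := by
        have := congrFun e i
        rcases q g with u | u <;> rcases q g' with u' | u' <;> simp_all
      exact (k g i).trans (this ▸ (k g' i).symm)))
    have := (Nat.card_le_card_of_injective _ i).trans_eq (by simp : _ = 2 ^ finrank K (LinearMap.range T))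
    exact absurd (this.trans (Nat.pow_le_pow_right two_pos h3)) (by simp)
  · exact fun v m => mem_Fx.2 fun g => congrArg Subtype.val (LinearMap.congr_fun (o.ge (Subgroup.mem_top g)) ⟨v, m⟩)

end CF.Al
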