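import Cfsg.Agent.Al.B

/-! The Frobenius group `3² : 4`. -/

set_option autoImplicit false

namespace CF.Al

open Module CF.E83 Finset MonoidAlgebra
open CF.Ev (lin lin_single)

variable {K S V W : Type*} [Field K] [Group S] [Fintype S] [AddCommGroup V] [Module K V] [AddCommGroup W]
  [Module K W] {r : S →* End K V} {l : S →* End K W} {β : S → ℂ} {x y u : S}

namespace F

omit [Fintype S] in
theorem geo {R : Type*} [Ring R] {X : R} {n : ℕ} (e : X ^ n = 1) :
    X * ∑ i ∈ range n, X ^ i = ∑ i ∈ range n, X ^ i ∧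
      (∑ i ∈ range n, X ^ i) * ∑ i ∈ range n, X ^ i = (n : ℤ) • ∑ i ∈ range n, X ^ i := by
  have a := mul_geom_sum X n
  rw [e, sub_self, sub_mul, one_mul, sub_eq_zero] at a
  have m (i : ℕ) : X ^ i * ∑ i ∈ range n, X ^ i = ∑ i ∈ range n, X ^ i := by
    induction i with
    | zero => simp
    | succ i ih => rw [pow_succ, mul_assoc, a, ih]
  exact ⟨a, by nth_rw 1 [sum_mul]; rw [sum_congr rfl fun i _ => m i]; simp⟩

theorem cos (h : Br l β) (x3 : x ^ 3 = 1) (c : Commute x y) (e1 : u * x = y * u) (e2 : u * y = x⁻¹ * u)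
    (i j : ℕ) : β (x ^ i * y ^ j * u) = β u := by
  have f1 : u * x⁻¹ = y⁻¹ * u := by rw [mul_inv_eq_iff_eq_mul, mul_assoc, e1, inv_mul_cancel_left]
  have f2 : u * y⁻¹ = x * u := by rw [mul_inv_eq_iff_eq_mul, mul_assoc, e2, mul_inv_cancel_left]
  have a (g) (k : Commute y g) : β (g * x * y * u) = β (g * u) := by
    rw [← h.conj (g * u) y, ← mul_assoc, k.eq, mul_assoc (g * y), f2, mul_assoc g x, c.eq, ← mul_assoc,
      ← mul_assoc]
  have b (g) (k : Commute x g) : β (g * x * y⁻¹ * u) = β (g * u) := by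
    rw [← h.conj (g * u) x, ← mul_assoc, k.eq, mul_assoc (g * x) u, f1, ← mul_assoc]
  have d (g) (k : Commute x g) (k' : Commute y g) : β (g * x * u) = β (g * u) := by
    have := (a (g * x * x * y⁻¹) (((k'.mul_right c.symm).mul_right c.symm).mul_right (.inv_right (.refl y)))).trans
      (b (g * x) (k.mul_right (.refl x)))
    rw [← this, mul_assoc _ y⁻¹, ← c.inv_right.eq, ← mul_assoc _ x, inv_mul_cancel_right, mul_assoc g, mul_assoc g,
      ← pow_three', x3, mul_one]
  induction i with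
  | zero =>
    induction j with
    | zero => simp
    | succ j ih =>
      have k : Commute x (x ^ 0 * y ^ j) := ((Commute.refl x).pow_right _).mul_right (c.pow_right _)
      have k' : Commute y (x ^ 0 * y ^ j) := (c.symm.pow_right _).mul_right ((Commute.refl y).pow_right _)
      rw [← ih, ← a _ k', mul_assoc _ x, c.eq, ← mul_assoc _ y, d _ (k.mul_right c) (k'.mul_right (.refl y)),
        pow_succ, ← mul_assoc (x ^ 0)]
  | succ i ih =>
    rw [← ih, ← d (x ^ i * y ^ j) (((Commute.refl x).pow_right _).mul_right (c.pow_right _))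
      ((c.symm.pow_right _).mul_right ((Commute.refl y).pow_right _)), pow_succ, mul_assoc _ x, (c.pow_right j).eq,
      ← mul_assoc _ _ x]

theorem cos2 (h : Br l β) {g : S} (g3 : g ^ 3 = 1) (e : u * g = g⁻¹ * u) : β (g * u) = β u := by
  have f : u * g⁻¹ = g * u := by rw [mul_inv_eq_iff_eq_mul, mul_assoc, e, mul_inv_cancel_left]
  rw [← h.conj _ g, mul_assoc g, mul_assoc g, f, ← mul_assoc, ← mul_assoc, ← pow_three', g3, one_mul]

end F

variable [FiniteDimensional K W]

/-- The character sum over `3² : 4` against the character `u ↦ ε`. -/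
theorem Br.s36 (h : Br l β) (h2 : (2 : K) ≠ 0) (h3 : (3 : K) ≠ 0) (x3 : x ^ 3 = 1) (u4 : u ^ 4 = 1)
    (c : Commute x y) (e1 : u * x = y * u) (e2 : u * y = x⁻¹ * u) {ε : ℤ} (hε : ε ^ 2 = 1) :
    6 * (dm l x + dm l (x * y) : ℂ) - 3 * finrank K W + 9 * (ε * (4 * dm l u - 2 * dm l (u ^ 2)) +
      (2 * dm l (u ^ 2) - finrank K W)) = 36 * finrank K (LinearMap.range (alg l ((∑ i ∈ range 3, single x 1 ^ i) *
        (∑ i ∈ range 3, single y 1 ^ i) * ∑ i ∈ range 4, single u ε ^ i))) := by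
  have cy : u * x * u⁻¹ = y := by rw [e1, mul_inv_cancel_right]
  have y3 : y ^ 3 = 1 := by rw [← cy, conj_pow, x3, mul_one, mul_inv_cancel]
  have xi : x⁻¹ = x ^ 2 := inv_eq_of_mul_eq_one_right (by rw [← pow_succ', x3])
  have ui : u ^ 3 = u⁻¹ := eq_inv_of_mul_eq_one_left (by rw [← pow_succ, u4])
  have p := F.geo (X := (single x 1 : ℤ[S])) (n := 3) (by rw [single_pow, x3, one_pow, one_def])
  have q := F.geo (X := (single y 1 : ℤ[S])) (n := 3) (by rw [single_pow, y3, one_pow, one_def])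
  have t := F.geo (X := (single u ε : ℤ[S])) (n := 4) (by
    rw [single_pow, u4, show 4 = 2 * 2 from rfl, pow_mul, hε, one_pow, one_def])
  have c1 : Commute (∑ i ∈ range 3, (single x 1 : ℤ[S]) ^ i) (∑ i ∈ range 3, single y 1 ^ i) :=
    .sum_left _ _ _ fun i _ => .sum_right _ _ _ fun j _ => .pow_pow (by
      rw [Commute, SemiconjBy, single_mul_single, single_mul_single, c.eq]) _ _
  have a1 : (single u ε : ℤ[S]) * ∑ i ∈ range 3, single x 1 ^ i = (∑ i ∈ range 3, single y 1 ^ i) * single u ε :=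
    SemiconjBy.eq (a := (single u ε : ℤ[S])) (by
      rw [SemiconjBy, mul_sum, sum_mul]
      exact sum_congr rfl fun i _ => SemiconjBy.pow_right (by simp [SemiconjBy, single_mul_single, e1]) i)
  have a2 : (single u ε : ℤ[S]) * ∑ i ∈ range 3, single y 1 ^ i = (∑ i ∈ range 3, single x 1 ^ i) * single u ε := by
    have e3 : u * y ^ 2 = x * u := by
      rw [pow_two, ← mul_assoc, e2, mul_assoc, e2, ← mul_assoc, ← pow_two, inv_pow, ← xi, inv_inv]
    simp only [sum_range_succ, range_zero, sum_empty, zero_add, mul_add, add_mul, single_pow, single_mul_single,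
      pow_zero, pow_one, e2, e3, xi, mul_one, one_mul, one_pow]
    abel
  have c2 : Commute (∑ i ∈ range 4, (single u ε : ℤ[S]) ^ i)
      ((∑ i ∈ range 3, single x 1 ^ i) * ∑ i ∈ range 3, single y 1 ^ i) :=
    .sum_left _ _ _ fun i _ => .pow_left (by
      rw [Commute, SemiconjBy, ← mul_assoc, a1, mul_assoc, a2, ← mul_assoc, c1.eq]) i
  have k := h.rk' ((∑ i ∈ range 3, single x 1 ^ i) * (∑ i ∈ range 3, single y 1 ^ i) *
    ∑ i ∈ range 4, single u ε ^ i) (N := 36) (by
      rw [show ((36 : ℤ) : K) = 2 ^ 2 * 3 ^ 2 by norm_num]; exact mul_ne_zero (pow_ne_zero _ h2) (pow_ne_zero _ h3)) (by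
      rw [mul_assoc, ← mul_assoc (∑ i ∈ range 4, _), c2.eq, mul_assoc _ (∑ i ∈ range 4, _), t.2, ← mul_assoc,
        c1.symm.mul_mul_mul_comm, p.2, q.2, smul_mul_smul_comm, smul_mul_smul_comm]
      norm_num)
  have f2 : u * y⁻¹ = x * u := by rw [mul_inv_eq_iff_eq_mul, mul_assoc, e2, mul_inv_cancel_left]
  have s1 (i j : ℕ) : β (x ^ i * y ^ j * u ^ 1) = β (u ^ 1) := by rw [pow_one]; exact F.cos h x3 c e1 e2 i j
  have s3 (i j : ℕ) : β (x ^ i * y ^ j * u ^ 3) = β (u ^ 3) := by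
    rw [ui, (c.pow_pow i j).eq]
    exact F.cos h y3 c.symm (by rw [← cy]; group) (by
      rw [inv_mul_eq_iff_eq_mul, ← mul_assoc, f2, mul_inv_cancel_right]) j i
  have s2 (i j : ℕ) : β (x ^ i * y ^ j * u ^ 2) = β (u ^ 2) := F.cos2 h
    (by rw [(c.pow_pow i j).mul_pow, ← pow_mul, ← pow_mul, mul_comm i, mul_comm j, pow_mul, pow_mul, x3, y3]; simp)
    (by
      have g1 : SemiconjBy (u ^ 2) x x⁻¹ := by rw [pow_two]; exact SemiconjBy.mul_left (y := y) e2 e1
      have g2 : SemiconjBy (u ^ 2) y y⁻¹ := by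
        rw [pow_two]; exact SemiconjBy.mul_left (y := x⁻¹) (SemiconjBy.inv_right e1) e2
      rw [((g1.pow_right i).mul_right (g2.pow_right j)).eq, (c.pow_pow i j).eq, mul_inv_rev, inv_pow, inv_pow])
  have b1 := h.cyc (n := 3) h3 x3
  have b2 := h.cyc (n := 3) h3 y3
  have b3 := h.cyc (n := 3) (x := x * y) h3 (by rw [c.mul_pow, x3, y3, one_mul])
  have b4 := h.cyc (n := 3) (x := x ^ 2 * y) h3 (by
    rw [(c.pow_left 2).mul_pow, y3, ← pow_mul, mul_comm 2, pow_mul, x3, one_pow, one_mul])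
  have b5 := h.cyc (n := 4) (by rw [show ((4 : ℕ) : K) = 2 * 2 by norm_num]; exact mul_ne_zero h2 h2) u4
  have b6 := h.two h2 (x := u ^ 2) (by rw [← pow_mul, u4])
  have m1 : dm l y = dm l x := by rw [← cy, dm, dm, map_mul, map_mul, fs_conj]
  have m2 : dm l (x ^ 2 * y) = dm l (x * y) := by
    rw [show x ^ 2 * y = u * (x * y) * u⁻¹ by
      rw [← mul_assoc, e1, mul_assoc y, e2, ← mul_assoc, mul_inv_cancel_right, xi, (c.pow_left 2).eq],
      dm, dm, map_mul, map_mul, fs_conj]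
  have m3 : (x ^ 2 * y) ^ 2 = x * y ^ 2 := by
    rw [(c.pow_left 2).mul_pow, ← pow_mul, show 2 * 2 = 3 + 1 from rfl, pow_succ, x3, one_mul]
  have e3 : (ε : ℂ) ^ 2 = 1 := by exact_mod_cast hε
  simp only [sum_mul, mul_sum, single_pow, single_mul_single, map_sum, lin_single, one_pow, one_mul] at k
  simp only [sum_range_succ (n := 3), sum_range_succ (n := 2), sum_range_succ (n := 1), sum_range_one, s1, s2, s3] at k
  simp only [sum_range_succ, range_zero, sum_empty, pow_zero, pow_one, one_mul, mul_one, h.one, m1, m2, m3,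
    c.mul_pow, zero_add] at k b1 b2 b3 b4 b5
  push_cast at k b1 b2 b3 b4 b5
  linear_combination k - b1 - b2 - b3 - b4 - 9 * ε * b5 - 9 * (1 - ε) * b6 - 9 * (β (u ^ 2) + ε * β (u ^ 3)) * e3

/-- The fixed spaces of the elements of order three of `3² : 4` on the adjoint module. -/
theorem fr36 (h : Tb r l) (hb : ∃ β, Br l β) (h3 : (3 : K) ≠ 0) (x3 : x ^ 3 = 1) (u4 : u ^ 4 = 1) (n : x ≠ 1)
    (n' : x * y ≠ 1) (c : Commute x y) (e1 : u * x = y * u) (e2 : u * y = x⁻¹ * u) (d1 : dm l u = 14)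
    (d2 : dm l (u ^ 2) = 24) : dm l x = 22 ∧ dm l (x * y) = 22 := by
  obtain ⟨β, b⟩ := hb
  have k := b.s36 h.h2 h3 x3 u4 c e1 e2 (ε := -1) (by norm_num)
  have y3 : y ^ 3 = 1 := by rw [← mul_inv_eq_of_eq_mul e1, conj_pow, x3, mul_one, mul_inv_cancel]
  have a1 := h.t3 h3 x x3 n
  have a2 := h.t3 h3 (x * y) (by rw [c.mul_pow, x3, y3, one_mul]) n'
  rw [d1, d2, h.dl] at k
  generalize finrank K (LinearMap.range (alg l _)) = m at k
  have : (6 * (dm l x + dm l (x * y)) : ℂ) = 36 * m + 264 := by push_cast at k; linear_combination k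
  norm_cast at this
  omega

end CF.Al
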