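import Cfsg.Agent.Al.A
import Cfsg.Agent.ExA.Small

/-! The finite group inside the algebraic group. -/

set_option autoImplicit false

namespace CF.Al

open CF.Chev CF.BN CF.ExA CF.E83 Cfsg.Lie Matrix Function Module

section
variable {K V S : Type*} [Field K] [AddCommGroup V] [Module K V] [Group S]

/-- Matrices as endomorphisms. -/
noncomputable def en {I : Type*} [Fintype I] [DecidableEq I] (R : S →* Matrix I I K) :
    S →* End K (I → K) := (toLinAlgEquiv' (R := K)).toMulEquiv.toMonoidHom.comp R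

theorem en_apply {I : Type*} [Fintype I] [DecidableEq I] (R : S →* Matrix I I K) (g : S)
    (v : I → K) : en R g v = R g *ᵥ v := toLinAlgEquiv'_apply _ _

theorem rt_en {I : Type*} [Fintype I] [DecidableEq I] {R : S →* Matrix I I K} {F : Subfield K}
    (h : ∀ g a b, R g a b ∈ F) : Rt F (en R) :=
  ⟨(Pi.basisFun K I).reindex (Fintype.equivFinOfCardEq (by simp)), fun x i j => by
    simpa [en_apply] using h x _ _⟩

theorem Dg.conj {n : ℕ} {w : List (List ℤ)} {r : S →* End K V} (b : Basis (Fin n) K V) (g : S) :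
    ∃ b' : Basis (Fin n) K V, ∀ x c, Dg w r b x c → Dg w r b' (g * x * g⁻¹) c :=
  ⟨b.map (LinearMap.GeneralLinearGroup.toLinearEquiv (r.toHomUnits g)), fun x c h a => by
    simp only [Basis.map_apply]
    change r _ (r g _) = _ • r g _
    rw [← map_smul, ← h a, ← End.mul_apply, ← map_mul, inv_mul_cancel_right, map_mul, End.mul_apply]⟩

end

variable {B ι : Type} [Fintype B] [DecidableEq B] [Fintype ι] [DecidableEq ι] {C : ChevBasis B ι}
  {p q : ℕ} [Fact p.Prime] {X : Type*} [Group X] (L : LS C 1 p q 1 X)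

/-- The identification with the fixed points. -/
noncomputable def eG : BN.Fx L.T.σ ≃* X :=
  MulEquiv.ofBijective L.θ ⟨L.θ.ker_eq_bot_iff.1 (Subgroup.card_eq_one.1 L.card_ker), L.surj⟩

/-- The embedding in the algebraic group. -/
noncomputable def jG : X →* L.G := (BN.Fx L.T.σ).subtype.comp (eG L).symm.toMonoidHom

theorem in_jG : In p L.h (jG L) :=
  ⟨L.big, Subtype.val_injective.comp (eG L).symm.injective, fun _ => (in_top L).alg _⟩

theorem σ_jG (x : X) : L.T.σ (jG L x) = jG L x := ((eG L).symm x).2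

theorem exists_jG {g : L.G} (h : L.T.σ g = g) : ∃ x, jG L x = g :=
  ⟨eG L ⟨g, h⟩, congrArg Subtype.val ((eG L).symm_apply_apply _)⟩

theorem exists_x {r : ι} {i : B} (hr : r = C.simple i ∨ r = C.neg (C.simple i)) (n : ℤ) :
    ∃ x, jG L x = L.ρ.x r n := exists_jG L (by
  rcases hr with rfl | rfl
  · simpa using L.gr.σ_pos i n
  · simpa using L.gr.σ_neg i n)

/-- The field of definition. -/
def Fq : Subfield L.K := RingHom.eqLocusField L.φ (RingHom.id _)

theorem card_Fq : Finite (Fq L) ∧ Nat.card (Fq L) ≤ q := by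
  classical
  obtain ⟨M, hM, e⟩ := L.pow
  have h1 : 1 < q := e ▸ Nat.one_lt_pow hM.ne' (Fact.out : p.Prime).one_lt
  have h2 := FiniteField.X_pow_card_sub_X_ne_zero L.K h1
  have h3 : (Fq L : Set L.K) ⊆ (Polynomial.X ^ q - Polynomial.X : Polynomial L.K).roots.toFinset :=
    fun t ht => by
      have : t ^ q = t := (L.φ_eq t).symm.trans ht
      simp [h2, this]
  refine ⟨(Finset.finite_toSet _).subset h3, (Set.ncard_le_ncard h3).trans ?_⟩
  rw [Set.ncard_coe_finset]
  exact (Multiset.toFinset_card_le _).trans ((Polynomial.card_roots' _).trans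
    (FiniteField.X_pow_card_sub_X_natDegree_eq _ h1).le)

theorem rt_jG {I : Type*} [Fintype I] [DecidableEq I] {R : L.G →* Matrix I I L.K}
    (h : ∀ i r t, r = C.simple i ∨ r = C.neg (C.simple i) →
      (R (L.ρ.x r t)).map L.φ = R (L.ρ.x r (L.φ t))) : Rt (Fq L) ((en R).comp (jG L)) := by
  have h3 : R.comp L.T.σ = L.φ.mapMatrix.toMonoidHom.comp R := by
    refine MonoidHom.eq_of_eqOn_dense (L.ρ.U_simple.trans L.h.top) ?_
    rintro _ ⟨r, ⟨i, rfl | rfl⟩, t, rfl⟩
    exacts [(congrArg R (L.gr.σ_pos i t)).trans (h i _ t (.inl rfl)).symm,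
      (congrArg R (L.gr.σ_neg i t)).trans (h i _ t (.inr rfl)).symm]
  exact rt_en (R := R.comp (jG L)) fun x a b =>
    (congrFun₂ ((congrArg R (σ_jG L x)).symm.trans (DFunLike.congr_fun h3 _)) a b).symm

end CF.Al
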