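import Cfsg.Agent.Al.A

/-! Maximal subgroups of `F₄(q)` with alternating socle: fixed lines. -/

set_option autoImplicit false
set_option linter.unusedSectionVars false

namespace CF.Al

open Module CF.E83 Function Submodule

variable {K V W : Type*} [Field K] [AddCommGroup V] [Module K V] [AddCommGroup W] [Module K W]

namespace Ln

section
variable {F : Subfield K} {n : ℕ} (b : Basis (Fin n) K V)

/-- The rational vectors. -/
def La (F : Subfield K) (b : Basis (Fin n) K V) : AddSubgroup V where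
  carrier := {v | ∀ i, b.repr v i ∈ F}
  zero_mem' i := by simp
  add_mem' x y i := by simpa using add_mem (x i) (y i)
  neg_mem' x i := by simpa using x i

theorem card_La [Finite F] : Finite (La F b) ∧ Nat.card (La F b) ≤ Nat.card F ^ n := by
  have i : Injective fun (v : La F b) (i : Fin n) => (⟨_, v.2 i⟩ : F) := fun v w e =>
    Subtype.ext (b.ext_elem fun i => congrArg Subtype.val (congrFun e i))
  exact ⟨.of_injective _ i, (Nat.card_le_card_of_injective _ i).trans_eq (by rw [Nat.card_fun, Nat.card_fin])⟩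

theorem ap_La {T : End K V} (h : ∀ i j, b.repr (T (b i)) j ∈ F) {v : V} (m : v ∈ La F b) : T v ∈ La F b := fun j => by
  rw [← b.sum_repr v]
  simp only [map_sum, map_smul, Finsupp.coe_finsetSum, Finset.sum_apply, Finsupp.smul_apply]
  exact sum_mem fun i _ => mul_mem (m i) (h i j)

/-- The rational components. -/
noncomputable def pj (f : K →ₗ[F] F) : V →+ V :=
  .mk' (fun v => ∑ i, (f (b.repr v i) : K) • b i) fun v w => by simp [add_smul, Finset.sum_add_distrib]

theorem repr_pj (f : K →ₗ[F] F) (v : V) (i) : b.repr (pj b f v) i = f (b.repr v i) := by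
  simp [pj, Finsupp.single_apply]

theorem pj_ap {T : End K V} (h : ∀ i j, b.repr (T (b i)) j ∈ F) (f : K →ₗ[F] F) (v : V) :
    pj b f (T v) = T (pj b f v) := b.ext_elem fun j => by
  rw [repr_pj]
  conv_lhs => rw [← b.sum_repr v]
  simp only [pj, AddMonoidHom.mk'_apply, map_sum, map_smul, Finsupp.coe_finsetSum, Finset.sum_apply, Finsupp.smul_apply,
    smul_eq_mul, AddSubmonoidClass.coe_finsetSum]
  refine Finset.sum_congr rfl fun i _ => ?_
  rw [mul_comm, show b.repr (T (b i)) j * b.repr v i = (⟨_, h i j⟩ : F) • b.repr v i from rfl, map_smul, mul_comm]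
  rfl

theorem le_span {E : Submodule K V} (h : ∀ f : K →ₗ[F] F, ∀ v ∈ E, pj b f v ∈ E) :
    span K (La F b ∩ E : Set V) = E := by
  classical
  refine le_antisymm (span_le.2 Set.inter_subset_right) fun v m => ?_
  let B := Basis.ofVectorSpace F K
  have : v = ∑ t ∈ Finset.univ.biUnion fun i => (B.repr (b.repr v i)).support, B t • pj b (B.coord t) v :=
    b.ext_elem fun i => by
      simp only [map_sum, map_smul, Finsupp.coe_finsetSum, Finset.sum_apply, Finsupp.smul_apply, repr_pj]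
      conv_lhs => rw [← B.linearCombination_repr (b.repr v i), Finsupp.linearCombination_apply,
        Finsupp.sum_of_support_subset _ (Finset.subset_biUnion_of_mem (fun i => (B.repr (b.repr v i)).support)
          (Finset.mem_univ i)) (fun t a => a • B t) fun _ _ => zero_smul _ _]
      exact Finset.sum_congr rfl fun t _ => mul_comm _ _
  exact this ▸ sum_mem fun t _ => smul_mem _ _ (subset_span ⟨fun i => repr_pj b _ v i ▸ Subtype.prop _, h _ v m⟩)

theorem card_rat [FiniteDimensional K V] [Finite F] {E : Submodule K V} (h : ∀ f : K →ₗ[F] F, ∀ v ∈ E, pj b f v ∈ E) :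
    Nat.card F ^ finrank K E ≤ (La F b ∩ E : Set V).ncard := by
  obtain ⟨u, m, -, i⟩ := exists_fun_fin_finrank_span_eq K (La F b ∩ E : Set V)
  have := (card_La (F := F) b).1
  have : Finite (La F b ∩ E : Set V) := (Set.toFinite (La F b : Set V)).subset Set.inter_subset_left
  refine le_of_eq_of_le (by rw [Nat.card_fun, Nat.card_fin, le_span b h]) (Nat.card_le_card_of_injective (fun c : Fin _ → F =>
    (⟨∑ i, (c i : K) • u i, sum_mem fun i _ j => ?_, sum_mem fun i _ => smul_mem _ _ (m i).2⟩ :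
      (La F b ∩ E : Set V))) fun c d e => funext fun j => Subtype.ext ?_)
  · simpa using mul_mem (c i).2 ((m i).1 j)
  · exact Fintype.linearIndependent_iffₛ.1 i _ _ (congrArg Subtype.val e) j

end

section
variable {X : Type*} [Group X] {H : Subgroup X} {r : X →* End K V}

theorem count [Finite X] {L D : Set V} (f : L.Finite) (i : ∀ x, ∀ v ∈ D, r x v ∈ L)
    (h : ∀ x, ∀ v ∈ D, r x v ∈ D → x ∈ H) : Nat.card X * D.ncard ≤ Nat.card H * L.ncard := by
  have := f.to_subtype
  have c (w : V) : ∃ g : X, ∀ x, ∀ v ∈ D, r x v = w → g⁻¹ * x ∈ H := by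
    by_cases o : ∃ g, ∃ u ∈ D, r g u = w
    · obtain ⟨g, u, m, rfl⟩ := o
      refine ⟨g, fun x v m' e => h _ v m' ?_⟩
      rwa [map_mul, End.mul_apply, e, ← End.mul_apply, ← map_mul, inv_mul_cancel, map_one]
    · exact ⟨1, fun x v m e => (o ⟨x, v, m, e⟩).elim⟩
  choose g c using c
  rw [← Nat.card_coe_set_eq, ← Nat.card_coe_set_eq, ← Nat.card_prod, ← Nat.card_prod]
  refine Nat.card_le_card_of_injective (fun p => (⟨_, c _ p.1 p.2 p.2.2 rfl⟩, ⟨_, i p.1 _ p.2.2⟩)) ?_
  rintro ⟨x, v⟩ ⟨y, w⟩ e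
  simp only [Prod.mk.injEq, Subtype.mk.injEq] at e
  obtain rfl : x = y := by simpa [e.2] using e.1
  have := congrArg (r x⁻¹) e.2
  simp only [← End.mul_apply, ← map_mul, inv_mul_cancel, map_one, End.one_apply] at this
  exact Prod.ext rfl (Subtype.ext this)

/-- The stabiliser of a vector up to sign modulo the fixed vectors. -/
def St (r : X →* End K V) (v : V) : Subgroup X where
  carrier := {g | ∃ ε : ℤˣ, r g v - ε • v ∈ Fx r}
  one_mem' := ⟨1, by simp⟩
  mul_mem' {x y} := fun ⟨ε, a⟩ ⟨δ, c⟩ => ⟨δ * ε, by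
    have := add_mem c ((Fx r).toAddSubgroup.zsmul_mem a δ)
    rw [← mem_Fx.1 c x] at this
    simpa [Units.smul_def, smul_sub, mul_smul] using this⟩
  inv_mem' {x} := fun ⟨ε, a⟩ => ⟨ε, by
    have := neg_mem ((Fx r).toAddSubgroup.zsmul_mem a ε)
    rw [← mem_Fx.1 a x⁻¹] at this
    simpa [Units.smul_def, smul_sub, ← End.mul_apply, ← map_mul, smul_smul] using this⟩

variable [IsSimpleGroup X] (hX : ∃ a b : X, a * b ≠ b * a)
include hX

theorem triv {C : Type*} [CommGroup C] (f : X →* C) (x : X) : f x = 1 := by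
  obtain ⟨a, b, h⟩ := hX
  rcases f.normal_ker.eq_bot_or_eq_top with o | o
  · exact (h ((f.ker_eq_bot_iff).1 o (by rw [map_mul, map_mul, mul_comm]))).elim
  · exact o.ge (Subgroup.mem_top x)

theorem St_ne {v : V} (h : v ∉ Fx r) : St r v ≠ ⊤ := fun o => by
  have m (g) : ∃ ε : ℤˣ, r g v - ε • v ∈ Fx r := o.ge (Subgroup.mem_top g)
  let N : Subgroup X :=
    { carrier := {g | r g v - v ∈ Fx r}
      one_mem' := by simp
      mul_mem' {x y} (a : _ ∈ Fx r) (c : _ ∈ Fx r) := by
        have := add_mem c a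
        rw [← mem_Fx.1 c x] at this
        simpa using this
      inv_mem' {x} (a : _ ∈ Fx r) := by
        have := neg_mem a
        rw [← mem_Fx.1 a x⁻¹] at this
        simpa [← End.mul_apply, ← map_mul] using this }
  have n : N.Normal := ⟨fun g (a : _ ∈ Fx r) x => by
    obtain ⟨ε, c⟩ := m x⁻¹
    have := (Fx r).toAddSubgroup.zsmul_mem a ε
    rw [← mem_Fx.1 this x] at this
    have e := congrArg (r x) (mem_Fx.1 c g)
    have f : r x (r x⁻¹ v) = v := by rw [← End.mul_apply, ← map_mul, mul_inv_cancel, map_one, End.one_apply]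
    simp only [map_sub, f, Units.smul_def, map_zsmul, smul_sub] at this e
    change r (x * g * x⁻¹) v - v ∈ Fx r
    rwa [map_mul, map_mul, End.mul_apply, End.mul_apply, sub_eq_sub_iff_sub_eq_sub.1 e]⟩
  rcases n.eq_bot_or_eq_top with o | o
  · obtain ⟨a, b, k⟩ := hX
    have s (g : X) : g⁻¹ = g := inv_eq_of_mul_eq_one_right (Subgroup.mem_bot.1 (o.le (show _ ∈ Fx r from by
      obtain ⟨ε, c⟩ := m g
      have := add_mem c ((Fx r).toAddSubgroup.zsmul_mem c ε)
      nth_rw 1 [← mem_Fx.1 c g] at this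
      simpa [Units.smul_def, smul_sub, smul_smul] using this)))
    exact k (by rw [← s (a * b), mul_inv_rev, s, s])
  · have t (g) : r g v - v ∈ Fx r := o.ge (Subgroup.mem_top g)
    exact h (mem_Fx.2 fun g => sub_eq_zero.1 (triv hX (MonoidHom.mk' (fun g => Multiplicative.ofAdd (r g v - v))
      fun x y => by rw [← ofAdd_add, ← mem_Fx.1 (t y) x]; simp) g))

theorem nrm (h : IsCoatom H) {x : X} (k : x ∈ Subgroup.normalizer (H : Set X)) : x ∈ H := by
  by_contra n
  have := Subgroup.normalizer_eq_top_iff.1 (h.2 _ (lt_of_le_of_ne Subgroup.le_normalizer fun e => n (e ▸ k)))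
  obtain rfl := this.eq_bot_or_eq_top.resolve_right h.1
  obtain ⟨a, b, e⟩ := hX
  have a1 : a ≠ 1 := by rintro rfl; simp at e
  obtain ⟨i, rfl⟩ := (h.2 _ (bot_lt_iff_ne_bot.2 (Subgroup.zpowers_ne_bot.2 a1))).ge (Subgroup.mem_top b)
  exact e (Commute.self_zpow a i)

end

variable {X A : Type*} [Group X] [Finite X] [IsSimpleGroup X] [Group A] {H : Subgroup X}
  {j : A →* X} (M : Mx H j) (hX : ∃ a b : X, a * b ≠ b * a) {r : X →* End K V}
include M

theorem inv {h : X} (m : h ∈ H) {v : V} (u : v ∈ Fx (r.comp j)) : r h v ∈ Fx (r.comp j) := mem_Fx.2 fun g => by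
  obtain ⟨g', e⟩ := M.nor _ (inv_mem m) g
  rw [inv_inv, mul_assoc, inv_mul_eq_iff_eq_mul] at e
  rw [MonoidHom.comp_apply, ← End.mul_apply, ← map_mul, e, map_mul, End.mul_apply]
  exact congrArg _ (mem_Fx.1 u g')

theorem sq {h : X} (m : h ∈ H) {v : V} (u : v ∈ Fx (r.comp j)) : r h (r h v) = v := by
  obtain ⟨g, e⟩ := M.sq h m
  rw [← End.mul_apply, ← map_mul, e]
  exact mem_Fx.1 u g

theorem cm {h k : X} (m : h ∈ H) (m' : k ∈ H) {v : V} (u : v ∈ Fx (r.comp j)) : r h (r k v) = r k (r h v) := by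
  have := congrArg (fun x => r k (r h x)) (sq M (mul_mem m m') u)
  simp only [map_mul, End.mul_apply] at this
  rw [← this, sq M m (inv M m' (inv M m (inv M m' u))), sq M m' (inv M m (inv M m' u))]

include hX

theorem St_eq {v : V} (h : v ∉ Fx r) (l : H ≤ St r v) : St r v = H :=
  (M.co.le_iff.1 l).resolve_left (St_ne hX h)

theorem key {L : AddSubgroup V} (i : ∀ x, ∀ v ∈ L, r x v ∈ L) {u : V} (a : u ∈ L) (c : u ∈ Fx (r.comp j))
    (d : u ∉ Fx r) : ∃ v ∈ L, v ∈ Fx (r.comp j) ∧ ∀ g, r g v = v → g ∈ H := by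
  classical
  have (s : Finset X) : (∀ h ∈ s, h ∈ H) → ∃ v ∈ L, v ∈ Fx (r.comp j) ∧ v ∉ Fx r ∧ ∀ h ∈ s, h ∈ St r v := by
    induction s using Finset.induction_on with
    | empty => exact fun _ => ⟨u, a, c, d, by simp⟩
    | insert h s _ k =>
      intro l
      rw [Finset.forall_mem_insert] at l
      obtain ⟨v, a, c, d, e⟩ := k l.2
      by_cases o : r h v - v ∈ Fx r
      · exact ⟨v, a, c, d, (Finset.forall_mem_insert ..).2 ⟨⟨1, by simpa using o⟩, e⟩⟩
      refine ⟨_, sub_mem (i h v a) a, sub_mem (inv M l.1 c) c, o, (Finset.forall_mem_insert ..).2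
        ⟨⟨-1, by simp [sq M l.1 c]⟩, fun g m => ?_⟩⟩
      obtain ⟨ε, t⟩ := e g m
      refine ⟨ε, ?_⟩
      have := mem_Fx.1 t h
      simp only [map_sub, Units.smul_def, map_zsmul, smul_sub, cm M (l.2 g m) l.1 c] at this ⊢
      rw [sub_sub_sub_comm, this, sub_self]
      exact zero_mem _
  obtain ⟨v, a, c, d, e⟩ := this (Set.toFinite (H : Set X)).toFinset (by simp)
  exact ⟨v, a, c, fun g k => (St_eq M hX d fun h m => e h (by simpa using m)).le ⟨1, by simp [k]⟩⟩

theorem fx {F : Subfield K} [Finite F] (hr : Rt F r) (h : Nat.card H * Nat.card F ^ finrank K V < Nat.card X) :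
    Fx (r.comp j) = Fx r := by
  obtain ⟨b, hb⟩ := hr
  refine le_antisymm ((le_span b (F := F) fun f v m => mem_Fx.2 fun g => ?_).ge.trans (span_le.2 fun u m => ?_))
    (Fx_le_comp j)
  · exact (pj_ap b (hb _) f v).symm.trans (congrArg _ (mem_Fx.1 m g))
  by_contra d
  obtain ⟨v, a, -, e⟩ := key M hX (fun x v => ap_La b (hb x)) m.1 m.2 d
  have := count (r := r) (H := H) (D := {v}) (card_La (F := F) b).1 (by rintro x _ rfl; exact ap_La b (hb x) a)
    (by rintro x _ rfl; exact e x)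
  rw [Set.ncard_singleton, mul_one] at this
  exact h.not_ge (this.trans (Nat.mul_le_mul_left _ (card_La b).2))

omit M hX

section
variable {S : Type*} [Group S] {r : S →* End K V}

theorem fx_dual : Fx (Representation.dual r) = (Cx r).dualAnnihilator := by
  ext φ
  rw [mem_Fx, mem_dualAnnihilator, show (∀ w ∈ Cx r, φ w = 0) ↔ Cx r ≤ LinearMap.ker φ from .rfl, Cx_le]
  exact ⟨fun h g v => by simpa [sub_eq_zero] using! LinearMap.congr_fun (h g⁻¹) v,
    fun h g => LinearMap.ext fun v => by simpa [sub_eq_zero] using! h g⁻¹ v⟩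

theorem dual_comp {A : Type*} [Group A] (j : A →* S) :
    MonoidHom.comp (Representation.dual r) j = Representation.dual (r.comp j) := by
  ext g; simp

theorem rt_dual [FiniteDimensional K V] {F : Subfield K} (h : Rt F r) : Rt F (Representation.dual r) := by
  obtain ⟨b, hb⟩ := h
  exact ⟨b.dualBasis.reindex (finCongr Subspace.dual_finrank_eq.symm), fun x i j => by simpa using! hb x⁻¹ _ _⟩

end

end Ln

open Ln

variable [FiniteDimensional K V] [FiniteDimensional K W] {X A : Type*} [Group X] [Finite X] [IsSimpleGroup X] [Group A]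
  {H : Subgroup X} {j : A →* X} (M : Mx H j) (hX : ∃ a b : X, a * b ≠ b * a) {F : Subfield K} [Finite F]
include M hX

theorem Mx.fx {r : X →* End K V} (hr : Rt F r)
    (h : Nat.card H * Nat.card F ^ finrank K V < Nat.card X) :
    Fx (r.comp j) = Fx r ∧ Cx (r.comp j) = Cx r := by
  refine ⟨Ln.fx M hX hr h, Subspace.dualAnnihilator_inj.1 ?_⟩
  rw [← fx_dual, ← fx_dual, ← dual_comp]
  exact Ln.fx M hX (rt_dual hr) (by rwa [Subspace.dual_finrank_eq])

theorem Mx.mem {l : X →* End K W} (h1 : Fx l = ⊥) (h2 : Cx l = ⊤)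
    (h : Fx (l.comp j) ≠ ⊥ ∨ Cx (l.comp j) ≠ ⊤) {x : A} {z : X} (hz : Zz l (j x) z) : z ∈ H := by
  rcases h with h | h
  · obtain ⟨u, m, u0⟩ := (Submodule.ne_bot_iff _).1 h
    obtain ⟨v, -, c, e⟩ := key M hX (L := ⊤) (fun _ _ _ => trivial) trivial m (by rwa [h1])
    exact e z (mem_fs.1 (hz.fx (mem_fs.2 (mem_Fx.1 c x))))
  · rw [Ne, ← dualAnnihilator_eq_bot_iff, ← fx_dual, ← dual_comp] at h
    obtain ⟨u, m, u0⟩ := (Submodule.ne_bot_iff _).1 h
    obtain ⟨v, -, c, e⟩ := key M hX (L := ⊤) (fun _ _ _ => trivial) trivial m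
      (by rwa [fx_dual, h2, dualAnnihilator_top])
    rw [dual_comp, fx_dual, mem_dualAnnihilator] at c
    refine inv_mem_iff.1 (e z⁻¹ (LinearMap.ext fun w => ?_))
    obtain ⟨y, k⟩ := hz.cx ⟨w, rfl⟩
    have := c _ (sub_mem_Cx x y)
    rw [show (l.comp j) x y - y = l z w - w from k] at this
    simpa [sub_eq_zero] using! this

end CF.Al
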