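import Cfsg.Agent.Al.A
import Cfsg.Agent.Perm.AltOut
import Cfsg.Agent.Sig.FStar

/-! Automorphisms of alternating groups. -/

set_option autoImplicit false

namespace CF.Al

open Cfsg Equiv Equiv.Perm Subgroup CF.Perm

namespace O

abbrev S6 := Perm (Fin 6)

def sw (i : Fin 5) : S6 := swap i.castSucc i.succ
def tw : Fin 5 → S6 := ![swap 0 1 * swap 2 3 * swap 4 5, swap 0 4 * swap 1 2 * swap 3 5,
  swap 0 1 * swap 2 5 * swap 3 4, swap 0 3 * swap 1 2 * swap 4 5, swap 0 1 * swap 2 4 * swap 3 5]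
def ws (l : List (Fin 5)) : S6 := (l.map sw).prod
def wt (l : List (Fin 5)) : S6 := (l.map tw).prod
def wd : Fin 5 → List (Fin 5) := ![[0, 2, 4], [0, 1, 0, 3, 2, 1, 0, 4, 3], [0, 2, 3, 2, 4, 3, 2],
  [0, 1, 0, 2, 1, 0, 4], [0, 3, 2, 4, 3]]
def u6 : S6 := ws [0, 2, 3, 2, 4, 3]

theorem ex_om : ∃ ω : MulAut S6, (∀ l, ω (ws l) = wt l) ∧ ∀ x, ω (ω x) = u6 * x * u6⁻¹ := by
  obtain ⟨φ, h⟩ := CF.Fisch.sym_exists_hom 5 tw (by decide) (by unfold Commute SemiconjBy; decide)
    (by decide)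
  have k : ∀ l, φ (ws l) = wt l := fun l => by
    rw [ws, map_list_prod, List.map_map]
    exact congrArg List.prod (List.map_congr_left fun i _ => h i)
  have e : φ.comp φ = (MulAut.conj u6).toMonoidHom :=
    MonoidHom.eq_of_eqOn_denseM (Perm.mclosure_swap_castSucc_succ 5) (by
      rintro _ ⟨i, rfl⟩
      have := (by decide +kernel : ∀ i, tw i = ws (wd i) ∧ wt (wd i) = u6 * sw i * u6⁻¹) i
      exact (congrArg φ ((h i).trans this.1)).trans ((k _).trans this.2))
  exact ⟨.ofBijective φ (Finite.injective_iff_bijective.1 (.of_comp (f := φ) (by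
    rw [← φ.coe_comp, e]; exact (MulAut.conj u6).injective))), k, DFunLike.congr_fun e⟩

variable {Ω : Type*} [Fintype Ω] [DecidableEq Ω]

theorem inner {σ : Perm Ω} (h : sign σ = 1) :
    ∃ g : alternatingGroup Ω, MulAut.conjNormal σ = MulAut.conj g :=
  ⟨⟨σ, mem_alternatingGroup.2 h⟩, by ext1; ext1; simp⟩

theorem sign_aut (ω : MulAut (Perm Ω)) (σ : Perm Ω) : sign (ω σ) = sign σ := by
  have h : ω σ ∈ alternatingGroup Ω ↔ σ ∈ alternatingGroup Ω := by
    conv_lhs => rw [← characteristic_iff_map_eq.1 (inferInstance : (alternatingGroup Ω).Characteristic) ω]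
    exact mem_map_iff_mem (f := ω.toMonoidHom) ω.injective
  rw [mem_alternatingGroup, mem_alternatingGroup] at h
  rcases Int.units_eq_one_or (sign σ) with a | a <;>
    rcases Int.units_eq_one_or (sign (ω σ)) with b | b <;> simp_all

/-- Squares of automorphisms are inner. -/
theorem sq_inner {n : ℕ} (hn : 5 ≤ n) (ψ : MulAut (alternatingGroup (Fin n))) :
    ∃ g, ψ * ψ = MulAut.conj g := by
  have h1 : ∀ σ : Perm (Fin n), ∃ g : alternatingGroup (Fin n),
      MulAut.conjNormal σ * MulAut.conjNormal σ = MulAut.conj g := fun σ => by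
    rw [← map_mul]
    exact inner (by rw [map_mul, Int.units_mul_self])
  by_cases h6 : n = 6
  · subst h6
    obtain ⟨ω, k, e⟩ := ex_om
    obtain ⟨σ, rfl | rfl⟩ := aut_alt_six (by simp) (θ := resAlt ω) (fun c hc h => by
      have h2 : (ws [0, 1]).IsThreeCycle := card_support_eq_three_iff.1 (by decide)
      have h4 := (Perm.isConj_iff_cycleType_eq.1 (ω.toMonoidHom.map_isConj
        (Perm.isConj_iff_cycleType_eq.2 (h2.trans hc.symm)))).trans h
      rw [MulEquiv.coe_toMonoidHom, k] at h4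
      exact absurd (Perm.IsThreeCycle.card_support h4) (by decide)) ψ
    · exact h1 σ
    · obtain ⟨g, hg⟩ := inner (σ := ω σ * u6 * σ) (by
        rw [map_mul, map_mul, sign_aut, show sign u6 = 1 by decide, mul_one, Int.units_mul_self])
      refine ⟨g, Eq.trans ?_ hg⟩
      ext1; ext1
      simp [e, mul_assoc]
  · obtain ⟨σ, rfl⟩ := exists_aut_eq_conj (by simp; omega) (by simpa using h6) ψ
    exact h1 σ

omit [DecidableEq Ω] in
theorem fix {c σ : Perm Ω} (hc : c.IsCycle) (ho : Odd (orderOf c)) (h : σ * c * σ⁻¹ = c)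
    (h2 : σ * σ = 1) {a : Ω} (ha : c a ≠ a) : σ a = a := by
  have h1 : Commute σ c := mul_inv_eq_iff_eq_mul.1 h
  have h3 : c (σ a) ≠ σ a := fun e => ha (σ.injective (by rw [← mul_apply, h1.eq, mul_apply, e]))
  obtain ⟨k, hk⟩ := hc.exists_pow_eq ha h3
  have h4 : (c ^ (2 * k)) a = a := by
    rw [two_mul, pow_add, mul_apply, hk, ← mul_apply, ← (h1.pow_right k).eq, mul_apply, hk,
      ← mul_apply, h2, one_apply]
  have h5 := orderOf_dvd_of_pow_eq_one ((hc.pow_eq_one_iff' ha).2 h4)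
  have h6 := (Nat.Coprime.dvd_mul_left (Nat.coprime_two_right.2 ho)).1 h5
  rw [← hk, orderOf_dvd_iff_pow_eq_one.1 h6, one_apply]

theorem ex3 (h6 : 6 ≤ Fintype.card Ω) {x : Perm Ω} (hx : x.IsThreeCycle) (a : Ω) :
    ∃ c : Perm Ω, c.IsThreeCycle ∧ Commute c x ∧ c a ≠ a := by
  by_cases ha : x a = a
  · have h1 : 1 < (x.supportᶜ.erase a).card := by
      rw [Finset.card_erase_of_mem (by simpa using ha), Finset.card_compl, hx.card_support]
      omega
    obtain ⟨b, hb, d, hd, bd⟩ := Finset.one_lt_card.1 h1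
    simp only [Finset.mem_erase, Finset.mem_compl, mem_support, not_not] at hb hd
    refine ⟨swap a b * swap a d, isThreeCycle_swap_mul_swap_same hb.1.symm hd.1.symm bd,
      Disjoint.commute fun z => ?_, ?_⟩
    · by_cases h2 : x z = z
      · exact .inr h2
      · have z1 : z ≠ a := fun e => h2 (e ▸ ha)
        have z2 : z ≠ b := fun e => h2 (e ▸ hb.2)
        have z3 : z ≠ d := fun e => h2 (e ▸ hd.2)
        exact .inl (by rw [mul_apply, swap_apply_of_ne_of_ne z1 z3, swap_apply_of_ne_of_ne z1 z2])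
    · rw [mul_apply, swap_apply_left, swap_apply_of_ne_of_ne hd.1 bd.symm]
      exact hd.1
  · exact ⟨x, hx, Commute.refl x, ha⟩

theorem ex6 (h6 : Fintype.card Ω = 6) {x : Perm Ω} (h : x ^ 3 = 1) (h1 : x ≠ 1) (a : Ω) :
    ∃ c : Perm Ω, c.IsThreeCycle ∧ Commute c x ∧ c a ≠ a := by
  have : Fact (Nat.Prime 3) := ⟨by norm_num⟩
  have ho : orderOf x = 3 := orderOf_eq_prime h h1
  obtain ⟨m, hm⟩ := cycleType_prime_order (σ := x) (by rw [ho]; norm_num)
  rw [ho] at hm
  by_cases ha : x a = a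
  · refine ex3 h6.ge ?_ a
    have h2 := sum_cycleType x
    have h3 : x.support.card < 6 := by
      rw [← h6]
      exact Finset.card_lt_card (Finset.ssubset_univ_iff.2 fun e =>
        mem_support.1 (e ▸ Finset.mem_univ a) ha)
    rw [hm, Multiset.sum_replicate, smul_eq_mul] at h2
    obtain rfl : m = 0 := by omega
    exact hm
  · have h2 := cycleOf_mem_cycleFactorsFinset_iff.2 (mem_support.2 ha)
    refine ⟨x.cycleOf a, card_support_eq_three_iff.1 ?_, self_mem_cycle_factors_commute h2, by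
      rwa [cycleOf_apply_self]⟩
    refine Multiset.eq_of_mem_replicate (n := m + 1) ?_
    rw [← hm, cycleType_def]
    exact Multiset.mem_map_of_mem _ h2

theorem conj_one (h4 : 4 ≤ Fintype.card Ω) {x : alternatingGroup Ω} {σ : Perm Ω}
    (h2 : (MulAut.conjNormal σ * MulAut.conjNormal σ : MulAut (alternatingGroup Ω)) = 1)
    (h : ∀ c, Commute c x → MulAut.conjNormal σ c = c)
    (k : ∀ a, ∃ c : alternatingGroup Ω, c.1.IsCycle ∧ Odd (orderOf c.1) ∧ Commute c x ∧ c.1 a ≠ a) :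
    (MulAut.conjNormal σ : MulAut (alternatingGroup Ω)) = 1 := by
  have h3 : σ * σ = 1 := conjNormal_alt_injective h4 (by rw [map_mul, h2, map_one])
  have : σ = 1 := Equiv.ext fun a => by
    obtain ⟨c, c1, c2, c3, c4⟩ := k a
    exact fix c1 c2 (congrArg Subtype.val (h c c3)) h3 c4
  rw [this, map_one]

theorem lift3 {x : alternatingGroup Ω} {a : Ω}
    (h : ∃ c : Perm Ω, c.IsThreeCycle ∧ Commute c x.1 ∧ c a ≠ a) :
    ∃ c : alternatingGroup Ω, c.1.IsCycle ∧ Odd (orderOf c.1) ∧ Commute c x ∧ c.1 a ≠ a :=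
  let ⟨c, c1, c2, c3⟩ := h
  ⟨⟨c, c1.mem_alternatingGroup⟩, c1.isCycle, by rw [c1.orderOf]; decide, Subtype.ext c2, c3⟩

end O

open O

theorem exists_mx {X : Type*} [Group X] [Finite X] {H : Subgroup X} (hH : IsCoatom H) {n : ℕ}
    (hn : 5 ≤ n) (e : generalizedFittingSubgroup H ≃* alternatingGroup (Fin n)) :
    ∃ j : alternatingGroup (Fin n) →* X, Mx H j := by
  have h4 : 4 ≤ Fintype.card (Fin n) := by simp; omega
  let i : alternatingGroup (Fin n) →* H := (Subgroup.subtype _).comp e.symm.toMonoidHom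
  let φ : H →* MulAut (alternatingGroup (Fin n)) :=
    (MulAut.congr e).toMonoidHom.comp MulAut.conjNormal
  have hi : Function.Injective i := Subtype.val_injective.comp e.symm.injective
  have k : ∀ h g, i (φ h g) = h * i g * h⁻¹ := fun h g => by simp [i, φ]
  have k1 : ∀ g, φ (i g) = MulAut.conj g := fun g => MulEquiv.ext fun a => hi (by simp [k])
  have hφ : Function.Injective φ := (injective_iff_map_eq_one φ).2 fun h e1 => by
    have h1 : h ∈ generalizedFittingSubgroup H := CF.Sig.centralizer_fstar_le fun x hx => by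
      have := k h (e ⟨x, hx⟩)
      rw [e1, eq_mul_inv_iff_mul_eq] at this
      simpa [i] using this
    have h2 : h = i (e ⟨h, h1⟩) := by simp [i]
    rw [h2, k1] at e1
    rw [h2, conj_alt_injective h4 (e1.trans (map_one _).symm), map_one]
  have hc := Nat.card_le_card_of_injective φ hφ
  refine ⟨H.subtype.comp i, hH, Subtype.val_injective.comp hi, fun g => (i g).2,
    fun h hh g => ⟨φ ⟨h, hh⟩ g, (congrArg Subtype.val (k ⟨h, hh⟩ g)).symm⟩, fun h hh => ?_,
    fun h hh c => ?_, hc.trans ?_, fun c => hc.trans ?_⟩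
  · obtain ⟨g, hg⟩ := sq_inner hn (φ ⟨h, hh⟩)
    rw [← map_mul, ← k1] at hg
    exact ⟨g, congrArg Subtype.val (hφ hg)⟩
  · have : φ ⟨h, hh⟩ = φ 1 := by
      rw [map_one]
      refine MulEquiv.ext fun g => hi ?_
      rw [k, mul_inv_eq_iff_eq_mul]
      exact Subtype.ext (c g).symm.eq
    exact congrArg Subtype.val (hφ this)
  · rw [← card_mul_index (MulAut.conj : alternatingGroup (Fin n) →* _).range, mul_comm,
      ← Nat.card_congr (MonoidHom.ofInjective (conj_alt_injective h4)).toEquiv]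
    exact Nat.mul_le_mul_right _ (Nat.le_of_dvd (by norm_num) (index_range_conj_alt_dvd h4))
  · have : Nontrivial (Fin n) := Fin.nontrivial_iff_two_le.2 (by omega)
    have h2 := two_mul_nat_card_alternatingGroup (α := Fin n)
    have h6 : Fintype.card (Fin n) ≠ 6 := fun h6 => by
      rw [c, Nat.card_perm, Nat.card_eq_fintype_card, h6] at h2
      exact absurd h2 (by decide)
    have h3 := Nat.card_le_card_of_surjective
      (MulAut.conjNormal : Perm (Fin n) →* MulAut (alternatingGroup (Fin n)))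
      fun ψ => (exists_aut_eq_conj h4 h6 ψ).imp fun _ h => h.symm
    omega

theorem iv5 {x : alternatingGroup (Fin 5)} (h : x ^ 5 = 1) (h1 : x ≠ 1) : ¬ Iv x := by
  rintro ⟨α, a1, a2, a3⟩
  obtain ⟨σ, rfl⟩ := exists_aut_eq_conj (by simp) (by simp) α
  have : Fact (Nat.Prime 5) := ⟨by norm_num⟩
  have ho : orderOf x.1 = 5 := (Subgroup.orderOf_coe x).trans (orderOf_eq_prime h h1)
  have hc : x.1.IsCycle := isCycle_of_prime_order'' (by simpa using this.out) (by simpa using ho)
  have hs : x.1.support = Finset.univ := Finset.eq_univ_of_card _ (by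
    rw [← hc.orderOf, ho]; simp)
  exact a1 (conj_one (by simp) a2 a3 fun a => ⟨x, hc, by rw [ho]; decide, Commute.refl x,
    mem_support.1 (hs ▸ Finset.mem_univ a)⟩)

theorem iv6 {x : alternatingGroup (Fin 6)} (h : x ^ 3 = 1) (h1 : x ≠ 1) : ¬ Iv x := by
  rintro ⟨α, a1, a2, a3⟩
  have k := ex6 (Ω := Fin 6) (by simp) (x := x.1) (congrArg Subtype.val h)
    fun e => h1 (Subtype.ext e)
  obtain ⟨θ, hθ⟩ := exists_outer (Ω := Fin 6) (by simp)
  obtain ⟨σ, rfl | rfl⟩ := aut_alt_six (by simp) (θ := resAlt θ) (fun c hc => hθ c hc) α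
  · exact a1 (conj_one (by simp) a2 a3 fun a => lift3 (k a))
  · obtain ⟨c, c1, c2, -⟩ := k 0
    have h2 := congrArg Subtype.val (a3 ⟨c, c1.mem_alternatingGroup⟩ (Subtype.ext c2))
    refine hθ (σ * c * σ⁻¹) (by rw [IsThreeCycle, cycleType_conj]; exact c1) ?_
    have h3 : θ (σ * c * σ⁻¹) = c := h2
    rwa [h3]

theorem iv7 {x : alternatingGroup (Fin 7)} (h : x.1.IsThreeCycle) : ¬ Iv x := by
  rintro ⟨α, a1, a2, a3⟩
  obtain ⟨σ, rfl⟩ := exists_aut_eq_conj (by simp) (by simp) α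
  exact a1 (conj_one (by simp) a2 a3 fun a => lift3 (ex3 (by simp) h a))

end CF.Al
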