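import Cfsg.Agent.Al.J
import Cfsg.Agent.BN.Kap
import Cfsg.Agent.BN.SemiU
import Cfsg.Agent.Geom.Sm4

/-! The adjoint module of `F₄(q)`, `q` odd. -/

set_option autoImplicit false

namespace CF.Al

open CF.Chev CF.BN CF.ExA CF.E83 Cfsg.Lie Matrix Function Module Finset Sum

namespace R2

/-- The weight of a root. -/
noncomputable def wt (r : Fin 48) : List ℤ := [33, 27, 25, 24].map fun i => tabF4.A i r

theorem wt_mem : ∀ r, wt r ∈ w52 := by decide +kernel

theorem wt_inj : ∀ r s, wt r = wt s → r = s := by decide +kernel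

theorem wt_eq (r : Fin 48) (i : Fin 4) : (wt r).getD i 0 = cF4.A (cF4.simple i) r := by
  have h : ∀ i : Fin 4, (cF4.simple i).1 = [33, 27, 25, 24].getD i 0 := by decide +kernel
  refine Eq.trans ?_ (certF4.A_eq _ _).symm
  rw [h]
  fin_cases i <;> rfl

theorem len52 : w52.length = 48 := rfl

/-- The position of a basis vector. -/
noncomputable def pos : Fin 4 ⊕ Fin 48 → Fin 52 :=
  Sum.elim (fun i => ⟨48 + i, by omega⟩) fun r =>
    ⟨w52.idxOf (wt r), (List.idxOf_lt_length_of_mem (wt_mem r)).trans (by rw [len52]; decide)⟩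

theorem pos_bij : Bijective pos := by
  refine (Fintype.bijective_iff_injective_and_card _).2 ⟨?_, by simp⟩
  have h : ∀ r, w52.idxOf (wt r) < 48 := fun r => List.idxOf_lt_length_of_mem (wt_mem r)
  rintro (i | r) (j | s) e <;> have e' := congrArg Fin.val e <;>
    simp only [pos, Sum.elim_inl, Sum.elim_inr] at e'
  · exact congrArg _ (Fin.ext (by omega))
  · have := h s; omega
  · have := h r; omega
  · exact congrArg _ (wt_inj _ _ ((List.idxOf_inj (wt_mem r)).1 e'))

/-- The scaling of the invariant form. -/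
noncomputable def ll (r : Fin 48) : ℤ := 3 - cF4.len r

theorem ll_mul : ∀ r, ll r * cF4.len r = 2 := by decide +kernel

theorem ll_simple : ∀ i : Fin 4, ll (cF4.simple i) = [2, 2, 1, 1].getD i 0 := by decide +kernel

theorem nd {K : Type*} [Field K] (h2 : (2 : K) ≠ 0) {v : Fin 4 ⊕ Fin 48 → K}
    (h : ∀ a, LieBasis.bv K a ⬝ᵥ (kap cF4 ll).map (Int.castRingHom K) *ᵥ v = 0) : v = 0 := by
  have h1 : ∀ j, ∑ k, ((cF4.car j k * ll (cF4.simple k) : ℤ) : K) * v (inl k) = 0 := fun j => by
    simpa [dotProduct, LieBasis.bv_apply, mulVec, kap] using h (inl j)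
  have a0 := h1 0
  have a1 := h1 1
  have a2 := h1 2
  have a3 := h1 3
  simp [Fin.sum_univ_four, carF4', ll_simple, cmF4] at a0 a1 a2 a3
  funext a
  rcases a with i | r
  · have b0 : v (inl 0) = 0 :=
      mul_left_cancel₀ h2 (by linear_combination 2 * a0 + 3 * a1 + 4 * a2 + 2 * a3)
    have b1 : v (inl 1) = 0 := mul_left_cancel₀ h2 (by linear_combination 4 * b0 - a0)
    have b2 : v (inl 2) = 0 := mul_left_cancel₀ h2 (by linear_combination 4 * b1 - 2 * b0 - a1)
    have b3 : v (inl 3) = 0 := mul_left_cancel₀ h2 (by linear_combination a3 + b2)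
    fin_cases i
    exacts [b0, b1, b2, b3]
  · have := h (inr (cF4.neg r))
    rw [kap_ev, RootSys.neg_neg] at this
    refine (mul_eq_zero.1 this).resolve_left fun h0 => h2 ?_
    have := congrArg (Int.cast : ℤ → K) (ll_mul (cF4.neg r))
    rw [Int.cast_mul, h0, zero_mul] at this
    simpa using this.symm

end R2

open R2 in
/-- piece R2 -/
theorem exists_l {p q : ℕ} [Fact p.Prime] {X : Type*} [Group X] (L : LS cF4 1 p q 1 X)
    (hp : p ≠ 2) : ∃ R : L.G →* End L.K (Fin 4 ⊕ Fin 48 → L.K),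
    (∃ b : Basis (Fin 52) L.K (Fin 4 ⊕ Fin 48 → L.K), ∀ c, Dg w52 R b (L.h.r3.tor c) c) ∧
      Rt (Fq L) (R.comp (jG L)) ∧ Fx (R.comp (jG L)) = ⊥ ∧ Cx (R.comp (jG L)) = ⊤ := by
  obtain ⟨f, hf⟩ := L.h.faith
  have h2 : (2 : L.K) ≠ 0 := fun h => hp ((Nat.prime_dvd_prime_iff_eq Fact.out Nat.prime_two).1
    ((CharP.cast_eq_zero_iff L.K p 2).1 h))
  obtain ⟨R, hR⟩ : ∃ R : L.G →* Matrix _ _ L.K, R = (Units.coeHom _).comp f := ⟨_, rfl⟩
  have r1 : ∀ g, R g = (f g).val := fun g => by rw [hR]; rfl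
  have r2 : ∀ r t, R (L.ρ.x r t) = cF4.X r t := fun r t => by rw [r1, hf, LieBasis.val_xG]
  have hC : Cx ((en R).comp (jG L)) = ⊤ := by
    have x1 : ∀ s u, cF4.X s 1 *ᵥ u - u ∈ Cx ((en R).comp (jG L)) := fun s u => by
      obtain ⟨x, hx⟩ := exists_jG L (g := L.ρ.x s 1) ((L.σ_x s 1).trans (by rw [one_pow]))
      have := sub_mem_Cx (r := (en R).comp (jG L)) x u
      rwa [MonoidHom.comp_apply, en_apply, hx, r2] at this
    have x2 : ∀ s, LieBasis.bv L.K (inr s) ∈ Cx ((en R).comp (jG L)) := fun s => by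
      have := x1 s (cF4.hv _ s)
      rw [LieBasis.X_hv, sub_sub_cancel_left, neg_mem_iff, RootSys.A_self] at this
      exact (Submodule.smul_mem_iff _ (by simpa using h2)).1 this
    rw [eq_top_iff, ← (Pi.basisFun L.K _).span_eq, Submodule.span_le]
    rintro _ ⟨a, rfl⟩
    rw [Pi.basisFun_apply]
    rcases a with i | s
    · have := x1 (cF4.simple i) (LieBasis.bv _ (inr (cF4.neg (cF4.simple i))))
      rw [LieBasis.X_neg_root, LieBasis.hv_simple, one_smul, one_pow, one_smul] at this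
      have h3 := add_mem this (x2 (cF4.simple i))
      rwa [show ∀ a b c : Fin 4 ⊕ Fin 48 → L.K, a + b - c - a + c = b from fun a b c => by abel]
        at h3
    · exact x2 s
  refine ⟨en R, ⟨(Pi.basisFun L.K _).reindex (Equiv.ofBijective _ pos_bij), fun c a => ?_⟩,
    rt_jG L fun i r t _ => by rw [r2, r2, LieBasis.X_map'], ?_, hC⟩
  · obtain ⟨a, rfl⟩ := pos_bij.2 a
    rw [Basis.reindex_apply, Equiv.ofBijective_symm_apply_apply, en_apply, r1,
      CF.Geom.Sm.ad_tor _ hf, LieBasis.val_tG, Pi.basisFun_apply]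
    refine (cF4.TM_bv _ a).trans (congrArg (· • _) (congrArg Units.val ?_))
    rcases a with i | r
    · rw [RootSys.wt_inl, Char.ev_zero, List.getD_eq_default _ _ (by simp [pos, len52])]
      simp
    · refine (rv_eq c r).trans (prod_congr rfl fun i _ => ?_)
      rw [← wt_eq]
      congr 2
      exact ((List.getD_eq_getElem _ _ (List.idxOf_lt_length_of_mem (wt_mem r))).trans
        (List.getElem_idxOf _)).symm
  · refine eq_bot_iff.2 fun v hv => nd h2 fun a => ?_
    have : Cx ((en R).comp (jG L)) ≤ LinearMap.ker (dotProductBilin L.K L.K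
        ((kap cF4 ll).map (Int.castRingHom L.K) *ᵥ v)) := Cx_le.2 fun g u => by
      have h3 := kap_inv (C := cF4) goodF4.conn ll_mul hf (g := jG L g) (L.h.top ▸ Subgroup.mem_top _) u v
      have h4 := mem_Fx.1 hv g
      rw [MonoidHom.comp_apply, en_apply, r1] at h4
      rw [h4] at h3
      rw [LinearMap.mem_ker, map_sub, MonoidHom.comp_apply, en_apply, r1, dotProductBilin_apply_apply,
        dotProductBilin_apply_apply, dotProduct_comm, h3, dotProduct_comm, sub_self]
    have h5 := this (hC ▸ Submodule.mem_top (x := LieBasis.bv L.K a))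
    rwa [LinearMap.mem_ker, dotProductBilin_apply_apply, dotProduct_comm] at h5

end CF.Al
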