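import Cfsg.Agent.Al.A

/-! Eigenvalue counts for torus elements. -/

set_option autoImplicit false

namespace CF.Al.T0

open Module CF.E83 Finset

/-- The exponent of a weight. -/
def dt (a b c d : ℕ) (μ : List ℤ) : ℤ :=
  a * μ.getD 0 0 + b * μ.getD 1 0 + c * μ.getD 2 0 + d * μ.getD 3 0

/-- The multiplicity of `ζ ^ j`. -/
def ct (w : List (List ℤ)) (m : ℕ) (j : ℕ) (a b c d : ℕ) : ℕ :=
  w.countP fun μ => (dt a b c d μ - j) % m = 0

/-- The first `n` entries. -/
def pad (n : ℕ) (w : List (List ℤ)) : List (List ℤ) := (List.finRange n).map fun k : Fin n => w.getD k []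

/-- The padded lists. -/
def pS : List (List ℤ) := wS ++ [[], [], []]
/-- The padded lists. -/
def pL : List (List ℤ) := wL ++ [[], [], []]
/-- The padded lists. -/
def p52 : List (List ℤ) := w52 ++ [[], [], [], []]

theorem eS : pad 27 wS = pS := by decide +kernel
theorem eL : pad 27 wL = pL := by decide +kernel
theorem e52 : pad 52 w52 = p52 := by decide +kernel

variable {K V W : Type*} [Field K] [AddCommGroup V] [Module K V] [AddCommGroup W] [Module K W]
  {S : Type*} [Group S] {r : S →* End K V} {n m a b c d : ℕ} {ζ : Kˣ} {w w' : List (List ℤ)}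
  {B : Basis (Fin n) K V} {x y : S} {t : Fin 4 → Kˣ}

/-- The torus element with exponents `a b c d`. -/
def tv (ζ : Kˣ) (a b c d : ℕ) : Fin 4 → Kˣ := ![ζ ^ a, ζ ^ b, ζ ^ c, ζ ^ d]

theorem ev_tv (μ : List ℤ) : ev (tv ζ a b c d) μ = ζ ^ dt a b c d μ := by
  simp [ev, tv, dt, Fin.prod_univ_four, zpow_add, zpow_mul]

theorem tv_sq : tv ζ a b c d ^ 2 = tv ζ (2 * a) (2 * b) (2 * c) (2 * d) := by
  ext i
  fin_cases i <;> simp [tv, pow_mul']

theorem ev_eq (h : IsPrimitiveRoot ζ m) (μ : List ℤ) (j : ℕ) :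
    ev (tv ζ a b c d) μ = ζ ^ j ↔ (dt a b c d μ - j) % m = 0 := by
  rw [ev_tv, ← Int.dvd_iff_emod_eq_zero, ← h.zpow_eq_one_iff_dvd, zpow_sub, mul_inv_eq_one, zpow_natCast]

theorem exists_tv [NeZero m] (h : IsPrimitiveRoot ζ m) (e : t ^ m = 1) :
    ∃ a < m, ∃ b < m, ∃ c < m, ∃ d < m, t = tv ζ a b c d := by
  choose f h1 h2 using fun i => h.eq_pow_of_mem_rootsOfUnity (ξ := t i) (congrFun e i)
  exact ⟨f 0, h1 _, f 1, h1 _, f 2, h1 _, f 3, h1 _, funext fun i => by fin_cases i <;> simp [tv, h2]⟩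

theorem exists_root [IsAlgClosed K] (h : (m : K) ≠ 0) : ∃ ζ : Kˣ, IsPrimitiveRoot ζ m := by
  have : NeZero (m : K) := ⟨h⟩
  have : NeZero m := NeZero.of_neZero_natCast K
  obtain ⟨ζ, h⟩ := HasEnoughRootsOfUnity.exists_primitiveRoot K m
  exact ⟨_, h.isUnit_unit NeZero.out⟩

theorem tv_one (h : ¬ tv ζ a b c d = 1) : a ≠ 0 ∨ b ≠ 0 ∨ c ≠ 0 ∨ d ≠ 0 := by
  by_contra e
  push Not at e
  obtain ⟨rfl, rfl, rfl, rfl⟩ := e
  exact h (funext fun i => by fin_cases i <;> simp [tv])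

theorem order {G : Type*} [Group G] {c : G} (h : (m : K) ≠ 0) (e : x ^ m = 1) :
    (orderOf x : K) ≠ 0 ∧ (orderOf c = orderOf x → ∀ k, c ^ k = 1 ↔ x ^ k = 1) := by
  obtain ⟨k, rfl⟩ := orderOf_dvd_of_pow_eq_one e
  exact ⟨left_ne_zero_of_mul (Nat.cast_mul (α := K) _ _ ▸ h), fun e k => by
    rw [← orderOf_dvd_iff_pow_eq_one, e, orderOf_dvd_iff_pow_eq_one]⟩

theorem dg_sq (h : Dg w r B x t) : Dg w r B (x ^ 2) (t ^ 2) := fun k => by
  rw [sq, map_mul, End.mul_apply, h k, map_smul, h k, smul_smul, ← Units.val_mul, ← prod_mul_distrib]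
  simp only [sq, Pi.mul_apply, mul_zpow]

theorem mem_eig {f : End K V} {l : Fin n → K} (h : ∀ i, f (B i) = l i • B i) {μ : K} {v : V} :
    v ∈ f.eigenspace μ ↔ ∀ i, B.repr v i ≠ 0 → l i = μ := by
  have h1 : ∀ i, B.repr (f v) i = l i * B.repr v i := fun i =>
    LinearMap.congr_fun (B.ext (f₁ := B.coord i ∘ₗ f) (f₂ := l i • B.coord i) fun j => by
      by_cases e : j = i <;> simp [h, e]) v
  rw [End.mem_eigenspace_iff, B.ext_elem_iff]
  refine forall_congr' fun i => ?_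
  rw [h1, map_smul, Finsupp.smul_apply, smul_eq_mul, mul_eq_mul_right_iff]
  tauto

theorem rk_eig [DecidableEq K] {f : End K V} {l : Fin n → K} (h : ∀ i, f (B i) = l i • B i)
    (μ : K) : finrank K (f.eigenspace μ) = #{i | l i = μ} := by
  rw [← Fintype.card_subtype, ← finrank_span_eq_card
    (B.linearIndependent.comp (fun i : {i // l i = μ} => i.1) Subtype.val_injective), Set.range_comp]
  refine congrArg (fun W : Submodule K V => finrank K W) ?_
  refine le_antisymm (fun v hv => B.mem_span_image.2 fun i hi => ?_) (Submodule.span_le.2 ?_)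
  · simpa using (mem_eig h).1 hv i (by simpa using hi)
  · rintro _ ⟨_, ⟨i, rfl⟩, rfl⟩
    exact End.mem_eigenspace_iff.2 ((h _).trans (by rw [i.2]))

theorem fs_eq (f : End K V) : fs f = f.eigenspace 1 := by
  ext v
  rw [mem_fs, End.mem_eigenspace_iff, one_smul]

theorem eig (hw : pad n w = w') (hζ : IsPrimitiveRoot ζ m)
    (h : Dg w r B x (tv ζ a b c d)) (j : ℕ) :
    finrank K ((r x).eigenspace (ζ ^ j)) = ct w' m j a b c d := by
  classical
  have : ct w' m j a b c d = #{k : Fin n | (dt a b c d (w.getD k []) - j) % m = 0} := by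
    rw [← hw, ct, pad, List.countP_map, List.countP_eq_length_filter, Fin.univ_def]
    rfl
  rw [rk_eig h, this]
  refine congrArg _ (filter_congr fun k _ => ?_)
  rw [← Units.val_pow_eq_pow_val, Units.val_inj]
  exact ev_eq hζ _ j

theorem dm_eq (hw : pad n w = w') (hζ : IsPrimitiveRoot ζ m)
    (h : Dg w r B x (tv ζ a b c d)) : dm r x = ct w' m 0 a b c d := by
  rw [← eig hw hζ h, dm, fs_eq, pow_zero]

theorem eig_conj [FiniteDimensional K V] (h : IsConj x y) (μ : K) :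
    finrank K ((r x).eigenspace μ) = finrank K ((r y).eigenspace μ) := by
  obtain ⟨u, rfl⟩ := isConj_iff.1 h
  have e : ∀ f : End K V, f.eigenspace μ = fs (f - μ • 1 + 1) := fun f => by
    ext v
    simp [mem_fs, sub_eq_zero]
  rw [e, e, ← fs_conj (r := r) _ u, mul_add, add_mul, mul_sub, sub_mul, mul_smul_comm, smul_mul_assoc,
    mul_one, ← map_mul, ← map_mul, ← map_mul, mul_inv_cancel, map_one]

theorem ct_conj [FiniteDimensional K V] (hw : pad n w = w')
    (hζ : IsPrimitiveRoot ζ m) (h : Dg w r B x (tv ζ a b c d)) (e : IsConj x (x ^ 2)) (j : ℕ) :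
    ct w' m j a b c d = ct w' m j (2 * a) (2 * b) (2 * c) (2 * d) := by
  rw [← eig hw hζ h, ← eig hw hζ (tv_sq (ζ := ζ) ▸ dg_sq h), eig_conj e]

end CF.Al.T0
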