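import Cfsg.Agent.Al.T0

/-! The tables of fixed space dimensions. -/

set_option autoImplicit false
set_option synthInstance.maxSize 4000

namespace CF.Al

open Module CF.E83 T0

namespace T1

theorem o2 : ∀ a < 2, ∀ b < 2, ∀ c < 2, ∀ d < 2, a ≠ 0 ∨ b ≠ 0 ∨ c ≠ 0 ∨ d ≠ 0 →
    (ct pS 2 0 a b c d = 11 ∧ ct p52 2 0 a b c d = 36) ∨ (ct pS 2 0 a b c d = 15 ∧ ct p52 2 0 a b c d = 24) := by
  decide +kernel

theorem o3 : ∀ a < 3, ∀ b < 3, ∀ c < 3, ∀ d < 3, a ≠ 0 ∨ b ≠ 0 ∨ c ≠ 0 ∨ d ≠ 0 →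
    (ct pS 3 0 a b c d = 9 ∧ ct p52 3 0 a b c d = 16) ∨ (ct pS 3 0 a b c d = 9 ∧ ct p52 3 0 a b c d = 22) ∨
      (ct pS 3 0 a b c d = 15 ∧ ct p52 3 0 a b c d = 22) := by
  decide +kernel

theorem o4 : ∀ a < 4, ∀ b < 4, ∀ c < 4, ∀ d < 4, a % 2 ≠ 0 ∨ b % 2 ≠ 0 ∨ c % 2 ≠ 0 ∨ d % 2 ≠ 0 →
    (ct pS 4 0 (2 * a) (2 * b) (2 * c) (2 * d) = 11 ∧ 18 ≤ ct p52 4 0 a b c d) ∨
      (ct pS 4 0 (2 * a) (2 * b) (2 * c) (2 * d) = 15 ∧ ((ct pS 4 0 a b c d = 7 ∧ ct p52 4 0 a b c d = 14) ∨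
        ct pS 4 0 a b c d = 9 ∨ ct pS 4 0 a b c d = 15)) := by
  decide +kernel

theorem o5 : ∀ a < 5, ∀ b < 5, ∀ c < 5, ∀ d < 5, a ≠ 0 ∨ b ≠ 0 ∨ c ≠ 0 ∨ d ≠ 0 →
    ((ct pS 5 0 a b c d = 5 ∧ ct p52 5 0 a b c d = 12) ∨ (ct pS 5 0 a b c d = 7 ∧ ct p52 5 0 a b c d = 12) ∨
      (9 ≤ ct pS 5 0 a b c d ∧ 12 ≤ ct p52 5 0 a b c d)) ∧
    (ct pS 5 1 a b c d = ct pS 5 1 (2 * a) (2 * b) (2 * c) (2 * d) → ct pS 5 0 a b c d = 7) := by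
  decide +kernel

theorem o7 : ∀ a < 7, ∀ b < 7, ∀ c < 7, ∀ d < 7, ct pS 7 1 a b c d = ct pS 7 1 (2 * a) (2 * b) (2 * c) (2 * d) →
    ct pS 7 2 a b c d = ct pS 7 2 (2 * a) (2 * b) (2 * c) (2 * d) →
    (9 ≤ ct pS 7 0 a b c d ∨ 9 ≤ ct pL 7 0 a b c d) ∧ (a ≠ 0 ∨ b ≠ 0 ∨ c ≠ 0 ∨ d ≠ 0 →
      (ct pS 7 0 a b c d = 3 ∨ ct pS 7 0 a b c d = 9) ∧ ct p52 7 0 a b c d = 10) := by
  decide +kernel

theorem e3 : ∀ a < 3, ∀ b < 3, ∀ c < 3, ∀ d < 3, 9 ≤ ct pS 3 0 a b c d ∧ 9 ≤ ct pL 3 0 a b c d := by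
  decide +kernel

theorem e5 : ∀ a < 5, ∀ b < 5, ∀ c < 5, ∀ d < 5, (7 ≤ ct pS 5 0 a b c d ∨ 7 ≤ ct pL 5 0 a b c d) ∧
    (ct pS 5 1 a b c d = ct pS 5 1 (2 * a) (2 * b) (2 * c) (2 * d) →
      7 ≤ ct pS 5 0 a b c d ∧ 7 ≤ ct pL 5 0 a b c d) := by
  decide +kernel

end T1

open T1

variable {K V W : Type*} [Field K] [AddCommGroup V] [Module K V] [AddCommGroup W] [Module K W]
  [FiniteDimensional K V] [FiniteDimensional K W] [IsAlgClosed K] {X : Type*} [Group X]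

omit [FiniteDimensional K V] [FiniteDimensional K W] in
theorem To.ex {r : X →* End K V} {l : X →* End K W} (h : To r l) {m : ℕ} (hm : (m : K) ≠ 0) {x : X}
    (e : x ^ m = 1) : ∃ (ζ : Kˣ) (B : Basis (Fin 27) K V) (B' : Basis (Fin 52) K W), IsPrimitiveRoot ζ m ∧
      ∃ a < m, ∃ b < m, ∃ c < m, ∃ d < m, (∀ k, tv ζ a b c d ^ k = 1 ↔ x ^ k = 1) ∧
        Dg wS r B x (tv ζ a b c d) ∧ Dg w52 l B' x (tv ζ a b c d) := by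
  have : NeZero m := ⟨by rintro rfl; simp at hm⟩
  obtain ⟨t, B, B', o, h1, h2, -⟩ := h x (order (c := x) hm e).1
  obtain ⟨ζ, hζ⟩ := exists_root hm
  have k := (order hm e).2 o
  obtain ⟨a, ha, b, hb, c, hc, d, hd, rfl⟩ := exists_tv hζ ((k m).2 e)
  exact ⟨ζ, B, B', hζ, a, ha, b, hb, c, hc, d, hd, k, h1, h2⟩

omit [FiniteDimensional K V] in
theorem Te.ex {r r' : X →* End K V} (h : Te r r') {m : ℕ} (hm : (m : K) ≠ 0) {x : X}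
    (e : x ^ m = 1) : ∃ (ζ : Kˣ) (B B' : Basis (Fin 27) K V), IsPrimitiveRoot ζ m ∧
      ∃ a < m, ∃ b < m, ∃ c < m, ∃ d < m, Dg wS r B x (tv ζ a b c d) ∧ Dg wL r' B' x (tv ζ a b c d) := by
  have : NeZero m := ⟨by rintro rfl; simp at hm⟩
  obtain ⟨t, B, B', o, h1, h2⟩ := h x (order (c := x) hm e).1
  obtain ⟨ζ, hζ⟩ := exists_root hm
  obtain ⟨a, ha, b, hb, c, hc, d, hd, rfl⟩ := exists_tv hζ (((order hm e).2 o m).2 e)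
  exact ⟨ζ, B, B', hζ, a, ha, b, hb, c, hc, d, hd, h1, h2⟩

theorem To.tb {r : X →* End K V} {l : X →* End K W} (h : To r l) (h2 : (2 : K) ≠ 0)
    (dr : finrank K V = 27) (dl : finrank K W = 52) : Tb r l := by
  refine ⟨h2, dr, dl, fun x e n => ?_, fun h3 x e n => ?_, fun x e n => ?_, fun h5 x e n => ?_,
    fun h7 x e n i => ?_⟩
  · obtain ⟨ζ, B, B', hζ, a, ha, b, hb, c, hc, d, hd, k, h1, h2⟩ := h.ex (m := 2) (by simpa) e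
    rw [dm_eq eS hζ h1, dm_eq e52 hζ h2]
    exact o2 a ha b hb c hc d hd (tv_one fun e => n (by simpa using (k 1).1 (by rw [e, one_pow])))
  · obtain ⟨ζ, B, B', hζ, a, ha, b, hb, c, hc, d, hd, k, h1, h2⟩ := h.ex (m := 3) (by simpa) e
    rw [dm_eq eS hζ h1, dm_eq e52 hζ h2]
    exact o3 a ha b hb c hc d hd (tv_one fun e => n (by simpa using (k 1).1 (by rw [e, one_pow])))
  · obtain ⟨ζ, B, B', hζ, a, ha, b, hb, c, hc, d, hd, k, h1, h2⟩ := h.ex (m := 4)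
      (by rw [show ((4 : ℕ) : K) = 2 * 2 by norm_num]; exact mul_ne_zero h2 h2) e
    rw [dm_eq eS hζ h1, dm_eq e52 hζ h2, dm_eq eS hζ (tv_sq (ζ := ζ) ▸ dg_sq h1)]
    refine o4 a ha b hb c hc d hd ?_
    by_contra q
    refine n ((k 2).1 ?_)
    ext i
    fin_cases i <;> simp [tv, ← pow_mul, ← Units.val_pow_eq_pow_val, hζ.pow_eq_one_iff_dvd] <;> omega
  · obtain ⟨ζ, B, B', hζ, a, ha, b, hb, c, hc, d, hd, k, h1, h2⟩ := h.ex (m := 5) (by simpa) e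
    rw [dm_eq eS hζ h1, dm_eq e52 hζ h2]
    exact (o5 a ha b hb c hc d hd (tv_one fun e => n (by simpa using (k 1).1 (by rw [e, one_pow])))).imp_right
      fun q i => q (ct_conj eS hζ h1 i 1)
  · obtain ⟨ζ, B, B', hζ, a, ha, b, hb, c, hc, d, hd, k, h1, h2⟩ := h.ex (m := 7) (by simpa) e
    rw [dm_eq eS hζ h1, dm_eq e52 hζ h2]
    exact (o7 a ha b hb c hc d hd (ct_conj eS hζ h1 i 1) (ct_conj eS hζ h1 i 2)).2
      (tv_one fun e => n (by simpa using (k 1).1 (by rw [e, one_pow])))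

theorem Te.t2 {r r' : X →* End K V} (h : Te r r') (h2 : (2 : K) = 0) : T2 r r' := by
  have o : ∀ k : ℕ, ((2 * k + 1 : ℕ) : K) ≠ 0 := fun k => by simp [h2]
  refine ⟨h2, fun x e => ?_, fun x e => ?_, fun x e i => ?_⟩
  · obtain ⟨ζ, B, B', hζ, a, ha, b, hb, c, hc, d, hd, h1, h2⟩ := h.ex (o 1) e
    rw [dm_eq eS hζ h1, dm_eq eL hζ h2]
    exact e3 a ha b hb c hc d hd
  · obtain ⟨ζ, B, B', hζ, a, ha, b, hb, c, hc, d, hd, h1, h2⟩ := h.ex (o 2) e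
    rw [dm_eq eS hζ h1, dm_eq eL hζ h2]
    exact (e5 a ha b hb c hc d hd).imp_right fun q i => q (ct_conj eS hζ h1 i 1)
  · obtain ⟨ζ, B, B', hζ, a, ha, b, hb, c, hc, d, hd, h1, h2⟩ := h.ex (o 3) e
    rw [dm_eq eS hζ h1, dm_eq eL hζ h2]
    exact (o7 a ha b hb c hc d hd (ct_conj eS hζ h1 i 1) (ct_conj eS hζ h1 i 2)).1

end CF.Al
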