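import Cfsg.Agent.Al.T2a

/-! Alternating subgroups of `F₄(q)`: the involutions attached to elements of order three and
five. -/

set_option autoImplicit false

namespace CF.Al

open Module CF.E83 Finset

namespace TU

variable {K : Type*} [Field K]

/-- The torus element with given exponents. -/
def pw (ζ : Kˣ) (y : Y) : Fin 4 → Kˣ := ![ζ ^ y.1, ζ ^ y.2.1, ζ ^ y.2.2.1, ζ ^ y.2.2.2]

theorem ev_pw (ζ : Kˣ) (y : Y) (μ : List ℤ) : ev (pw ζ y) μ = ζ ^ nv y μ := by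
  simp [ev, pw, nv, Fin.prod_univ_four, zpow_add, zpow_mul]

theorem ev_eq {ζ : Kˣ} {m : ℕ} (h : IsPrimitiveRoot ζ m) (y : Y) (μ : List ℤ) (k : ℤ) :
    ev (pw ζ y) μ = ζ ^ k ↔ nv y μ % m = k % m := by
  rw [ev_pw, zpow_eq_zpow_iff_modEq, ← h.eq_orderOf]; rfl

theorem ev_one {ζ : Kˣ} {m : ℕ} (h : IsPrimitiveRoot ζ m) (y : Y) (μ : List ℤ) :
    ev (pw ζ y) μ = 1 ↔ nv y μ % m = 0 := by
  simpa using ev_eq h y μ 0

theorem ex_pw {ζ : Kˣ} {m : ℕ} [NeZero m] (h : IsPrimitiveRoot ζ m) {c : Fin 4 → Kˣ}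
    (hc : c ^ m = 1) : ∃ y ∈ ys m, c = pw ζ y := by
  have := fun i => (IsPrimitiveRoot.coe_units_iff.2 h).eq_pow_of_pow_eq_one (ξ := (c i : K))
    (by rw [← Units.val_pow_eq_pow_val, ← Pi.pow_apply, hc]; rfl)
  choose f f1 f2 using this
  refine ⟨(f 0, f 1, f 2, f 3), by simp [ys, f1], funext fun i => Units.ext ?_⟩
  fin_cases i <;> simp [pw, f2]

theorem neg_prim (h2 : (2 : K) ≠ 0) : IsPrimitiveRoot (-1 : Kˣ) 2 := by
  refine (IsPrimitiveRoot.iff_orderOf).2 (orderOf_eq_prime (by simp) fun e => h2 ?_)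
  have : (-1 : K) = 1 := by simpa using congrArg Units.val e
  linear_combination -this

theorem mem_es {m : ℕ} {y e : Y} :
    e ∈ es m y ↔ e ∈ ys 2 ∧ ∀ μ ∈ w52, nv y μ % m = 0 → nv e μ % 2 = 0 := by
  simp [es, imp_iff_not_or]

theorem pw_zero (ζ : Kˣ) : pw ζ 0 = 1 := funext fun i => by fin_cases i <;> simp [pw]

theorem un (h2 : (2 : K) ≠ 0) {ζ : Kˣ} {m : ℕ} (h : IsPrimitiveRoot ζ m) {y : Y} (o : ok m y) :
    Un (pw ζ y) (pw (-1) (ep m y)) := by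
  have n := neg_prim h2
  obtain ⟨o, μ, h1, h3⟩ := o
  have k := (mem_es (m := m) (y := y) (e := ep m y)).1 (by rw [o]; simp)
  refine ⟨fun e => h3 ((ev_one n _ μ).1 (by simp [e, ev])), funext fun i => ?_,
    fun μ a b => (ev_one n _ μ).2 (k.2 μ a ((ev_one h _ μ).1 b)), fun e a b => ?_⟩
  · fin_cases i <;> simp [pw, ← mul_pow]
  · obtain ⟨z, z1, rfl⟩ := ex_pw n (c := e) (by rw [pow_two, a])
    have := (mem_es (m := m) (y := y)).2
      ⟨z1, fun μ a c => (ev_one n _ μ).1 (b μ a ((ev_one h _ μ).2 c))⟩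
    rw [o, List.mem_pair] at this
    exact this.imp (fun e => by rw [e, pw_zero]) fun e => by rw [← e]

variable {V I : Type*} [AddCommGroup V] [Module K V]

theorem rp (b : Basis I K V) {f : End K V} {l : I → K} (h : ∀ i, f (b i) = l i • b i) (i : I)
    (v : V) : b.repr (f v) i = l i * b.repr v i := by
  classical
  exact LinearMap.congr_fun (b.ext (f₁ := b.coord i ∘ₗ f) (f₂ := l i • b.coord i) fun j => by
    by_cases e : j = i <;> simp [h, e]) v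

theorem eig_le (b : Basis I K V) {f g : End K V} {l l' : I → K} (h : ∀ i, f (b i) = l i • b i)
    (h' : ∀ i, g (b i) = l' i • b i) {s t : K} (e : ∀ i, l i = s → l' i = t) :
    f.eigenspace s ≤ g.eigenspace t := fun v hv => by
  rw [End.mem_eigenspace_iff] at hv ⊢
  refine b.ext_elem fun i => ?_
  have := rp b h i v
  rw [hv, map_smul, Finsupp.smul_apply, smul_eq_mul] at this
  rw [rp b h', map_smul, Finsupp.smul_apply, smul_eq_mul]
  rcases mul_eq_mul_right_iff.1 this with k | k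
  · rw [e i k.symm]
  · simp [k]

theorem rng_le (b : Basis I K V) {f g : End K V} {l l' : I → K} (h : ∀ i, f (b i) = l i • b i)
    (h' : ∀ i, g (b i) = l' i • b i) (e : ∀ i, l i = 1 → l' i = 1) :
    LinearMap.range (g - 1) ≤ LinearMap.range (f - 1) := by
  rw [LinearMap.range_le_iff_comap, eq_top_iff, ← b.span_eq, Submodule.span_le]
  rintro _ ⟨i, rfl⟩
  by_cases k : l i = 1
  · exact ⟨0, by simp [h', e i k]⟩
  · refine ⟨((l' i - 1) / (l i - 1)) • b i, ?_⟩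
    have := sub_ne_zero.2 k
    have q : ∀ t : K, t • b i - b i = (t - 1) • b i := fun t => by rw [sub_smul, one_smul]
    simp only [map_smul, LinearMap.sub_apply, h, h', End.one_apply]
    rw [q, q, smul_smul, div_mul_cancel₀ _ this]

variable {S : Type*} [Group S] {r : S →* End K V} {n : ℕ} {w : List (List ℤ)}
  {b : Basis (Fin n) K V} {x z : S}

theorem un_get {c e : Fin 4 → Kˣ} (u : Un c e) (hw : ∀ μ ∈ w, μ ∈ w52) (a : ℕ)
    (h : (ev c (w.getD a []) : K) = 1) : (ev e (w.getD a []) : K) = 1 := by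
  rw [Units.val_eq_one] at h ⊢
  by_cases k : a < w.length
  · rw [List.getD_eq_getElem _ _ k] at h ⊢
    exact u.2.2.1 _ (hw _ (List.getElem_mem k)) h
  · rw [List.getD_eq_default _ _ (not_lt.1 k)]; simp [ev]

theorem dm_eq {ζ : Kˣ} {m : ℕ} (h : IsPrimitiveRoot ζ m) {y : Y} (d : Dg w r b x (pw ζ y)) :
    dm r x = cn n w m y 0 := by
  classical
  rw [dm, (fs_eig _).1, rk_eig b d, cn]
  exact congrArg card (filter_congr fun a _ => Units.val_eq_one.trans (ev_one h y _))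

theorem fs_le {c e : Fin 4 → Kˣ} (u : Un c e) (hw : ∀ μ ∈ w, μ ∈ w52) (d : Dg w r b x c)
    (d' : Dg w r b z e) : fs (r x) ≤ fs (r z) := by
  rw [(fs_eig _).1, (fs_eig _).1]
  exact eig_le b d d' fun a => un_get u hw a

theorem zz {c e : Fin 4 → Kˣ} (u : Un c e) (d : Dg w52 r b x c) (d' : Dg w52 r b z e)
    (h1 : z ≠ 1) (h2 : z * z = 1) (h3 : ∀ g, Commute g x → Commute g z) : Zz r x z :=
  ⟨h1, h2, h3, fs_le u (fun _ h => h) d d', rng_le b d d' fun a => un_get u (fun _ h => h) a⟩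

theorem tr {f : End K V} {l : Fin n → K} (h : ∀ i, f (b i) = l i • b i) :
    LinearMap.trace K V f = ∑ i, l i := by
  rw [LinearMap.trace_eq_matrix_trace K b, Matrix.trace]
  simp [LinearMap.toMatrix_apply, h]

theorem tr5 {ζ : Kˣ} (h : IsPrimitiveRoot ζ 5) {y : Y} {b : Basis (Fin 27) K V} (g : gd y)
    (d : Dg wS r b x (pw ζ y)) :
    LinearMap.trace K V (r x) - LinearMap.trace K V (r (x ^ 2)) = ζ + ζ ^ 4 - ζ ^ 2 - ζ ^ 3 := by
  obtain ⟨-, g1, g2, g3, g4, -⟩ := g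
  let F : ℤ → K := fun j => (ζ ^ j : Kˣ) - (ζ ^ j : Kˣ) * (ζ ^ j : Kˣ)
  have e : ∀ a : Fin 27, ev (pw ζ y) (wS.getD a []) = ζ ^ (nv y (wS.getD a []) % 5) := fun a =>
    (ev_eq h y _ _).2 (by simp)
  have d : ∀ a : Fin 27, r x (b a) = ((ζ ^ (nv y (wS.getD a []) % 5) : Kˣ) : K) • b a :=
    fun a => e a ▸ d a
  rw [tr d, tr (f := r (x ^ 2)) (b := b) (l := fun a => (ζ ^ (nv y (wS.getD a []) % 5) : Kˣ) *
    (ζ ^ (nv y (wS.getD a []) % 5) : Kˣ)) fun a => by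
      rw [pow_two, map_mul, End.mul_apply, d, map_smul, d, smul_smul], ← sum_sub_distrib,
    ← sum_fiberwise_of_maps_to' (t := {0, 1, 2, 3, 4}) (g := fun a : Fin 27 => nv y (wS.getD a []) % 5)
      (fun a _ => by simp only [mem_insert, mem_singleton]; omega) F]
  unfold cn at g1 g2 g3 g4
  have z5 : (ζ : K) ^ 5 = 1 := by rw [← Units.val_pow_eq_pow_val, h.pow_eq_one]; rfl
  rw [sum_insert (by decide), sum_insert (by decide), sum_insert (by decide), sum_insert (by decide),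
    sum_singleton]
  simp only [sum_const, Nat.cast_ofNat] at g1 g2 g3 g4 ⊢
  rw [g1, g2, g3, g4]
  simp only [F, zpow_ofNat, Units.val_pow_eq_pow_val, nsmul_eq_mul]
  push_cast
  linear_combination (-5 * (ζ : K) - 6 * ζ ^ 3) * z5

end TU

open TU

variable {K V W : Type*} [Field K] [AddCommGroup V] [Module K V] [AddCommGroup W] [Module K W]
  [IsAlgClosed K] {X : Type*} [Group X] {r : X →* End K V} {l : X →* End K W}

theorem TU.ex (h : To r l) {m : ℕ} [Fact m.Prime] (hm : (m : K) ≠ 0) {x : X} (e : x ^ m = 1) :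
    ∃ (ζ : Kˣ) (y : Y) (b : Basis (Fin 27) K V) (b' : Basis (Fin 52) K W), IsPrimitiveRoot ζ m ∧
      y ∈ ys m ∧ (x ≠ 1 → y ≠ 0) ∧ Dg wS r b x (pw ζ y) ∧ Dg w52 l b' x (pw ζ y) ∧
      ∀ e, Un (pw ζ y) e → ∃ z, z ≠ 1 ∧ z * z = 1 ∧ (∀ g, Commute g x → Commute g z) ∧
        Dg wS r b z e ∧ Dg w52 l b' z e := by
  have := NeZero.mk hm
  obtain ⟨ζ, hζ⟩ := HasEnoughRootsOfUnity.exists_primitiveRoot K m
  lift ζ to Kˣ using hζ.isUnit (NeZero.ne m)
  rw [IsPrimitiveRoot.coe_units_iff] at hζ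
  have dv := orderOf_dvd_of_pow_eq_one e
  obtain ⟨c, b, b', h1, h2⟩ := h x fun k => by
    obtain ⟨t, ht⟩ := dv
    exact hm (by rw [ht, Nat.cast_mul, k, zero_mul])
  obtain ⟨y, h3, rfl⟩ := ex_pw hζ (c := c) (orderOf_dvd_iff_pow_eq_one.1 (h1 ▸ dv))
  refine ⟨ζ, y, b, b', hζ, h3, fun k e => k ?_, h2⟩
  rwa [e, pw_zero, orderOf_one, eq_comm, orderOf_eq_one_iff] at h1

theorem To.tu (h : To r l) (h2 : (2 : K) ≠ 0) : Tu r l := by
  have := Fact.mk Nat.prime_five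
  refine ⟨fun h3 x e k => ?_, fun h5 x e n k => ?_, fun h5 x e k => ?_⟩
  · obtain ⟨ζ, y, b, b', hζ, hy, -, d, d', u⟩ := TU.ex h (m := 3) h3 e
    have o := un h2 hζ (TU.c3 y hy (dm_eq hζ d' ▸ k))
    obtain ⟨z, z1, z2, z3, -, z5⟩ := u _ o
    exact ⟨z, zz o d' z5 z1 z2 z3⟩
  · obtain ⟨ζ, y, b, b', hζ, hy, y0, d, d', u⟩ := TU.ex h (m := 5) h5 e
    have o := un h2 hζ (TU.c5 y hy (y0 n) (dm_eq hζ d ▸ k))
    obtain ⟨z, z1, z2, z3, -, z5⟩ := u _ o
    exact ⟨z, zz o d' z5 z1 z2 z3⟩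
  · obtain ⟨ζ, y, b, b', hζ, hy, -, d, d', u⟩ := TU.ex h (m := 5) h5 e
    obtain ⟨ξ, t, hξ, g, q⟩ : ∃ (ξ : Kˣ) (t : Y), IsPrimitiveRoot ξ 5 ∧ gd t ∧ pw ζ y = pw ξ t := by
      rcases c5' y hy (dm_eq hζ d ▸ k) with g | g
      · exact ⟨ζ, y, hζ, g, rfl⟩
      · refine ⟨ζ ^ 2, _, hζ.pow_of_coprime 2 (by decide), g, ?_⟩
        have : ∀ a : ℕ, (ζ ^ 2) ^ (3 * a) = ζ ^ a := fun a => by
          rw [← pow_mul, show 2 * (3 * a) = 5 * a + a by ring, pow_add, pow_mul, hζ.pow_eq_one,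
            one_pow, one_mul]
        simp only [pw, this]
    rw [q] at d d' u
    have o := un h2 hξ g.1
    obtain ⟨z, z1, z2, z3, z4, z5⟩ := u _ o
    refine ⟨ξ, IsPrimitiveRoot.coe_units_iff.2 hξ, tr5 hξ g d, z, zz o d' z5 z1 z2 z3,
      fs_le o (fun μ m => List.mem_append_left _ m) d z4, ?_⟩
    have key : ∀ a : Fin 27, nv t (wS.getD a []) % 5 = 1 ∨ nv t (wS.getD a []) % 5 = 4 →
        (ev (pw (-1 : Kˣ) (ep 5 t)) (wS.getD a []) : K) = -1 := fun a k => by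
      rw [(ev_eq (neg_prim h2) _ _ 1).2 (g.2.2.2.2.2 a k)]; simp
    rw [(fs_eig _).2]
    refine sup_le (eig_le b d z4 fun a k => key a (.inl ?_)) (eig_le b d z4 fun a k => key a (.inr ?_))
    · exact (ev_eq hξ t _ 1).1 (Units.ext (k.trans (by simp)))
    · exact (ev_eq hξ t _ 4).1 (Units.ext (k.trans (by simp [zpow_ofNat])))

end CF.Al
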