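import Cfsg.Agent.Al.A
import Cfsg.Agent.E83.E

/-! Alternating subgroups of `F₄(q)`: central involutions of centralizers of elements of order
three and five. -/

set_option autoImplicit false

namespace CF.Al

open Module CF.E83 Finset

namespace TU

/-- Exponent vectors. -/
abbrev Y := ℕ × ℕ × ℕ × ℕ

/-- The exponent of a weight. -/
def nv (y : Y) (μ : List ℤ) : ℤ :=
  y.1 * μ.getD 0 0 + y.2.1 * μ.getD 1 0 + y.2.2.1 * μ.getD 2 0 + y.2.2.2 * μ.getD 3 0

/-- All reduced exponent vectors. -/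
def ys (m : ℕ) : List Y := (List.range m).product ((List.range m).product
  ((List.range m).product (List.range m)))

/-- The sign vectors that kill the roots killed by `y`. -/
def es (m : ℕ) (y : Y) : List Y :=
  let k := w52.filter fun μ => nv y μ % m = 0
  (ys 2).filter fun e => k.all fun μ => nv e μ % 2 = 0

/-- The second of them. -/
def ep (m : ℕ) (y : Y) : Y := (es m y).getD 1 0

/-- There is just one nonzero such vector. -/
def ok (m : ℕ) (y : Y) : Prop := es m y = [0, ep m y] ∧ ∃ μ ∈ w52, nv (ep m y) μ % 2 ≠ 0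

instance (m : ℕ) (y : Y) : Decidable (ok m y) := by unfold ok; infer_instance

/-- Multiplicities. -/
def cn (n : ℕ) (w : List (List ℤ)) (m : ℕ) (y : Y) (k : ℤ) : ℕ :=
  #{a : Fin n | nv y (w.getD a []) % m = k}

/-- The normalized elements of order five. -/
def gd (y : Y) : Prop := ok 5 y ∧ cn 27 wS 5 y 1 = 6 ∧ cn 27 wS 5 y 2 = 5 ∧ cn 27 wS 5 y 3 = 5 ∧
  cn 27 wS 5 y 4 = 6 ∧ ∀ a : Fin 27, nv y (wS.getD a []) % 5 = 1 ∨ nv y (wS.getD a []) % 5 = 4 →
    nv (ep 5 y) (wS.getD a []) % 2 = 1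

instance (y : Y) : Decidable (gd y) := by unfold gd; infer_instance

theorem c3 : ∀ y ∈ ys 3, cn 52 w52 3 y 0 = 22 → ok 3 y := by decide +kernel

theorem c5 : ∀ y ∈ ys 5, y ≠ 0 → cn 27 wS 5 y 0 ≠ 7 → ok 5 y := by decide +kernel

theorem c5' : ∀ y ∈ ys 5, cn 27 wS 5 y 0 = 5 →
    gd y ∨ gd (3 * y.1, 3 * y.2.1, 3 * y.2.2.1, 3 * y.2.2.2) := by decide +kernel

end TU
end CF.Al
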