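import Cfsg.Agent.Al.J

/-! The involution attached to a semisimple element of `F₄(q)`. -/

set_option autoImplicit false

namespace CF.Al

open CF.Chev CF.BN CF.ExA CF.E83 Cfsg.Lie Function Module

theorem rt52 : (∀ r : Fin 48, ∃ μ ∈ w52, ∀ i : Fin 4, cF4.A (cF4.simple i) r = μ.getD i 0) ∧
    ∀ μ ∈ w52, ∃ r : Fin 48, ∀ i : Fin 4, cF4.A (cF4.simple i) r = μ.getD i 0 := by
  have H : TabOf cF4 tabF4 := tabOf certF4
  simp only [H.car]
  decide +kernel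

theorem kill_iff {K : Type*} [Field K] {c e : Fin 4 → Kˣ} :
    (∀ μ ∈ w52, ev c μ = 1 → ev e μ = 1) ↔ ∀ r, rv cF4 c r = 1 → rv cF4 e r = 1 := by
  have k : ∀ {r : Fin 48} {μ : List ℤ}, (∀ i : Fin 4, cF4.A (cF4.simple i) r = μ.getD i 0) →
      ∀ c : Fin 4 → Kˣ, ev c μ = rv cF4 c r := fun h c => by simp only [rv_eq, h, ev]
  refine ⟨fun h r => ?_, fun h μ m => ?_⟩
  · obtain ⟨μ, m, e⟩ := rt52.1 r
    simpa only [k e] using h μ m
  · obtain ⟨r, e⟩ := rt52.2 μ m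
    simpa only [k e] using h r

variable {p q : ℕ} [Fact p.Prime] {X : Type*} [Group X] (L : LS cF4 1 p q 1 X)

theorem σ_tor' (c : Fin 4 → L.Kˣ) : L.T.σ (L.h.r3.tor c) = L.h.r3.tor (c ^ q) :=
  (L.σ_tor c).trans (congrArg _ (funext fun i => mp_Pm 1 q c i))

theorem σ_two (hp : p ≠ 2) {e : Fin 4 → L.Kˣ} (he : e * e = 1) :
    L.T.σ (L.h.r3.tor e) = L.h.r3.tor e := by
  obtain ⟨M, -, h⟩ := L.pow
  obtain ⟨k, hk⟩ := ((Fact.out : p.Prime).odd_of_ne_two hp).pow (n := M)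
  rw [σ_tor', (congrArg (e ^ ·) (h.trans hk) :), pow_succ, pow_mul, sq, he, one_pow, one_mul]

theorem exists_z {x : X} (h : (orderOf x : L.K) ≠ 0) : ∃ (g : L.G) (c : Fin 4 → L.Kˣ),
    orderOf c = orderOf x ∧ jG L x = g * L.h.r3.tor c * g⁻¹ ∧ (p ≠ 2 → ∀ e, Un c e →
      ∃ z, jG L z = g * L.h.r3.tor e * g⁻¹ ∧ ∀ y, Commute y x → Commute y z) := by
  obtain ⟨g, c, h1, h2⟩ := (in_jG L).exists_tor (x := x) ((Nat.Prime.coprime_iff_not_dvd Fact.out).2
    (mt (CharP.cast_eq_zero_iff L.K p _).2 h)).symm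
  have hc : IsOfFinOrder c := orderOf_pos_iff.1 (h1 ▸ Nat.pos_of_ne_zero fun k => h (by simp [k]))
  refine ⟨g, c, h1, h2, fun hp e he => ?_⟩
  have h3 : g⁻¹ * L.T.σ g * L.h.r3.tor (c ^ q) * (g⁻¹ * L.T.σ g)⁻¹ = L.h.r3.tor c := by
    have := σ_jG L x
    rw [h2, map_mul, map_mul, σ_tor', map_inv] at this
    rw [mul_inv_rev, ← mul_assoc, mul_assoc _ (L.T.σ g), mul_assoc _ (_ * _), this]; group
  obtain ⟨w, hw, h4⟩ := L.h.exists_W_of_conj h3
  have h5 := conj_tor L.h.r3 (nW_wd hw).acts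
  have h6 : ∀ r, rv cF4 (c ^ q) r = 1 → rv cF4 e r = 1 := fun r hr => kill_iff.1 he.2.2.1 r (by
    have : rv cF4 (c ^ q) r = rv cF4 c r ^ q := by
      simp only [rv_eq, Pi.pow_apply, ← zpow_natCast, zpow_comm _ (q : ℤ), Finset.prod_zpow]
    refine Units.ext (L.φ.injective ?_)
    rw [L.φ_eq, ← Units.val_pow_eq_pow_val, ← this, hr]; simp)
  have h7 : Commute ((L.ρ.nw (wd cF4 w))⁻¹ * (g⁻¹ * L.T.σ g)) (L.h.r3.tor e) :=
    cent_le L.h (hc.pow (n := q)) h6 (mul_inv_eq_iff_eq_mul.1 (by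
      rw [mul_inv_rev, inv_inv, mul_assoc _ (_ * _), mul_assoc, ← mul_assoc (_ * _),
        h3.trans ((h5 _).trans (congrArg _ h4)).symm]
      group))
  have h8 : mp (Mw cF4 w) e = e := by
    refine (he.2.2.2 _ (by rw [← map_mul, he.2.1, map_one]) (kill_iff.2 fun r hr => ?_)).resolve_left
      fun k => he.1 (L.h.inj (by simpa [k] using h5 e))
    obtain ⟨r, rfl⟩ := w.surjective r
    rw [← h4, rv_Mw (cF4.W_le_Aut hw)] at hr
    rw [rv_Mw (cF4.W_le_Aut hw), h6 r hr]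
  obtain ⟨z, hz⟩ := exists_jG L (g := g * L.h.r3.tor e * g⁻¹) (by
    have := h5 e
    rw [h8, mul_inv_eq_iff_eq_mul] at this
    have := ((show Commute _ _ from this).mul_left h7).eq
    rw [mul_inv_cancel_left] at this
    rw [map_mul, map_mul, σ_two L hp he.2.1, map_inv, mul_inv_eq_iff_eq_mul, mul_assoc, mul_assoc,
      ← this]; group)
  refine ⟨z, hz, fun y hy => (in_jG L).inj ?_⟩
  have := (cent_le L.h hc (kill_iff.1 he.2.2.1) (g := g⁻¹ * jG L y * g) (by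
    have := (hy.map (jG L)).map (MulAut.conj g⁻¹)
    simpa [h2, mul_assoc] using this)).map (MulAut.conj g)
  rw [map_mul, map_mul, hz]
  simpa [mul_assoc] using this.eq

include L in
theorem exists_two (hp : p ≠ 2) : ∃ E : Multiplicative (Fin 4 → ZMod 2) →* X, Injective E := by
  obtain ⟨ψ, h1, -⟩ := exists_ψ (B := Fin 4) (K := L.K) (m := 2) (p := p)
    ((Nat.coprime_primes Nat.prime_two Fact.out).2 hp.symm)
  let f : Multiplicative (Fin 4 → ZMod 2) →* Fin 4 → L.Kˣ :=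
    ⟨⟨fun v i => ψ (v.toAdd i), funext fun _ => ψ.map_zero_eq_one⟩,
      fun a b => funext fun _ => ψ.map_add_eq_mul _ _⟩
  refine ⟨(eG L).toMonoidHom.comp ((L.h.r3.tor.comp f).codRestrict _ fun v => (σ_two L hp (e := f v) ?_ :)),
    (eG L).injective.comp fun a b e => ?_⟩
  · rw [← map_mul, show v * v = 1 from funext fun _ => CharTwo.add_self_eq_zero _, map_one]
  · exact funext fun i => h1 (congrFun (L.h.inj (a₁ := f a) (a₂ := f b) (congrArg Subtype.val e :)) i)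

end CF.Al
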